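/-
Project PC: transitivity of a Sylow subgroup on the coset `z T` modulo squares.
-/
import Cfsg.Agent.H42.PcDefs

set_option autoImplicit false

namespace Cfsg.Agent.H39.PcTrans

open Subgroup Cfsg.Agent.H42.Pc

universe u

theorem orbit_card {H : Type*} [Group H] [Finite H] (N : Subgroup H) (z : H) :
    {x | ∃ g ∈ N, x = g * z * g⁻¹}.ncard * Nat.card ↥(N ⊓ centralizer ({z} : Set H)) = Nat.card N := by
  let _ : MulAction N H := MulAction.compHom H (MulAut.conj.comp N.subtype)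
  have hs : ∀ (g : N) (x : H), g • x = (g : H) * x * (g : H)⁻¹ := fun _ _ => rfl
  have h1 : MulAction.orbit N z = {x | ∃ g ∈ N, x = g * z * g⁻¹} := by
    ext x
    constructor
    · rintro ⟨g, rfl⟩
      exact ⟨g, g.2, hs g z⟩
    · rintro ⟨g, hg, rfl⟩
      exact ⟨⟨g, hg⟩, rfl⟩
  have h2 : MulAction.stabilizer N z = (N ⊓ centralizer ({z} : Set H)).subgroupOf N := by
    ext g
    rw [MulAction.mem_stabilizer_iff, hs, mem_subgroupOf, mem_inf, mem_centralizer_singleton_iff,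
      mul_inv_eq_iff_eq_mul]
    exact ⟨fun h => ⟨g.2, h⟩, fun h => h.2⟩
  rw [← h1, ← MulAction.index_stabilizer, ← (MulAction.stabilizer N z).index_mul_card, h2]
  congr 1
  exact (Nat.card_congr (subgroupOfEquivOfLe inf_le_left).toEquiv).symm

theorem core {Q : Type*} [Group Q] [Finite Q] (T : Subgroup Q) [hn : T.Normal] (hT : IsPGroup 2 T)
    (P : Sylow 2 Q) (z : Q) (hP : ∀ g ∈ (P : Subgroup Q), z⁻¹ * (g * z * g⁻¹) ∈ T)
    (tr : ∀ w ∈ T, ∃ g, z * w = g * z * g⁻¹) :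
    ∀ w ∈ T, ∃ g ∈ (P : Subgroup Q), z * w = g * z * g⁻¹ := by
  let H : Subgroup Q :=
    { carrier := {g | z⁻¹ * (g * z * g⁻¹) ∈ T}
      one_mem' := by simp
      mul_mem' := fun {a b} ha hb => by
        have := mul_mem ha (hn.conj_mem _ hb a)
        change _ ∈ T
        convert this using 1
        group
      inv_mem' := fun {a} ha => by
        have := hn.conj_mem _ (inv_mem ha) a⁻¹
        change _ ∈ T
        convert this using 1
        group }
  have hPH : (P : Subgroup Q) ≤ H := hP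
  have e1 : {x | ∃ g ∈ H, x = g * z * g⁻¹} = (fun w => z * w) '' (T : Set Q) := by
    ext x
    constructor
    · rintro ⟨g, hg, rfl⟩
      exact ⟨_, hg, mul_inv_cancel_left _ _⟩
    · rintro ⟨w, hw, rfl⟩
      obtain ⟨g, e⟩ := tr w hw
      refine ⟨g, ?_, e⟩
      change _ ∈ T
      rw [← e, inv_mul_cancel_left]
      exact hw
  obtain ⟨k, hk⟩ := IsPGroup.iff_card.1 hT
  have c1 : {x | ∃ g ∈ H, x = g * z * g⁻¹}.ncard = 2 ^ k := by
    rw [e1, Set.ncard_image_of_injective _ (mul_right_injective z), ← hk, ← Nat.card_coe_set_eq]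
    rfl
  have o1 := orbit_card H z
  have o2 := orbit_card (P : Subgroup Q) z
  obtain ⟨m, hm⟩ := IsPGroup.iff_card.1
    (P.isPGroup'.to_le (inf_le_left : (P : Subgroup Q) ⊓ centralizer ({z} : Set Q) ≤ P))
  have d1 : 2 ^ (k + m) ∣ Nat.card Q := by
    refine Dvd.dvd.trans ?_ (card_subgroup_dvd_card H)
    rw [← o1, c1, pow_add, ← hm]
    exact mul_dvd_mul_left _ (card_dvd_of_le (inf_le_inf_right _ hPH))
  have d2 := P.pow_dvd_card_of_pow_dvd_card d1
  rw [← o2, hm, pow_add] at d2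
  have d3 := Nat.dvd_of_mul_dvd_mul_right (by positivity) d2
  have hpos : 0 < {x | ∃ g ∈ (P : Subgroup Q), x = g * z * g⁻¹}.ncard :=
    (Set.ncard_pos (Set.toFinite _)).2 ⟨_, 1, one_mem _, rfl⟩
  have e2 : {x | ∃ g ∈ (P : Subgroup Q), x = g * z * g⁻¹} = {x | ∃ g ∈ H, x = g * z * g⁻¹} :=
    Set.eq_of_subset_of_ncard_le (fun _ ⟨g, hg, e⟩ => ⟨g, hPH hg, e⟩) (c1 ▸ Nat.le_of_dvd hpos d3)
  intro w hw
  have : z * w ∈ {x | ∃ g ∈ (P : Subgroup Q), x = g * z * g⁻¹} := by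
    rw [e2, e1]; exact ⟨w, hw, rfl⟩
  exact this

theorem trans (ab : AbStmt.{u}) : TransStmt.{u} := by
  intro G _ _ T U P z cf zU zT hP w hw
  obtain ⟨hN, hNT, -⟩ := ab G T U cf
  have hT := cf.nT
  have hs := QuotientGroup.mk'_surjective (Sq T)
  have hTn : (T.map (QuotientGroup.mk' (Sq T))).Normal := hT.map _ hs
  obtain ⟨_, ⟨g, hg, rfl⟩, e⟩ := core (T.map (QuotientGroup.mk' (Sq T)))
    ((cf.pU.to_le cf.le).map _) (P.mapSurjective hs) (QuotientGroup.mk' (Sq T) z) (by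
      rintro _ ⟨g, hg, rfl⟩
      have := mem_map_of_mem (QuotientGroup.mk' (Sq T)) (hP g hg)
      simpa only [map_mul, map_inv] using this) (by
      rintro _ ⟨v, hv, rfl⟩
      have h1 : z * v ∉ T := fun h => zT ((mul_mem_cancel_right hv).1 h)
      obtain ⟨g, e⟩ := cf.cc z zU (z * v) (mul_mem zU (cf.le hv)) zT h1
      obtain ⟨k, hk⟩ : z * v ∈ zpowers (g * z * g⁻¹) := e ▸ mem_zpowers _
      have h2 := cf.sq _ (cf.nU.conj_mem z zU g)
      simp only at hk
      obtain ⟨m, rfl | rfl⟩ := Int.even_or_odd' k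
      · rw [zpow_mul, zpow_two] at hk
        exact absurd (hNT (hk ▸ zpow_mem h2 m)) h1
      · rw [zpow_add_one, zpow_mul, zpow_two] at hk
        refine ⟨QuotientGroup.mk' (Sq T) g, ?_⟩
        have h3 : QuotientGroup.mk' (Sq T) ((g * z * g⁻¹ * (g * z * g⁻¹)) ^ m) = 1 :=
          (QuotientGroup.eq_one_iff _).2 (zpow_mem h2 m)
        rw [← map_mul, ← hk, map_mul, h3, one_mul, map_mul, map_mul, map_inv])
    _ (mem_map_of_mem _ hw)
  refine ⟨g, hg, QuotientGroup.eq.1 ?_⟩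
  simpa only [QuotientGroup.mk'_apply, QuotientGroup.mk_mul, QuotientGroup.mk_inv] using e

end Cfsg.Agent.H39.PcTrans
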