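import Cfsg.Agent.H53.AhDefs

/-!
Solvable groups whose conjugacy classes have distinct sizes: the count of vectors and the
elimination of the primes at least five.
-/

set_option autoImplicit false
set_option linter.style.haveILetI false

namespace Cfsg.Agent.H39.AH5

open MulAction Cfsg.Agent.H12.RO Cfsg.Agent.H53.MW Cfsg.Agent.H53.AH

universe u

theorem t23_eq {m : ℕ} (h0 : m ≠ 0) (h : T23 m) : ∃ a b, m = 2 ^ a * 3 ^ b := by
  obtain ⟨a, k, hk, rfl⟩ := Nat.exists_eq_two_pow_mul_odd h0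
  refine ⟨a, k.primeFactorsList.length, ?_⟩
  congr 1
  refine Nat.eq_prime_pow_of_unique_prime_dvd (right_ne_zero_of_mul h0) fun {q} hq hd => ?_
  rcases h q hq (hd.mul_left _) with rfl | rfl
  · exact absurd (even_iff_two_dvd.2 hd) (Nat.not_even_iff_odd.2 hk)
  · rfl

theorem sum_div_lt {m : ℕ} (h0 : m ≠ 0) (h : T23 m) : ∑ d ∈ m.divisors, d < 3 * m := by
  obtain ⟨a, b, rfl⟩ := t23_eq h0 h
  have h2 : ∀ n, ∑ i ∈ Finset.range n, 2 ^ i + 1 = 2 ^ n := fun n => by
    induction n with
    | zero => simp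
    | succ n ih => rw [Finset.sum_range_succ, pow_succ]; omega
  have h3 : ∀ n, 2 * ∑ i ∈ Finset.range n, 3 ^ i + 1 = 3 ^ n := fun n => by
    induction n with
    | zero => simp
    | succ n ih => rw [Finset.sum_range_succ, pow_succ]; omega
  rw [Nat.Coprime.sum_divisors_mul (Nat.Coprime.pow _ _ (by norm_num)),
    Nat.sum_divisors_prime_pow Nat.prime_two, Nat.sum_divisors_prime_pow Nat.prime_three]
  have e2 := h2 (a + 1)
  have e3 := h3 (b + 1)
  rw [pow_succ] at e2 e3
  generalize ∑ i ∈ Finset.range (a + 1), 2 ^ i = x at *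
  generalize ∑ i ∈ Finset.range (b + 1), 3 ^ i = y at *
  generalize 2 ^ a = s at *
  generalize 3 ^ b = t at *
  nlinarith

theorem sm_t23 {G V : Type*} [Group G] [Finite G] [MulAction G V] (h : Sm G V) :
    T23 (Nat.card (img G V)) := by
  intro q hq hd
  haveI : Fact q.Prime := ⟨hq⟩
  haveI : Finite (img G V) := Finite.of_surjective _ (toPermHom G V).rangeRestrict_surjective
  obtain ⟨⟨_, g, rfl⟩, hx⟩ := exists_prime_orderOf_dvd_card' q hd
  obtain ⟨a, ha⟩ := h
  have h1 : q ∣ 6 ^ a := by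
    rw [← hx, orderOf_dvd_iff_pow_eq_one]
    refine Subtype.ext (Equiv.ext fun v => ?_)
    rw [SubgroupClass.coe_pow, ← map_pow]
    exact ha g v
  have h2 : q ∣ 2 * 3 := hq.dvd_of_dvd_pow h1
  rcases (Nat.Prime.dvd_mul hq).1 h2 with h | h
  · exact .inl ((Nat.prime_dvd_prime_iff_eq hq Nat.prime_two).1 h)
  · exact .inr ((Nat.prime_dvd_prime_iff_eq hq Nat.prime_three).1 h)

/-- **CNT** -/
theorem cnt : H53.AH.CntStmt.{u} := by
  intro G V _ _ _ _ _ _ _ p β h
  classical
  haveI := Fintype.ofFinite V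
  have hm : Nat.card (img G V) ≠ 0 := Nat.card_pos.ne'
  have hlt := sum_div_lt hm (sm_t23 h.sm)
  have hle : (Finset.univ.erase (0 : V)).card ≤ ∑ d ∈ (Nat.card (img G V)).divisors, d := by
    rw [Finset.card_eq_sum_card_fiberwise (f := fun v => (stabilizer G v).index)
      (t := (Nat.card (img G V)).divisors)]
    · refine Finset.sum_le_sum fun d _ => ?_
      rcases ((Finset.univ.erase (0 : V)).filter
        fun v => (stabilizer G v).index = d).eq_empty_or_nonempty with e | ⟨v, hv⟩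
      · rw [e]; simp
      · obtain ⟨hv0, hv⟩ := Finset.mem_filter.1 hv
        rw [← hv, index_stabilizer, ← Set.ncard_coe_finset]
        refine Set.ncard_le_ncard (fun w hw => ?_) (Set.toFinite _)
        obtain ⟨hw0, hw⟩ := Finset.mem_filter.1 (Finset.mem_coe.1 hw)
        refine h.dos v w (Finset.ne_of_mem_erase hv0) (Finset.ne_of_mem_erase hw0) ?_
        have e1 := (stabilizer G v).card_mul_index
        have e2 := (stabilizer G w).card_mul_index
        rw [hw, ← index_stabilizer, ← e1] at e2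
        exact (Nat.eq_of_mul_eq_mul_right (Nat.pos_of_ne_zero Subgroup.index_ne_zero_of_finite) e2).symm
    · intro v _
      refine Finset.mem_coe.2 (Nat.mem_divisors.2 ⟨?_, hm⟩)
      rw [← Subgroup.index_ker]
      exact Subgroup.index_dvd_of_le fun g hg => Equiv.congr_fun (MonoidHom.mem_ker.1 hg) v
  rw [Finset.card_erase_of_mem (Finset.mem_univ _), Finset.card_univ, ← Nat.card_eq_fintype_card] at hle
  omega

theorem ah_rat {G : Type*} [Group G] (h : Ah G) : Rat G := fun x y e => h x y (by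
  have : Subgroup.centralizer ({x} : Set G) = Subgroup.centralizer ({y} : Set G) := by
    rw [← Subgroup.centralizer_closure, ← Subgroup.zpowers_eq_closure, e,
      Subgroup.zpowers_eq_closure, Subgroup.centralizer_closure]
  unfold cc
  rw [this])

theorem five_le {q : ℕ} (hq : q.Prime) (h : ¬ (q = 2 ∨ q = 3)) : 5 ≤ q := by
  have := hq.two_le
  by_contra h5
  have : q = 4 := by omega
  subst this
  exact absurd hq (by norm_num)

/-- **NO5** -/
theorem no5 (sd : SdStmt.{u}) (t2 : T2Stmt.{u}) (t4 : T4Stmt.{u}) (t5 : T5Stmt.{u})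
    (t7 : T7Stmt.{u}) : No5Stmt.{u} := by
  intro G _ _ _ hA p hp hd
  by_contra hne
  have h5 := five_le hp hne
  haveI : Fact p.Prime := ⟨hp⟩
  have hR := ah_rat hA
  obtain ⟨P⟩ : Nonempty (Sylow p G) := inferInstance
  haveI hP := t2 G hR p h5 P
  obtain ⟨N, hN, hbot, hNP, hmin⟩ :=
    exists_chief_above (K := ⊥) (X := (P : Subgroup G)) (bot_lt_iff_ne_bot.2 (P.ne_bot_of_dvd_card hd))
  obtain ⟨hc, r, hr, hrN, -⟩ := chief_elem hbot hmin
  obtain ⟨V, _, _, π, hs⟩ := exists_sec ⊥ N hc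
  obtain ⟨n0, hn0, hn1⟩ := SetLike.exists_of_lt hbot
  have hrp : r = p := by
    haveI : Fact r.Prime := ⟨hr⟩
    obtain ⟨k, hk⟩ := P.isPGroup' ⟨n0, hNP hn0⟩
    have h1 : orderOf n0 = r := orderOf_eq_prime (hrN n0 hn0) hn1
    have h2 : orderOf n0 ∣ p ^ k := orderOf_dvd_iff_pow_eq_one.2 (congrArg Subtype.val hk)
    exact (Nat.prime_dvd_prime_iff_eq hr hp).1 (hr.dvd_of_dvd_pow (h1 ▸ h2))
  subst hrp
  haveI := hs.finite
  have hv0 : π n0 ≠ 0 := fun e => hn1 ((hs.ker n0 hn0).1 e)
  haveI : Nontrivial V := ⟨⟨_, _, hv0⟩⟩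
  have hirr := hs.irr bot_le hmin
  have hpV : ∀ v : V, r • v = 0 := fun v => by
    obtain ⟨n, hn, rfl⟩ := hs.surj v
    rw [← hs.pow hn, Subgroup.mem_bot.1 (hrN n hn), hs.one]
  have hst : ∀ n ∈ N, ∀ g : G, g • π n = π n ↔ g * n = n * g := fun n hn g => by
    rw [← hs.conj g n hn, hs.eq_iff (hN.conj_mem n hn g) hn, Subgroup.mem_bot, inv_mul_eq_one,
      mul_inv_eq_iff_eq_mul]
  obtain ⟨β, hβ⟩ := sd G V r hp hpV hirr fun g => hR g g⁻¹ Subgroup.zpowers_inv.symm
  have halt : ∀ v, β v v = 0 := fun v => by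
    obtain ⟨n, hn, rfl⟩ := hs.surj v
    have hz : Subgroup.zpowers n = Subgroup.zpowers (n ^ 2) := by
      refine le_antisymm (Subgroup.zpowers_le.2 (mem_zpowers_pow_iff.2 ?_))
        (Subgroup.zpowers_le.2 (Subgroup.npow_mem_zpowers n 2))
      refine Nat.Coprime.coprime_dvd_right (orderOf_dvd_of_pow_eq_one (hrN n hn)) ?_
      exact (Nat.coprime_primes Nat.prime_two hp).2 (by omega)
    obtain ⟨g, hg⟩ := isConj_iff.1 (hR _ _ hz)
    have e := hβ.inv g (π n) (π n)
    rw [← hs.conj g n hn, hg, hs.pow hn, two_nsmul] at e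
    simp only [map_add, AddMonoidHom.add_apply] at e
    have h3 : (3 : ZMod r) ≠ 0 := fun h => by
      have := (ZMod.natCast_eq_zero_iff 3 r).1 (by exact_mod_cast h)
      have := Nat.le_of_dvd (by norm_num) this
      omega
    exact (mul_eq_zero.1 (by linear_combination e : 3 * β (π n) (π n) = 0)).resolve_left h3
  have hker : ∀ g : G, (∀ v : V, g • v = v) → g ∈ (toPermHom G V).ker := fun g hg =>
    MonoidHom.mem_ker.2 (Equiv.ext hg)
  have hPC : ∀ g ∈ (P : Subgroup G), ∀ v : V, g • v = v := by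
    let A : AddSubgroup V :=
      { carrier := {v | ∀ g ∈ (P : Subgroup G), g • v = v}
        zero_mem' := fun g _ => smul_zero g
        add_mem' := fun ha hb g hg => by rw [smul_add, ha g hg, hb g hg]
        neg_mem' := fun ha g hg => by rw [smul_neg, ha g hg] }
    have hinv : Inv G A := fun g v hv t ht => by
      have := hv _ (hP.conj_mem' t ht g)
      rw [mul_smul, mul_smul, inv_smul_eq_iff] at this
      exact this
    have hdv : r ∣ Nat.card V := by
      rw [← addOrderOf_eq_prime (hpV _) hv0]; exact addOrderOf_dvd_natCard _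
    obtain ⟨b, hb, hb0⟩ := P.isPGroup'.exists_fixed_point_of_prime_dvd_card_of_fixed_point V hdv
      (a := 0) fun g => smul_zero g
    rcases hirr A hinv with e | e
    · have : b ∈ A := fun g hg => hb ⟨g, hg⟩
      rw [e] at this
      exact absurd (AddSubgroup.mem_bot.1 this).symm hb0
    · intro g hg v
      exact (e ▸ AddSubgroup.mem_top v : v ∈ A) g hg
  have hT : T23 (toPermHom G V).ker.index := fun q hq hqd => by
    by_contra hq5
    haveI : Fact q.Prime := ⟨hq⟩
    obtain ⟨Q⟩ : Nonempty (Sylow q G) := inferInstance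
    haveI hQ := t2 G hR q (five_le hq hq5) Q
    refine Q.not_dvd_index (hqd.trans (Subgroup.index_dvd_of_le fun g hg => hker g fun v => ?_))
    by_cases e : q = r
    · subst e
      haveI := Sylow.unique_of_normal P hP
      rw [Subsingleton.elim Q P] at hg
      exact hPC g hg v
    · obtain ⟨n, hn, rfl⟩ := hs.surj v
      exact (hst n hn g).2 (Subgroup.commute_of_normal_of_disjoint _ _ hQ hP
        (IsPGroup.disjoint_of_ne q r e _ _ Q.isPGroup' P.isPGroup') g n hg (hNP hn))
  have hsm : Sm G V := by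
    obtain ⟨a, b, e⟩ := t23_eq Subgroup.index_ne_zero_of_finite hT
    refine ⟨a + b, fun g v => ?_⟩
    have h1 : g ^ 6 ^ (a + b) ∈ (toPermHom G V).ker := by
      have e2 : 6 ^ (a + b) = (toPermHom G V).ker.index * (3 ^ a * 2 ^ b) := by
        rw [e, show 6 = 2 * 3 from rfl, mul_pow]; ring
      rw [e2, pow_mul]
      exact pow_mem (Subgroup.pow_index_mem _ g) _
    exact Equiv.congr_fun (MonoidHom.mem_ker.1 h1) v
  have hdos : Dos G V := fun v w _ _ e => by
    obtain ⟨n, hn, rfl⟩ := hs.surj v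
    obtain ⟨n', hn', rfl⟩ := hs.surj w
    have hc : ∀ n ∈ N, stabilizer G (π n) = Subgroup.centralizer {n} := fun n hn =>
      Subgroup.ext fun g => by
        rw [mem_stabilizer_iff, hst n hn, Subgroup.mem_centralizer_singleton_iff]
    rw [hc n hn, hc n' hn'] at e
    obtain ⟨g, hg⟩ := isConj_iff.1 (hA n n' e)
    exact ⟨g, by rw [← hs.conj g n hn, hg]⟩
  obtain ⟨v, M, hB, h | h⟩ := t4 G V r β ⟨hβ, hp, h5, hirr, halt, hsm, hdos⟩
  · exact t5 G V v M hR hdos hB h
  · exact t7 G V v M hR hdos hB h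

end Cfsg.Agent.H39.AH5
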