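import Cfsg.Agent.H9.C3Defs
import Cfsg.Agent.H87.Sylow

/-!
Project C3, piece DU: the group of order 256 of the diamond.
-/

set_option autoImplicit false

namespace Cfsg.Agent.H39.C3Du

open Subgroup Cfsg.Agent.H62 Cfsg.Agent.H9.C3

universe u

variable {G : Type u} [Group G]

theorem cm_symm {A B : Subgroup G} (h : Cm A B) : Cm B A := fun b hb a ha => (h a ha b hb).symm

theorem le_nm_of_cm {A B : Subgroup G} (h : Cm A B) : B ≤ Nm A := by
  intro b hb
  rw [mem_normalizer_iff]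
  intro a
  constructor
  · intro ha
    rwa [← h a ha b hb, mul_inv_cancel_right]
  · intro ha
    have e : a = b * a * b⁻¹ := by
      have h2 := h _ ha b⁻¹ (B.inv_mem hb)
      calc a = b⁻¹ * (b * a * b⁻¹) * b := by group
        _ = b * a * b⁻¹ * b⁻¹ * b := by rw [← h2]
        _ = b * a * b⁻¹ := by group
    exact e ▸ ha

/-- The abstract configuration. -/
structure Ab (Z B C A A' U : Subgroup G) : Prop where
  hA : A = Z ⊔ B
  hA' : A' = Z ⊔ C
  hU : U = A ⊔ C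
  hU' : U = A' ⊔ B
  eA : EA A
  eA' : EA A'
  key : ∀ v ∈ B, ∀ b ∈ C, v * b = b * v → v = 1 ∨ b = 1
  nA : U ≤ Nm A
  nA' : U ≤ Nm A'

namespace Ab

variable {Z B C A A' U : Subgroup G}

theorem symm (h : Ab Z B C A A' U) : Ab Z C B A' A U :=
  ⟨h.hA', h.hA, h.hU', h.hU, h.eA', h.eA,
    fun v hv b hb e => (h.key b hb v hv e.symm).symm, h.nA', h.nA⟩

theorem ZA (h : Ab Z B C A A' U) : Z ≤ A := h.hA ▸ le_sup_left

theorem BA (h : Ab Z B C A A' U) : B ≤ A := h.hA ▸ le_sup_right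

theorem AU (h : Ab Z B C A A' U) : A ≤ U := h.hU ▸ le_sup_left

theorem CU (h : Ab Z B C A A' U) : C ≤ U := h.hU ▸ le_sup_right

theorem decU (h : Ab Z B C A A' U) {w : G} (hw : w ∈ U) : ∃ a ∈ A, ∃ c ∈ C, a * c = w := by
  rw [h.hU] at hw
  exact (H1.mem_sup_of_le_normalizer' (h.CU.trans h.nA)).1 hw

theorem decA (h : Ab Z B C A A' U) {w : G} (hw : w ∈ A) : ∃ z ∈ Z, ∃ v ∈ B, z * v = w := by
  rw [h.hA] at hw
  exact (H1.mem_sup_of_le_normalizer'
    (le_nm_of_cm fun a ha b hb => h.eA.comm (h.ZA ha) (h.BA hb))).1 hw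

theorem cm (h : Ab Z B C A A' U) {g w : G} (hg : g ∈ U) (hw : w ∈ U) :
    g * w * g⁻¹ * w⁻¹ ∈ A := by
  obtain ⟨a, ha, b, hb, rfl⟩ := h.decU hg
  obtain ⟨a', ha', b', hb', rfl⟩ := h.decU hw
  have hc : b * b' = b' * b := h.eA'.comm (h.symm.BA hb) (h.symm.BA hb')
  have e : a * b * (a' * b') * (a * b)⁻¹ * (a' * b')⁻¹ =
      a * (b * a' * b⁻¹) * (b * b' * b⁻¹ * a⁻¹ * b'⁻¹) * a'⁻¹ := by group
  rw [e, hc, mul_inv_cancel_right]
  exact A.mul_mem (A.mul_mem (A.mul_mem ha (conj_mem_of_norm (h.nA (h.CU hb)) ha'))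
    (conj_mem_of_norm (h.nA (h.CU hb')) (A.inv_mem ha))) (A.inv_mem ha')

theorem cen (h : Ab Z B C A A' U) {a w : G} (ha : a ∈ A) (ha' : a ∉ A') (hw : w ∈ U)
    (hc : w * a = a * w) : w ∈ A := by
  obtain ⟨a₁, ha₁, b, hb, rfl⟩ := h.decU hw
  have h1 : b * a = a * b := by
    have h2 := h.eA.comm ha₁ ha
    rw [mul_assoc, ← mul_assoc a, ← h2, mul_assoc] at hc
    exact mul_left_cancel hc
  obtain ⟨z, hz, v, hv, rfl⟩ := h.decA ha
  have h3 : b * z = z * b := h.eA'.comm (h.symm.BA hb) (h.symm.ZA hz)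
  have h4 : v * b = b * v := by
    rw [← mul_assoc, h3, mul_assoc, mul_assoc] at h1
    exact (mul_left_cancel h1).symm
  rcases h.key v hv b hb h4 with rfl | rfl
  · exact (ha' (by simpa using h.symm.ZA hz)).elim
  · simpa using ha₁

theorem inv (h : Ab Z B C A A' U) {w : G} (hw : w ∈ U) (h2 : w * w = 1) : w ∈ A ∨ w ∈ A' := by
  by_cases hA' : w ∈ A'
  · exact Or.inr hA'
  obtain ⟨a, ha, b, hb, rfl⟩ := h.decU hw
  have hb' := h.symm.BA hb
  have ha' : a ∉ A' := fun h0 => hA' (A'.mul_mem h0 hb')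
  refine Or.inl (h.cen ha ha' hw ?_)
  have e : a * b = b * a := by
    have := inv_eq_of_sq h2
    rw [mul_inv_rev, h.eA.inv ha, h.eA'.inv hb'] at this
    exact this.symm
  rw [mul_assoc, ← e]

end Ab

section Conc

variable {e x : G}

theorem pr_le {I : Finset (Fin 4)} {K : Subgroup G} : Pr e x I ≤ K ↔ ∀ j ∈ I, W e x j ≤ K :=
  iSup₂_le_iff

theorem le_pr {I : Finset (Fin 4)} {j : Fin 4} (hj : j ∈ I) : W e x j ≤ Pr e x I :=
  pr_le.1 le_rfl j hj

theorem pr_mono {I J : Finset (Fin 4)} (h : I ⊆ J) : Pr e x I ≤ Pr e x J :=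
  pr_le.2 fun _ hj => le_pr (h hj)

theorem pr_eq_sup {I J : Finset (Fin 4)} {i : Fin 4} (h : J = insert i I) :
    Pr e x J = Pr e x I ⊔ W e x i := by
  subst h
  refine le_antisymm (pr_le.2 fun j hj => ?_)
    (sup_le (pr_mono (Finset.subset_insert _ _)) (le_pr (Finset.mem_insert_self _ _)))
  rcases Finset.mem_insert.1 hj with rfl | hj
  · exact le_sup_right
  · exact (le_pr hj).trans le_sup_left

theorem nm_inf {P A B : Subgroup G} (hA : P ≤ Nm A) (hB : P ≤ Nm B) : P ≤ Nm (A ⊓ B) := by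
  intro p hp
  rw [mem_normalizer_iff]
  intro a
  rw [mem_inf, mem_inf, mem_normalizer_iff.1 (hA hp) a, mem_normalizer_iff.1 (hB hp) a]

theorem nm_nm [Finite G] {P A : Subgroup G} (hA : P ≤ Nm A) : P ≤ Nm (Nm A) :=
  hA.trans le_normalizer

theorem nm_cen [Finite G] {P A : Subgroup G} (hA : P ≤ Nm A) :
    P ≤ Nm (centralizer (A : Set G)) := by
  intro p hp
  refine mem_normalizer_of_forall fun c hc => mem_centralizer_iff.2 fun a ha => ?_
  have h1 : p⁻¹ * a * p⁻¹⁻¹ ∈ A := conj_mem_of_norm ((Nm A).inv_mem (hA hp)) ha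
  have h2 := mem_centralizer_iff.1 hc _ h1
  calc a * (p * c * p⁻¹) = p * (p⁻¹ * a * p⁻¹⁻¹ * c) * p⁻¹ := by group
    _ = p * (c * (p⁻¹ * a * p⁻¹⁻¹)) * p⁻¹ := by rw [h2]
    _ = p * c * p⁻¹ * a := by group

theorem eaW {P : Subgroup G} (K : Kit G) (L : Lin P e x) (i : Fin 4) : EA (W e x i) :=
  fun g hg => ((K.mem _ (L.ord i) g).1 hg).1

theorem cardW {P : Subgroup G} (K : Kit G) (L : Lin P e x) (D : DDat e x) (i : Fin 4) :
    Nat.card (W e x i) = 4 :=
  (K.card _ (L.ord i)).resolve_left (D.big i)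

variable [Finite G]

/-- Non-trivial elements of `V₂` and `V₃` do not commute. -/
theorem key {P : Sylow 3 G} (K : Kit G) (L : Lin (P : Subgroup G) e x) (D : DDat e x) {v b : G}
    (hv : v ∈ W e x 2) (hb : b ∈ W e x 3) (hc : v * b = b * v) : v = 1 ∨ b = 1 := by
  by_contra hne
  push Not at hne
  set y := ln e x 3 with hy
  have hyb : b * y = y * b := ((K.mem _ (L.ord 3) b).1 hb).2
  have hyx : ln e x 2 * y = y * ln e x 2 := K.comm P _ (L.mem 2) _ (L.mem 3)
  have hvy : y * v * y⁻¹ ≠ v := fun h => hne.1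
    (K.fpf _ y (L.ord 2) (L.ord 3) hyx (L.ne 2 3 (by decide)) v hv
      (by rw [mul_inv_eq_iff_eq_mul] at h; exact h.symm))
  have hv1 : y * v * y⁻¹ ≠ 1 := fun h => hne.1 (by simpa using h)
  have m1 : v ∈ W e x 2 ⊓ C1 b := ⟨hv, mem_centralizer_singleton_iff.2 hc⟩
  have m2 : y * v * y⁻¹ ∈ W e x 2 ⊓ C1 b := by
    refine ⟨conj_mem_of_norm (L.nW 2 (L.mem 3)) hv, mem_centralizer_singleton_iff.2 ?_⟩
    calc y * v * y⁻¹ * b = y * v * y⁻¹ * (b * y) * y⁻¹ := by group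
      _ = y * (v * b) * y⁻¹ := by rw [hyb]; group
      _ = (y * b) * v * y⁻¹ := by rw [hc]; group
      _ = b * (y * v * y⁻¹) := by rw [← hyb]; group
  have h3 : 2 < Nat.card (W e x 2 ⊓ C1 b : Subgroup G) := by
    have := Fintype.ofFinite (W e x 2 ⊓ C1 b : Subgroup G)
    rw [Nat.card_eq_fintype_card, Fintype.two_lt_card_iff]
    exact ⟨1, ⟨v, m1⟩, ⟨_, m2⟩, fun h => hne.1 (congrArg Subtype.val h).symm,
      fun h => hv1 (congrArg Subtype.val h).symm, fun h => hvy (congrArg Subtype.val h).symm⟩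
  have h4 : Nat.card (W e x 2 ⊓ C1 b : Subgroup G) ∣ 4 := by
    have := card_dvd_of_le (inf_le_left : W e x 2 ⊓ C1 b ≤ W e x 2)
    rwa [cardW K L D 2] at this
  have h5 : W e x 2 ⊓ C1 b = W e x 2 := by
    refine H1.eq_of_le_of_card_le inf_le_left ?_
    rw [cardW K L D 2]
    have := Nat.le_of_dvd (by norm_num) h4
    generalize Nat.card (W e x 2 ⊓ C1 b : Subgroup G) = n at *
    interval_cases n <;> simp_all
  have h6 : b ∈ centralizer (W e x 2 : Set G) := mem_centralizer_iff.2 fun a ha =>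
    mem_centralizer_singleton_iff.1 (show a ∈ W e x 2 ⊓ C1 b by rw [h5]; exact ha).2
  have h7 := L.irr 3 _ (nm_cen (L.nW 2)) fun h =>
    hne.2 (mem_bot.1 (h ▸ (⟨h6, hb⟩ : b ∈ centralizer (W e x 2 : Set G) ⊓ W e x 3)))
  exact D.nc fun a ha c hc => mem_centralizer_iff.1 (h7 hc) a ha

/-- A subgroup generated by three of the four groups is normal in the whole. -/
theorem norm_three {P : Subgroup G} (L : Lin0 P e x) (h2 : IsPGroup 2 (Pr e x Finset.univ))
    {I : Finset (Fin 4)} {i : Fin 4} (hI : Finset.univ = insert i I) :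
    Pr e x Finset.univ ≤ Nm (Pr e x I) := by
  have : Fact (Nat.Prime 2) := ⟨Nat.prime_two⟩
  have hle : Pr e x I ≤ Pr e x Finset.univ := pr_mono (Finset.subset_univ _)
  by_cases hU : Pr e x Finset.univ ≤ Pr e x I
  · exact hU.trans le_normalizer
  obtain ⟨g, hg, hgI, hgN⟩ := H87.exists_mem_normalizer_not_mem h2 hle hU
  obtain ⟨J, hJ, hN⟩ := L.gen (Pr e x Finset.univ ⊓ Nm (Pr e x I)) (h2.to_inf_left)
    (nm_inf (L.nP _) (nm_nm (L.nP I)))
  by_cases hi : i ∈ J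
  · rw [pr_eq_sup hI]
    exact sup_le le_normalizer (((hJ i).1 hi).2.trans inf_le_right)
  · refine (hgI ?_).elim
    have hJI : J ⊆ I := fun j hj => by
      have := Finset.mem_univ j
      rw [hI, Finset.mem_insert] at this
      exact this.resolve_left fun h => hi (h ▸ hj)
    exact pr_mono hJI (hN ▸ (⟨hg, hgN⟩ : g ∈ Pr e x Finset.univ ⊓ Nm (Pr e x I)))

end Conc

theorem du : DUStmt.{u} := by
  intro G _ _ K P e x _ L D
  have c22 : ∀ i, Cm (W e x i) (W e x i) := fun i a ha b hb => (eaW K L i).comm ha hb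
  obtain ⟨eZ, cZ, -⟩ := L.cl {0, 1} (fun j _ => D.big j) (by
    intro j hj k _
    simp only [Finset.mem_insert, Finset.mem_singleton] at hj
    rcases hj with rfl | rfl
    exacts [D.c0 k, D.c1 k])
  obtain ⟨eA, cA, iA⟩ := L.cl {0, 1, 2} (fun j _ => D.big j) (by
    intro j hj k hk
    simp only [Finset.mem_insert, Finset.mem_singleton] at hj hk
    rcases hj with rfl | rfl | rfl
    exacts [D.c0 k, D.c1 k, by
      rcases hk with rfl | rfl | rfl
      exacts [cm_symm (D.c0 _), cm_symm (D.c1 _), c22 _]])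
  obtain ⟨eA', cA', iA'⟩ := L.cl {0, 1, 3} (fun j _ => D.big j) (by
    intro j hj k hk
    simp only [Finset.mem_insert, Finset.mem_singleton] at hj hk
    rcases hj with rfl | rfl | rfl
    exacts [D.c0 k, D.c1 k, by
      rcases hk with rfl | rfl | rfl
      exacts [cm_symm (D.c0 _), cm_symm (D.c1 _), c22 _]])
  have h2 : IsPGroup 2 (Pr e x Finset.univ) := by
    obtain ⟨J, hJ, -, h⟩ := L.mcl {0, 1} (by decide) fun j _ => D.big j
    have : J = Finset.univ := Finset.eq_univ_iff_forall.2 fun k => (hJ k).2 ⟨D.big k, by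
      intro j hj
      simp only [Finset.mem_insert, Finset.mem_singleton] at hj
      rcases hj with rfl | rfl
      exacts [cm_symm (D.c0 k), cm_symm (D.c1 k)]⟩
    exact this ▸ h
  have ab : Ab (Pr e x {0, 1}) (W e x 2) (W e x 3) (Pr e x {0, 1, 2}) (Pr e x {0, 1, 3})
      (Pr e x Finset.univ) :=
    ⟨pr_eq_sup (by decide), pr_eq_sup (by decide), pr_eq_sup (by decide), pr_eq_sup (by decide),
      eA, eA', fun _ hv _ hb hc => key K L D hv hb hc,
      norm_three L.1 h2 (i := 3) (by decide), norm_three L.1 h2 (i := 2) (by decide)⟩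
  have hZ : Pr e x {0, 1, 2} ⊓ Pr e x {0, 1, 3} = Pr e x {0, 1} := by
    refine le_antisymm ?_ (le_inf ab.ZA ab.symm.ZA)
    obtain ⟨J, hJ, hN⟩ := L.gen (Pr e x {0, 1, 2} ⊓ Pr e x {0, 1, 3}) eA.isPGroup.to_inf_left
      (nm_inf (L.nP _) (L.nP _))
    rw [hN]
    refine pr_mono fun j hj => ?_
    obtain ⟨h1, h3⟩ := (hJ j).1 hj
    have a2 : j ∈ ({0, 1, 2} : Finset (Fin 4)) := by
      by_contra h
      exact h1 (by rw [← iA j h]; exact (inf_eq_left.2 (h3.trans inf_le_left)).symm)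
    have a3 : j ∈ ({0, 1, 3} : Finset (Fin 4)) := by
      by_contra h
      exact h1 (by rw [← iA' j h]; exact (inf_eq_left.2 (h3.trans inf_le_right)).symm)
    revert a2 a3
    fin_cases j <;> decide
  refine ⟨⟨?_, eA, eA', ?_, cA, cA', hZ ▸ cZ, ab.nA, ab.nA',
    fun g hg w hw => ⟨ab.cm hg hw, ab.symm.cm hg hw⟩, fun w hw h => ab.inv hw h,
    fun a ha ha' w hw hc => ab.cen ha ha' hw hc,
    fun a ha ha' w hw hc => ab.symm.cen ha ha' hw hc⟩, hZ⟩
  · refine le_antisymm (sup_le ab.AU ab.symm.AU) ?_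
    rw [ab.hU]
    exact sup_le_sup_left ab.symm.BA _
  · have := H1.card_sup_mul_card_inf_of_le_normalizer (ab.CU.trans ab.nA)
    rw [iA 3 (by decide), sup_comm, ← ab.hU, cA, cardW K L D 3, card_bot] at this
    simpa using this

end Cfsg.Agent.H39.C3Du
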