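import Cfsg.Agent.H12.Burnside
import Cfsg.Agent.H11.TICongr
import Cfsg.Agent.H11.PermChar
import Cfsg.Agent.H24.Deg
import Cfsg.Agent.H39.TI

/-!
Criteria for an element to be a product of two conjugates of a given element.
-/

set_option autoImplicit false

namespace Cfsg.Agent.H39

open Cfsg
open scoped ComplexConjugate

variable {G : Type*} [Group G]

/-- `g` is a product of two conjugates of `x`. -/
def InSq (x g : G) : Prop := ∃ u v : G, g = (u * x * u⁻¹) * (v * x * v⁻¹)

theorem InSq.conj {x g : G} (h : InSq x g) (a : G) : InSq x (a * g * a⁻¹) := by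
  obtain ⟨u, v, rfl⟩ := h
  exact ⟨a * u, a * v, by group⟩

theorem InSq.of_conj {x g : G} {a : G} (h : InSq x (a⁻¹ * g * a)) : InSq x g := by
  simpa [mul_assoc] using h.conj a

theorem InSq.left {x g : G} {a : G} (h : InSq (a⁻¹ * x * a) g) : InSq x g := by
  obtain ⟨u, v, rfl⟩ := h
  exact ⟨u * a⁻¹, v * a⁻¹, by group⟩

theorem InSq.inv {x g : G} (hx : ∃ r, r * x * r⁻¹ = x⁻¹) (h : InSq x g) : InSq x g⁻¹ := by
  obtain ⟨r, hr⟩ := hx
  obtain ⟨u, v, rfl⟩ := h
  refine ⟨v * r, u * r, ?_⟩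
  have e : ∀ w, w * r * x * (w * r)⁻¹ = w * x⁻¹ * w⁻¹ := fun w => by rw [← hr]; group
  rw [e, e]
  group

theorem inSq_mul_self (v : G) {j : G} (hj : j * j = 1) : InSq (v * j) (v * v) :=
  ⟨1, j, by
    rw [inv_eq_of_mul_eq_one_right hj, one_mul, inv_one, mul_one, mul_assoc j, mul_assoc v j j, hj,
      mul_one, mul_assoc, ← mul_assoc j, hj, one_mul]⟩

theorem inSq_of_sum [Fintype G] [Fintype (IrrCharacter G)] {x g : G}
    (key : ∑ χ : IrrCharacter G, (χ : G → ℂ) x * (χ : G → ℂ) x * conj ((χ : G → ℂ) g) /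
      (χ : G → ℂ) 1 ≠ 0) : InSq x g := by
  have h := H12.card_class_mul_eq x x g
  have h1 : (Nat.card {y : G // IsConj x y} : ℂ) ≠ 0 := by
    have : Nonempty {y : G // IsConj x y} := ⟨⟨x, IsConj.refl x⟩⟩
    exact_mod_cast Nat.card_pos.ne'
  have h2 := h ▸ mul_ne_zero (div_ne_zero (mul_ne_zero h1 h1) (H11.card_ne_zero G)) key
  obtain ⟨⟨p, p1, p2, p3⟩⟩ := (Nat.card_ne_zero.mp (Nat.cast_ne_zero.mp h2)).1
  obtain ⟨u, hu⟩ := isConj_iff.mp p1
  obtain ⟨v, hv⟩ := isConj_iff.mp p2
  exact ⟨u, v, by rw [hu, hv, p3]⟩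

/-- The criterion from small centralisers and large degrees. -/
theorem inSq_of_small [Finite G] {x g : G} {d : ℕ}
    (hd : ∀ χ, IsIrrCharacter G χ → χ ≠ (fun _ => 1) → d ≤ charDegree χ)
    (h : (Nat.card (Subgroup.centralizer ({x} : Set G)) - 1) ^ 2 *
      Nat.card (Subgroup.centralizer ({g} : Set G)) < d ^ 2) : InSq x g := by
  classical
  have := Fintype.ofFinite G
  have : Fintype (IrrCharacter G) := Fintype.ofFinite _
  refine inSq_of_sum fun h0 => ?_
  let o : IrrCharacter G := ⟨fun _ => 1, H11.isIrrCharacter_one⟩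
  rw [← Finset.add_sum_erase _ _ (Finset.mem_univ o)] at h0
  have h1 := H11.sum_norm_sq_apply x
  rw [← Finset.add_sum_erase _ _ (Finset.mem_univ o)] at h1
  simp only [o, map_one, mul_one, div_one, norm_one, one_pow] at h0 h1
  obtain ⟨c, hc⟩ : ∃ c, Nat.card (Subgroup.centralizer ({x} : Set G)) = c + 1 :=
    Nat.exists_eq_succ_of_ne_zero Nat.card_pos.ne'
  rw [hc, Nat.add_sub_cancel] at h
  rw [hc] at h1
  push_cast at h1
  set r := √(Nat.card (Subgroup.centralizer ({g} : Set G)) : ℝ) with hr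
  have hd0 : (0 : ℝ) < d := by
    rcases Nat.eq_zero_or_pos d with rfl | h
    · simp at h
    · exact_mod_cast h
  have h2 : c * r < d := by
    refine lt_of_pow_lt_pow_left₀ 2 hd0.le ?_
    rw [mul_pow, hr, Real.sq_sqrt (Nat.cast_nonneg _)]
    exact_mod_cast h
  have h3 := congrArg norm (eq_neg_of_add_eq_zero_left h0)
  rw [norm_one, norm_neg] at h3
  have h4 := h3.le.trans ((norm_sum_le _ _).trans (Finset.sum_le_sum
    (g := fun χ : IrrCharacter G => ‖(χ : G → ℂ) x‖ ^ 2 * (r / d)) fun χ hχ => by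
      have a1 : ‖(χ : G → ℂ) g‖ ≤ r := Real.le_sqrt_of_sq_le (by
        rw [← H11.sum_norm_sq_apply g]
        exact Finset.single_le_sum (f := fun χ : IrrCharacter G => ‖(χ : G → ℂ) g‖ ^ 2)
          (fun _ _ => by positivity) (Finset.mem_univ χ))
      have a2 : (d : ℝ) ≤ charDegree (χ : G → ℂ) := by
        exact_mod_cast hd _ χ.2 fun e => Finset.ne_of_mem_erase hχ (Subtype.ext e)
      rw [norm_div, norm_mul, norm_mul, Complex.norm_conj, H24.irr_deg χ.2, Complex.norm_natCast,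
        ← pow_two, mul_div_assoc]
      gcongr))
  rw [← Finset.sum_mul, show ∑ χ ∈ Finset.univ.erase o, ‖(χ : G → ℂ) x‖ ^ 2 = c by linarith,
    ← mul_div_assoc, le_div_iff₀ hd0] at h4
  linarith

theorem exists_int_of_mul_self [Finite G] {χ : G → ℂ} (hχ : IsCharacter G χ) {t : G}
    (ht : t * t = 1) : ∃ n : ℤ, χ t = n := by
  by_cases h : t = 1
  · obtain ⟨d, hd⟩ := H11.exists_nat_degree hχ
    exact ⟨d, by rw [h, hd]; simp⟩
  · refine H11.exists_int_of_const hχ (Subgroup.zpowers t) (Subgroup.mem_zpowers t) h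
      fun w hw h1 => ?_
    obtain ⟨k, rfl⟩ := hw
    have h2 : t ^ (2 : ℤ) = 1 := by rw [zpow_two, ht]
    rcases Int.even_or_odd' k with ⟨l, rfl | rfl⟩
    · exact absurd (by simp [zpow_mul, h2]) h1
    · simp [zpow_add, zpow_mul, h2]

/-- The number of ways to write `g` as a product of two conjugates of `t`. -/
noncomputable def sqCount (t g : G) : ℕ :=
  Nat.card {p : G × G // IsConj t p.1 ∧ IsConj t p.2 ∧ p.1 * p.2 = g}

theorem sqCount_conj (t g a : G) : sqCount t (a * g * a⁻¹) = sqCount t g := by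
  refine (Nat.card_congr (Equiv.subtypeEquiv
    (Equiv.prodCongr (MulAut.conj a).toEquiv (MulAut.conj a).toEquiv) fun p => ?_)).symm
  have e : ∀ y, IsConj t (a * y * a⁻¹) ↔ IsConj t y := fun y =>
    ⟨fun h => h.trans (isConj_iff.2 ⟨a, rfl⟩).symm, fun h => h.trans (isConj_iff.2 ⟨a, rfl⟩)⟩
  change _ ↔ IsConj t (a * p.1 * a⁻¹) ∧ IsConj t (a * p.2 * a⁻¹) ∧
    a * p.1 * a⁻¹ * (a * p.2 * a⁻¹) = a * g * a⁻¹
  rw [e, e, conj_mul, mul_left_inj, mul_right_inj]

theorem sum_sqCount [Fintype G] {χ : G → ℂ} (hχ : IsIrrCharacter G χ) (t : G) :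
    ∑ g, (sqCount t g : ℂ) * χ g =
      ((Subgroup.centralizer ({t} : Set G)).index * χ t / χ 1) ^ 2 * χ 1 := by
  classical
  have hc := H12.isClassFunction_indicator_isConj t
  have h0 := H13.irr_one_ne_zero hχ
  have h1 : ∑ g, (if IsConj t g then (1 : ℂ) else 0) * χ g =
      (Subgroup.centralizer ({t} : Set G)).index * χ t := by
    simp only [ite_mul, one_mul, zero_mul]
    convert H13.sum_indicator_isConj t (H13.isClassFunction_of_irr hχ)
  have h2 := fun h => H13.sum_mul_irr_mul hc hχ h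
  have h3 : ∑ g, (sqCount t g : ℂ) * χ g = ∑ b, (if IsConj t b then (1 : ℂ) else 0) *
      ∑ a, (if IsConj t a then (1 : ℂ) else 0) * χ (a * b) := by
    simp only [Finset.mul_sum]
    rw [Finset.sum_comm, ← Fintype.sum_prod_type', ← Finset.sum_fiberwise (s := Finset.univ)
      (g := fun p : G × G => p.1 * p.2)]
    refine Finset.sum_congr rfl fun g _ => ?_
    rw [sqCount, Nat.card_eq_fintype_card, Fintype.card_subtype, Finset.card_filter,
      Finset.sum_filter]
    push_cast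
    rw [Finset.sum_mul]
    refine Finset.sum_congr rfl fun p _ => ?_
    by_cases h1 : IsConj t p.1 <;> by_cases h2 : IsConj t p.2 <;> by_cases h3 : p.1 * p.2 = g <;>
      simp only [h1, h2, h3, if_true, if_false, and_true, and_false, and_self, one_mul, zero_mul,
        mul_zero]
  have h4 : ∀ h, ∑ a, (if IsConj t a then (1 : ℂ) else 0) * χ (a * h) =
      (Subgroup.centralizer ({t} : Set G)).index * χ t / χ 1 * χ h := fun h => by
    rw [← h1]; convert h2 h
  rw [h3]
  simp only [h4, mul_left_comm (ite _ _ _), ← Finset.mul_sum]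
  rw [h1]
  field_simp

/-- The central character of a class whose square lies in the projective ideal. -/
theorem dvd_central [Finite G] {p : ℕ} (hp : p.Prime) {P : Subgroup G} (hP : IsPGroup p P) {t : G}
    (ht : t * t = 1)
    (h1 : ∀ g, p ∣ Nat.card (Subgroup.centralizer ({g} : Set G)) → p ∣ sqCount t g)
    {χ : G → ℂ} (hχ : IsIrrCharacter G χ) (hd : ¬ Nat.card P ∣ charDegree χ) :
    ∃ z : ℤ, (Subgroup.centralizer ({t} : Set G)).index * χ t / χ 1 = p * z := by
  classical
  have := Fintype.ofFinite G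
  have : Fact p.Prime := ⟨hp⟩
  have hc := H11.isCharacter_of_irr hχ
  have hcl := H11.isClassFunction_of_irr hχ
  have hcent : ∀ g a : G, Nat.card (Subgroup.centralizer ({a * g * a⁻¹} : Set G)) =
      Nat.card (Subgroup.centralizer ({g} : Set G)) := fun g a =>
    (Nat.card_congr (Equiv.subtypeEquiv (MulAut.conj a).toEquiv fun y => by
      simp only [Subgroup.mem_centralizer_singleton_iff]
      change _ ↔ a * y * a⁻¹ * (a * g * a⁻¹) = a * g * a⁻¹ * (a * y * a⁻¹)
      rw [conj_mul, conj_mul, mul_left_inj, mul_right_inj])).symm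
  obtain ⟨n, hn⟩ := exists_int_of_mul_self hc ht
  have h0 := H13.irr_one_ne_zero hχ
  have hdeg := H24.irr_deg hχ
  obtain ⟨z, hz⟩ := H11.exists_int_of_mul_eq (H12.irr_isIntegral_index_mul_div hχ t)
    (H24.deg_ne_zero hχ) (a := (Subgroup.centralizer ({t} : Set G)).index * n) (by
      rw [← hdeg, hn]; push_cast; field_simp)
  have i1 := H12.irr_isIntegral_sum_mul_div hχ (f := fun g =>
    if p ∣ Nat.card (Subgroup.centralizer ({g} : Set G)) then ((sqCount t g / p : ℕ) : ℂ) else 0)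
    (fun g a => by simp only [hcent, sqCount_conj]) fun g => by
      split_ifs
      exacts [isIntegral_natCast _, isIntegral_zero]
  let _ : MulAction P G := MulAction.compHom G (MulAut.conj.comp P.subtype)
  obtain ⟨β, i2, e2⟩ := H11.exists_sum_eq_card_mul (P := P) (fun g : G =>
    if p ∣ Nat.card (Subgroup.centralizer ({g} : Set G)) then 0 else (sqCount t g : ℂ) * χ g)
    (fun a g => by
      have e : a • g = (a : G) * g * (a : G)⁻¹ := rfl
      simp only [e, hcent, sqCount_conj, hcl g a])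
    (fun g => by
      split_ifs
      exacts [isIntegral_zero, (isIntegral_natCast _).mul (H12.IsCharacter_isIntegral hc g)])
    fun g hg => by
      rw [eq_bot_iff]
      intro a ha
      by_contra ha1
      have e : (a : G) * g * (a : G)⁻¹ = g := ha
      have h2 : (a : G) ∈ Subgroup.centralizer ({g} : Set G) :=
        Subgroup.mem_centralizer_singleton_iff.mpr (mul_inv_eq_iff_eq_mul.mp e)
      obtain ⟨k, hk⟩ := IsPGroup.iff_orderOf.mp hP a
      refine hg (if_pos (Dvd.dvd.trans ?_ (Subgroup.orderOf_dvd_natCard _ h2)))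
      rw [Subgroup.orderOf_coe, hk]
      refine dvd_pow_self _ ?_
      rintro rfl
      exact ha1 (orderOf_eq_one_iff.mp hk)
  have e3 := sum_sqCount hχ t
  rw [hz] at e3 ⊢
  generalize hw : (∑ g, (if p ∣ Nat.card (Subgroup.centralizer ({g} : Set G)) then
    ((sqCount t g / p : ℕ) : ℂ) else 0) * χ g) / χ 1 = w at i1
  have e4 : (z : ℂ) ^ 2 * χ 1 = p * (w * χ 1) + Nat.card P * β := by
    rw [← e3, ← e2, ← hw, div_mul_cancel₀ _ h0, Finset.mul_sum, ← Finset.sum_add_distrib]
    refine Finset.sum_congr rfl fun g _ => ?_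
    split_ifs with h
    · obtain ⟨k, hk⟩ := h1 g h
      rw [hk, Nat.mul_div_cancel_left _ hp.pos]
      push_cast
      ring
    · ring
  obtain ⟨ν, hν⟩ := hP.exists_card_eq
  obtain ⟨a, d, hd1, hd2⟩ := Nat.exists_eq_pow_mul_and_not_dvd (H24.deg_ne_zero hχ) p hp.ne_one
  obtain ⟨b, rfl⟩ : ∃ b, ν = a + b + 1 := Nat.exists_eq_add_of_lt (by
    by_contra hlt
    exact hd (hν ▸ hd2 ▸ (pow_dvd_pow p (not_lt.mp hlt)).mul_right d))
  rw [hdeg, hd2, hν] at e4
  have hp0 : (p : ℂ) ≠ 0 := by exact_mod_cast hp.ne_zero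
  have h5 := H11.int_dvd_of_mul_eq (β := w * d + p ^ b * β)
    ((i1.mul (isIntegral_natCast _)).add (((isIntegral_natCast p).pow b).mul i2)) hp.ne_zero
    (a := z ^ 2 * d) (by
      refine mul_left_cancel₀ (pow_ne_zero a hp0) ?_
      push_cast at e4 ⊢
      linear_combination -e4)
  have hp' := Nat.prime_iff_prime_int.mp hp
  obtain ⟨y, rfl⟩ := hp'.dvd_of_dvd_pow ((hp'.dvd_or_dvd h5).resolve_right
    fun h => hd1 (Int.natCast_dvd_natCast.mp h))
  exact ⟨y, by push_cast; rfl⟩

/-- Gow's argument for an involution. -/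
theorem inSq_of_gow [Finite G] {p : ℕ} (hp : p.Prime) {P : Subgroup G} (hP : IsPGroup p P)
    {t x : G} (ht : t * t = 1)
    (h1 : ∀ g, p ∣ Nat.card (Subgroup.centralizer ({g} : Set G)) → p ∣ sqCount t g)
    {St : G → ℂ} (hSt : IsIrrCharacter G St)
    (h0 : ∀ χ, IsIrrCharacter G χ → Nat.card P ∣ charDegree χ → χ = St) (h2 : St x * St x = 1)
    {N : ℕ} (hN : (Subgroup.centralizer ({t} : Set G)).index * St t / St 1 = N) (hpN : ¬ p ∣ N) :
    InSq x t := by
  classical
  have := Fintype.ofFinite G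
  have : Fintype (IrrCharacter G) := Fintype.ofFinite _
  refine inSq_of_sum fun h => hpN ?_
  have h3 := congrArg (fun z => ((Subgroup.centralizer ({t} : Set G)).index : ℂ) * z) h
  let o : IrrCharacter G := ⟨St, hSt⟩
  have hconj : ∀ χ : IrrCharacter G, conj ((χ : G → ℂ) t) = (χ : G → ℂ) t := fun χ => by
    obtain ⟨n, hn⟩ := exists_int_of_mul_self (H11.isCharacter_of_irr χ.2) ht
    rw [hn, map_intCast]
  have h4 : ∀ χ : IrrCharacter G, ∃ z : ℤ, χ ≠ o →
      (Subgroup.centralizer ({t} : Set G)).index * (χ : G → ℂ) t / (χ : G → ℂ) 1 = p * z := by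
    intro χ
    by_cases hχ : χ = o
    · exact ⟨0, fun h => absurd hχ h⟩
    · obtain ⟨z, hz⟩ := dvd_central hp hP ht h1 χ.2 fun e => hχ (Subtype.ext (h0 _ χ.2 e))
      exact ⟨z, fun _ => hz⟩
  choose z hz using h4
  simp only [hconj, mul_zero, Finset.mul_sum] at h3
  rw [← Finset.add_sum_erase _ _ (Finset.mem_univ o), Finset.sum_congr rfl
    (g := fun χ : IrrCharacter G => p * ((χ : G → ℂ) x * (χ : G → ℂ) x * z χ)) fun χ hχ => by
      linear_combination (χ : G → ℂ) x * (χ : G → ℂ) x * hz χ (Finset.ne_of_mem_erase hχ),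
    ← Finset.mul_sum] at h3
  refine Int.natCast_dvd_natCast.mp (H11.int_dvd_of_mul_eq (β := -∑ χ ∈ Finset.univ.erase o,
    (χ : G → ℂ) x * (χ : G → ℂ) x * z χ) (IsIntegral.sum _ fun χ _ => ?_).neg hp.ne_zero ?_)
  · have := H12.IsCharacter_isIntegral (H11.isCharacter_of_irr χ.2) x
    exact (this.mul this).mul (isIntegral_intCast _)
  · simp only [o, h2, one_mul] at h3
    push_cast
    linear_combination -h3 + hN

/-- A bound for the number of classes meeting a set. -/
theorem mul_ncard_image_le [Finite G] {T : Set G} {N : Subgroup G} {n : ℕ}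
    (h1 : ∀ a ∈ N, ∀ y ∈ T, a * y * a⁻¹ ∈ T)
    (h2 : ∀ y ∈ T, (Subgroup.centralizer {y}).relIndex N = n) :
    n * (ConjClasses.mk '' T).ncard ≤ T.ncard := by
  classical
  have hT := Set.toFinite T
  have h := Finset.mul_card_image_le_card (f := ConjClasses.mk) hT.toFinset n fun b hb => by
    obtain ⟨y, hy, rfl⟩ := Finset.mem_image.mp hb
    rw [Set.Finite.mem_toFinset] at hy
    rw [← h2 y hy, relIndex_centralizer_eq_ncard, ← Set.ncard_coe_finset]
    refine Set.ncard_le_ncard ?_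
    rintro _ ⟨a, ha, rfl⟩
    simp only [Finset.coe_filter, Set.Finite.mem_toFinset, Set.mem_ofPred_eq]
    exact ⟨h1 a ha y hy, ConjClasses.mk_eq_mk_iff_isConj.mpr (isConj_iff.2 ⟨a, rfl⟩).symm⟩
  rwa [← Set.ncard_coe_finset, Finset.coe_image, Set.Finite.coe_toFinset,
    ← Set.ncard_eq_toFinset_card _ hT] at h

end Cfsg.Agent.H39
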