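import Cfsg.Agent.H53.DgDefs

/-!
Project DG, piece R: the permutation character on the points of a polar space is the sum of the
principal character and two irreducible characters of known degrees.
-/

set_option autoImplicit false

namespace Cfsg.Agent.H39.DgR

open Module Cfsg.Agent.H26 Cfsg.Agent.H53.Dg

section Geo

variable {F V : Type} [Field F] [AddCommGroup V] [Module F V] {P : PForm F V}

theorem mp_le_perp {g : V ≃ₗ[F] V} (hg : Sim P g) {Y Z : Submodule F V} (h : Z ≤ P.perp Y) :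
    mp g Z ≤ P.perp (mp g Y) := by
  rintro _ ⟨z, hz, rfl⟩ _ ⟨y, hy, rfl⟩
  exact hg.1 z y (h hz y hy)

theorem ts_mp {g : V ≃ₗ[F] V} (hg : Sim P g) {Y : Submodule F V} (h : TS P Y) :
    TS P (mp g Y) := by
  refine ⟨?_, mp_le_perp hg h.2⟩
  rintro _ ⟨y, hy, rfl⟩
  exact hg.2 y (h.1 y hy)

theorem le_perp_symm {Y Z : Submodule F V} (h : Z ≤ P.perp Y) : Y ≤ P.perp Z :=
  fun y hy z hz => PForm.f_symm_zero (h hz y hy)

theorem exists_gen {Y : Submodule F V} (h : finrank F Y = 1) : ∃ x, x ≠ 0 ∧ Y = F ∙ x := by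
  obtain ⟨v, hv, hw⟩ := finrank_eq_one_iff'.1 h
  refine ⟨v, fun h0 => hv (Subtype.ext h0), le_antisymm (fun y hy => ?_) ?_⟩
  · obtain ⟨c, hc⟩ := hw ⟨y, hy⟩
    exact Submodule.mem_span_singleton.2 ⟨c, congrArg Subtype.val hc⟩
  · rw [Submodule.span_singleton_le_iff_mem]; exact v.2

theorem span_eq_of_mem {x y : V} (hx : x ≠ 0) (h : x ∈ F ∙ y) : (F ∙ x) = F ∙ y := by
  obtain ⟨c, rfl⟩ := Submodule.mem_span_singleton.1 h
  have hc : c ≠ 0 := fun h0 => hx (by rw [h0, zero_smul])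
  exact Submodule.span_singleton_smul_eq (IsUnit.mk0 c hc) y

theorem mp_span {g : V ≃ₗ[F] V} {x y : V} (hx : x ≠ 0) (h : g x ∈ F ∙ y) :
    mp g (F ∙ x) = F ∙ y := by
  rw [mp, Submodule.map_span, Set.image_singleton]
  exact span_eq_of_mem (fun h0 => hx (g.map_eq_zero_iff.1 h0)) h

theorem span_le_perp_iff {x y : V} : (F ∙ y) ≤ P.perp (F ∙ x) ↔ P.f x y = 0 := by
  constructor
  · intro h
    exact PForm.f_symm_zero
      (h (Submodule.mem_span_singleton_self y) x (Submodule.mem_span_singleton_self x))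
  · intro h
    rw [Submodule.span_singleton_le_iff_mem]
    intro w hw
    obtain ⟨c, rfl⟩ := Submodule.mem_span_singleton.1 hw
    rw [P.f_smul_right, PForm.f_symm_zero h, mul_zero]

theorem mem_stabSub_iff_mp {g : V ≃ₗ[F] V} {Y : Submodule F V} : g ∈ stabSub Y ↔ mp g Y = Y := by
  rw [mem_stabSub_iff]
  constructor
  · intro h
    refine le_antisymm ?_ fun y hy => ?_
    · rintro _ ⟨y, hy, rfl⟩
      exact (h y).1 hy
    · refine ⟨g.symm y, (h _).2 ?_, by simp⟩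
      simpa using hy
  · intro h x
    constructor
    · intro hx
      rw [← h]; exact ⟨x, hx, rfl⟩
    · intro hx
      rw [← h] at hx
      obtain ⟨y, hy, hyx⟩ := hx
      have : y = x := g.injective hyx
      exact this ▸ hy

variable (P) in
/-- The points of the polar space. -/
abbrev Pt : Type := {Y : Submodule F V // TS P Y ∧ finrank F Y = 1}

/-- The action on points. -/
@[reducible] def act {H : Type} [Group H] (τ : H →* V ≃ₗ[F] V) (hτ : ∀ h, Sim P (τ h)) :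
    MulAction H (Pt P) where
  smul h Y := ⟨mp (τ h) Y.1, ts_mp (hτ h) Y.2.1, by
    rw [mp, LinearEquiv.finrank_map_eq]; exact Y.2.2⟩
  one_smul Y := Subtype.ext (by
    change mp (τ 1) Y.1 = Y.1
    rw [map_one]
    exact Submodule.map_id _)
  mul_smul a b Y := Subtype.ext (by
    change mp (τ (a * b)) Y.1 = mp (τ a) (mp (τ b) Y.1)
    rw [map_mul, mp, mp, mp, ← Submodule.map_comp]
    rfl)

/-- Collinearity. -/
def adj (Y Z : Pt P) : Prop := Z ≠ Y ∧ Z.1 ≤ P.perp Y.1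

theorem Pt.gen (Y : Pt P) : ∃ x, x ≠ 0 ∧ P.Sing x ∧ Y.1 = F ∙ x := by
  obtain ⟨x, hx, h⟩ := exists_gen Y.2.2
  exact ⟨x, hx, Y.2.1.1 x (h ▸ Submodule.mem_span_singleton_self x), h⟩

end Geo

theorem ns_cast (q w e : ℕ) (hq : 1 ≤ q) :
    (ns q w e : ℤ) = ((q : ℤ) ^ w - 1) * ((q : ℤ) ^ (w + e - 1) + 1) := by
  rw [ns, Nat.cast_mul, Nat.cast_sub (Nat.one_le_pow _ _ hq)]
  push_cast
  rfl

/-- The arithmetic of the degrees. -/
theorem fg_of {q a e v μ f g : ℕ} (hq : 2 ≤ q) (hv : v * (q - 1) = ns q (a + 2) e)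
    (hμ : μ * (q - 1) = ns q (a + 1) e) (h1 : f + g + 1 = v)
    (h2 : ((q * μ : ℕ) : ℤ) + f * ((q : ℤ) ^ (a + 1) - 1) + g * (-(q : ℤ) ^ (a + e) - 1) = 0) :
    FG q (a + 2) e f g := by
  have hq1 : 1 ≤ q := by omega
  have hv' : (v : ℤ) * (q - 1) = (q ^ 2 * q ^ a - 1) * (q * q ^ a * q ^ e + 1) := by
    have := congrArg (Nat.cast : ℕ → ℤ) hv
    rw [ns_cast _ _ _ hq1, Nat.cast_mul, Nat.cast_sub hq1,
      show a + 2 + e - 1 = a + e + 1 by omega] at this
    push_cast at this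
    rw [this]; ring
  have hμ' : (μ : ℤ) * (q - 1) = (q * q ^ a - 1) * (q ^ a * q ^ e + 1) := by
    have := congrArg (Nat.cast : ℕ → ℤ) hμ
    rw [ns_cast _ _ _ hq1, Nat.cast_mul, Nat.cast_sub hq1,
      show a + 1 + e - 1 = a + e by omega] at this
    push_cast at this
    rw [this]; ring
  have h1' : (f : ℤ) + g + 1 = v := by exact_mod_cast h1
  push_cast at h2
  rw [pow_succ, pow_add] at h2
  have hA : (q : ℤ) ^ a ≠ 0 := pow_ne_zero _ (by exact_mod_cast (by omega : q ≠ 0))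
  constructor
  · zify [hq1, Nat.one_le_pow (a + 2) q hq1]
    rw [show a + 2 + e - 2 = a + e by omega]
    apply mul_left_cancel₀ hA
    rw [pow_add, pow_add, pow_add]
    generalize (q : ℤ) ^ a = A at *
    generalize (q : ℤ) ^ e = B at *
    linear_combination ((q : ℤ) - 1) * h2 + ((q : ℤ) - 1) * (A * B + 1) * h1' +
      (A * B + 1) * hv' - q * hμ'
  · zify [hq1, Nat.one_le_pow (a + 2 - 1) q hq1]
    rw [show a + 2 + e - 1 = a + e + 1 by omega, show a + 2 - 1 = a + 1 by omega]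
    apply mul_left_cancel₀ hA
    rw [pow_add, pow_add, pow_add]
    generalize (q : ℤ) ^ a = A at *
    generalize (q : ℤ) ^ e = B at *
    linear_combination -((q : ℤ) - 1) * h2 + ((q : ℤ) - 1) * (A * q - 1) * h1' +
      (A * q - 1) * hv' + q * hμ'

/-- The numerical conditions of the rank three lemma. -/
theorem num {q a e v μ : ℕ} (hq : 2 ≤ q) (hv : v * (q - 1) = ns q (a + 2) e)
    (hμ : μ * (q - 1) = ns q (a + 1) e) :
    0 < q * μ ∧ q * μ + 1 < v ∧ (q : ℤ) ^ (a + 1) - 1 ≠ -(q : ℤ) ^ (a + e) - 1 ∧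
    ((q : ℤ) ^ (a + 1) - 1) * (-(q : ℤ) ^ (a + e) - 1) = μ - ((q * μ : ℕ) : ℤ) ∧
    (((q * μ : ℕ) : ℤ) - ((q : ℤ) ^ (a + 1) - 1)) *
      (((q * μ : ℕ) : ℤ) - (-(q : ℤ) ^ (a + e) - 1)) = μ * v := by
  have hq1 : 1 ≤ q := by omega
  have hv' : (v : ℤ) * (q - 1) = (q ^ 2 * q ^ a - 1) * (q * q ^ a * q ^ e + 1) := by
    have := congrArg (Nat.cast : ℕ → ℤ) hv
    rw [ns_cast _ _ _ hq1, Nat.cast_mul, Nat.cast_sub hq1,
      show a + 2 + e - 1 = a + e + 1 by omega] at this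
    push_cast at this
    rw [this]; ring
  have hμ' : (μ : ℤ) * (q - 1) = (q * q ^ a - 1) * (q ^ a * q ^ e + 1) := by
    have := congrArg (Nat.cast : ℕ → ℤ) hμ
    rw [ns_cast _ _ _ hq1, Nat.cast_mul, Nat.cast_sub hq1,
      show a + 1 + e - 1 = a + e by omega] at this
    push_cast at this
    rw [this]; ring
  have hq2 : (2 : ℤ) ≤ q := by exact_mod_cast hq
  have hA : (1 : ℤ) ≤ (q : ℤ) ^ a := one_le_pow₀ (by omega)
  have hB : (1 : ℤ) ≤ (q : ℤ) ^ e := one_le_pow₀ (by omega)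
  have hq0 : (0 : ℤ) < (q : ℤ) - 1 := by omega
  push_cast
  rw [pow_succ, pow_add]
  generalize (q : ℤ) ^ a = A at *
  generalize (q : ℤ) ^ e = B at *
  have hAB : 1 ≤ A * B := by nlinarith
  have hqA : 2 ≤ (q : ℤ) * A := by nlinarith
  refine ⟨?_, ?_, ?_, ?_, ?_⟩
  · have : (0 : ℤ) < μ := by
      have h0 : (0 : ℤ) < μ * (q - 1) := by
        rw [hμ']; exact mul_pos (by omega) (by omega)
      exact (mul_pos_iff_of_pos_right hq0).1 h0
    have : 0 < μ := by exact_mod_cast this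
    positivity
  · have h0 : (0 : ℤ) < (v - (q * μ + 1)) * (q - 1) := by
      have : ((v : ℤ) - (q * μ + 1)) * (q - 1) = q ^ 2 * A ^ 2 * B * (q - 1) := by
        linear_combination hv' - q * hμ'
      rw [this]
      have : (0 : ℤ) < q := by omega
      have : (0 : ℤ) < A := by omega
      have : (0 : ℤ) < B := by omega
      positivity
    have := (mul_pos_iff_of_pos_right hq0).1 h0
    zify
    omega
  · intro h
    nlinarith
  · linear_combination hμ'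
  · apply mul_left_cancel₀ (pow_ne_zero 2 hq0.ne')
    have e1 : ((q : ℤ) * μ - (A * q - 1)) * (q - 1) = (q * A - 1) * (q * A * B + 1) := by
      linear_combination q * hμ'
    have e2 : ((q : ℤ) * μ - (-(A * B) - 1)) * (q - 1) = (A * B + 1) * (q ^ 2 * A - 1) := by
      linear_combination q * hμ'
    calc ((q : ℤ) - 1) ^ 2 * ((q * μ - (A * q - 1)) * (q * μ - (-(A * B) - 1)))
        = ((q * μ - (A * q - 1)) * (q - 1)) * ((q * μ - (-(A * B) - 1)) * (q - 1)) := by ring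
      _ = (μ * (q - 1)) * (v * (q - 1)) := by rw [e1, e2, hv', hμ']; ring
      _ = _ := by ring

theorem rr (srg : SrgStmt) (rk : Rk3Stmt) (c3 : Cnt3Stmt) : RStmt := by
  intro F V _ _ _ _ _ P sp w e H _ _ τ hT hw hτ hr
  obtain ⟨a, rfl⟩ : ∃ a, w = a + 2 := ⟨w - 2, by omega⟩
  have hq : 2 ≤ Nat.card F := Finite.one_lt_card
  set q := Nat.card F with hqdef
  obtain ⟨hv, hc⟩ := c3 F V P sp (a + 2) e hT (by omega)
  rw [show a + 2 - 1 = a + 1 by omega, ← hqdef] at hc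
  rw [← hqdef] at hv
  obtain ⟨m, hm⟩ : q - 1 ∣ q ^ (a + 1) - 1 := Nat.sub_one_dvd_pow_sub_one _ _
  have hμ : m * (q ^ (a + 1 + e - 1) + 1) * (q - 1) = ns q (a + 1) e := by
    rw [ns, hm]; ring
  set μ := m * (q ^ (a + 1 + e - 1) + 1)
  have hE : P.E ≤ τ.range := hr.elim (fun h => PForm.E_le_isom.trans h) fun h => h.1
  have hq0 : 0 < q - 1 := by omega
  letI : MulAction H (Pt P) := act τ hτ
  have hs : ∀ (h : H) (Y : Pt P), (h • Y).1 = mp (τ h) Y.1 := fun _ _ => rfl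
  haveI : Finite (Submodule F V) :=
    Finite.of_injective (fun Y : Submodule F V => (Y : Set V)) SetLike.coe_injective
  obtain ⟨n1, n2, n3, n4, n5⟩ := num hq hv hμ
  obtain ⟨χ, χ', h1, h2, h3, f, g, h4, h5, h6, h7⟩ := srg H (Pt P) adj _ (q * μ) μ
    ((q : ℤ) ^ (a + 1) - 1) (-(q : ℤ) ^ (a + e) - 1)
    (fun Y Z h => ⟨h.1.symm, le_perp_symm h.2⟩) (fun Y h => h.1 rfl)
    (fun h Y Z hYZ => ⟨fun h0 => hYZ.1 (smul_left_cancel h h0), mp_le_perp (hτ h) hYZ.2⟩) rfl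
    (fun Y => by
      have := (hc Y.1 Y.1 Y.2.1 Y.2.2 Y.2.1 Y.2.2).1
      rw [← hμ, ← mul_assoc] at this
      rw [← Nat.eq_of_mul_eq_mul_right hq0 this]
      exact Nat.card_congr
        { toFun := fun Z => ⟨Z.1.1, Z.1.2, fun h => Z.2.1 (Subtype.ext h), Z.2.2⟩
          invFun := fun Z => ⟨⟨Z.1, Z.2.1⟩, fun h => Z.2.2.1 (congrArg Subtype.val h), Z.2.2.2⟩
          left_inv := fun _ => rfl
          right_inv := fun _ => rfl })
    (fun Y Y' hne hna => by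
      have hp : ¬ Y'.1 ≤ P.perp Y.1 := fun h => hna ⟨hne.symm, h⟩
      have := (hc Y.1 Y'.1 Y.2.1 Y.2.2 Y'.2.1 Y'.2.2).2 hp
      rw [← hμ] at this
      rw [← Nat.eq_of_mul_eq_mul_right hq0 this]
      exact Nat.card_congr
        { toFun := fun Z => ⟨Z.1.1, Z.1.2, Z.2.1.2, Z.2.2.2⟩
          invFun := fun Z => ⟨⟨Z.1, Z.2.1⟩, ⟨fun h => hp (le_perp_symm (by
              have h' : Z.1 = Y.1 := congrArg Subtype.val h
              exact h' ▸ Z.2.2.2)), Z.2.2.1⟩, fun h => hp (by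
              have h' : Z.1 = Y'.1 := congrArg Subtype.val h
              exact h' ▸ Z.2.2.1), Z.2.2.2⟩
          left_inv := fun _ => rfl
          right_inv := fun _ => rfl })
    (fun Y Y' => by
      obtain ⟨x, hx, sx, ex⟩ := Y.gen
      obtain ⟨x', hx', sx', ex'⟩ := Y'.gen
      obtain ⟨g, hg, hgx⟩ := (rk F V P sp (a + 2) e hT hw x x x' x' sx sx sx' sx' hx hx').1
      obtain ⟨h, rfl⟩ := hE hg
      exact ⟨h, Subtype.ext (by rw [hs, ex, ex', mp_span hx hgx])⟩)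
    (fun Y Z Y' Z' hYZ hYZ' => by
      obtain ⟨x, hx, sx, ex⟩ := Y.gen
      obtain ⟨x', hx', sx', ex'⟩ := Y'.gen
      obtain ⟨y, hy, sy, ey⟩ := Z.gen
      obtain ⟨y', hy', sy', ey'⟩ := Z'.gen
      obtain ⟨g, hg, hgE, hgx, hgy⟩ :=
        (rk F V P sp (a + 2) e hT hw x y x' y' sx sy sx' sy' hx hx').2.2
          (span_le_perp_iff.1 (ex ▸ ey ▸ hYZ.2)) (span_le_perp_iff.1 (ex' ▸ ey' ▸ hYZ'.2))
          (fun h => hYZ.1 (Subtype.ext (by rw [ex, ey, span_eq_of_mem hy h])))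
          (fun h => hYZ'.1 (Subtype.ext (by rw [ex', ey', span_eq_of_mem hy' h])))
      obtain ⟨h, rfl⟩ : g ∈ τ.range := hr.elim (fun h => h hg) fun h => h.1 (hgE h.2)
      exact ⟨h, Subtype.ext (by rw [hs, ex, ex', mp_span hx hgx]),
        Subtype.ext (by rw [hs, ey, ey', mp_span hy hgy])⟩)
    (fun Y Z Y' Z' hne hYZ hne' hYZ' => by
      obtain ⟨x, hx, sx, ex⟩ := Y.gen
      obtain ⟨x', hx', sx', ex'⟩ := Y'.gen
      obtain ⟨y, hy, sy, ey⟩ := Z.gen
      obtain ⟨y', hy', sy', ey'⟩ := Z'.gen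
      obtain ⟨g, hg, hgx, hgy⟩ :=
        (rk F V P sp (a + 2) e hT hw x y x' y' sx sy sx' sy' hx hx').2.1
          (fun h => hYZ ⟨hne.symm, by rw [ex, ey]; exact span_le_perp_iff.2 h⟩)
          (fun h => hYZ' ⟨hne'.symm, by rw [ex', ey']; exact span_le_perp_iff.2 h⟩)
      obtain ⟨h, rfl⟩ := hE hg
      exact ⟨h, Subtype.ext (by rw [hs, ex, ex', mp_span hx hgx]),
        Subtype.ext (by rw [hs, ey, ey', mp_span hy hgy])⟩)
    n1 n2 n3 n4 n5
  refine ⟨χ, χ', h1, h2, fun h => ?_, f, g, h4, h5, fg_of hq hv hμ h6 h7⟩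
  rw [← h3 h, npt]
  congr 1
  exact Nat.card_congr
    { toFun := fun Y => ⟨⟨Y.1, Y.2.1, by simpa using Y.2.2.2.1⟩,
        Subtype.ext (mem_stabSub_iff_mp.1 Y.2.2.2.2)⟩
      invFun := fun Y => ⟨Y.1.1, Y.1.2.1, bot_le, by simpa using Y.1.2.2,
        mem_stabSub_iff_mp.2 (congrArg Subtype.val Y.2)⟩
      left_inv := fun _ => rfl
      right_inv := fun _ => rfl }

end Cfsg.Agent.H39.DgR
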