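import Cfsg.Agent.H11.ElDefs
import Mathlib.GroupTheory.Perm.Cycle.Type

/-!
# S3403, piece LE: an involution without fixed points on the twelve points is inner
-/

set_option autoImplicit false
open Subgroup

namespace Cfsg.Agent.H39.ElLE

open Cfsg.Agent.H11.EL

universe u

variable {G : Type u} [Group G]

theorem cj_mem_Pts {L A : Subgroup G} {g : G} (hg : g ∈ Nm L) (hA : A ∈ Pts L) :
    cj g A ∈ Pts L := by
  refine ⟨?_, by rw [card_cj]; exact hA.2⟩
  rw [← cj_eq_iff.2 hg]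
  exact map_mono hA.1

/-- The action of the normaliser of `L` on the points. -/
def act (L : Subgroup G) : Nm L →* Equiv.Perm (Pts L) :=
  MonoidHom.toHomPerm
    { toFun := fun g A => ⟨cj g.1 A.1, cj_mem_Pts g.2 A.2⟩
      map_one' := funext fun A => Subtype.ext (cj_one A.1)
      map_mul' := fun g h => funext fun A => Subtype.ext (cj_mul g.1 h.1 A.1) }

theorem act_fix (L : Subgroup G) (g : Nm L) (A : Pts L) : act L g A = A ↔ g.1 ∈ Nm A.1 := by
  rw [← cj_eq_iff]; exact Subtype.ext_iff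

theorem act_Ct {L : Subgroup G} (g : Nm L) (h : g.1 ∈ Ct L) : act L g = 1 :=
  Equiv.ext fun A => (act_fix L g A).2
    (centralizer_le_normalizer _ (centralizer_le (SetLike.coe_subset_coe.2 A.2.1) h))

theorem le (la : LAStmt.{u}) (lc1 : LC1Stmt.{u}) (lc : LCStmt.{u}) (lt : LTStmt.{u})
    (ld : LDStmt.{u}) : LEStmt.{u} := by
  intro G _ _ L u hL hu u2 hn
  classical
  have a := la L hL
  obtain ⟨A, hA⟩ : (Pts L).Nonempty := Set.nonempty_of_ncard_ne_zero (by rw [a.npts]; norm_num)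
  have hB := cj_mem_Pts hu hA
  have ne : A ≠ cj u A := fun e => hn A hA (cj_eq_iff.1 e.symm)
  have uB : cj u (cj u A) = A := by rw [← cj_mul, u2, cj_one]
  generalize uA : cj u A = B at hB ne uB
  obtain rfl : A ⊔ B = L := a.sup A hA B hB ne
  have lp : LP A B := ⟨hA.2, hB.2, ne, hL⟩
  obtain ⟨f, s, c1⟩ := lc1 A B lp
  have c := lc A B f s lp c1
  have t := lt A B f s lp c
  have gA : s * u ∈ Nm A := cj_eq_iff.1 (by rw [cj_mul, uA, c1.sB])
  have gB : s * u ∈ Nm B := cj_eq_iff.1 (by rw [cj_mul, uB, c1.sA])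
  have fin : ∀ k ∈ Ct (A ⊔ B), ∀ n : ℕ, s * u = k * f ^ n →
      ∃ k ∈ Ct (A ⊔ B), ∃ s ∈ A ⊔ B, u = k * s := fun k hk n e => by
    refine ⟨k, hk, s⁻¹ * f ^ n, mul_mem (inv_mem c1.sL) (pow_mem c1.fL n), ?_⟩
    rw [← mul_assoc, ← mem_centralizer_iff.1 hk _ (inv_mem c1.sL), mul_assoc, ← e,
      inv_mul_cancel_left]
  by_cases e1 : E1 A B
  · obtain ⟨k, hk, n, e⟩ := t.e1T e1 _ gA gB
    exact fin k hk n e
  simp only [E1, not_forall, not_not] at e1
  obtain ⟨y, yA, yB, hy⟩ := e1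
  obtain ⟨k, hk, n, e | e⟩ := t.e2T y yA yB hy _ gA gB
  · exact fin k hk n e
  exfalso
  have d := ld A B y lp yA yB hy
  have := Fintype.ofFinite (Pts (A ⊔ B))
  have card : Fintype.card (Pts (A ⊔ B)) = 12 := by
    rw [← a.npts, ← Nat.card_coe_set_eq, Nat.card_eq_fintype_card]
  let ε : Nm (A ⊔ B) →* ℤˣ := Equiv.Perm.sign.comp (act (A ⊔ B))
  have hε : ∀ g, ε g = Equiv.Perm.sign (act (A ⊔ B) g) := fun _ => rfl
  have εL : ∀ l (hl : l ∈ A ⊔ B), ε ⟨l, le_normalizer hl⟩ = 1 := fun l hl => by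
    have := a.simple
    rcases (ε.comp (inclusion le_normalizer)).normal_ker.eq_bot_or_eq_top with h | h
    · have h1 := Nat.card_le_card_of_injective _ ((MonoidHom.ker_eq_bot_iff _).1 h)
      rw [a.card, Nat.card_eq_fintype_card, Fintype.card_units_int] at h1
      omega
    · have h1 : (⟨l, hl⟩ : ↥(A ⊔ B)) ∈ (ε.comp (inclusion le_normalizer)).ker := by
        rw [h]; trivial
      exact h1
  have kN : k ∈ Nm (A ⊔ B) := centralizer_le_normalizer _ hk
  have yN : y ∈ Nm (A ⊔ B) := cj_eq_iff.1 (by rw [cj_sup, cj_eq_iff.2 yA, cj_eq_iff.2 yB])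
  have εk : ε ⟨k, kN⟩ = 1 := by rw [hε, act_Ct _ hk, map_one]
  have εu : ε ⟨u, hu⟩ = 1 := by
    have h1 : act (A ⊔ B) ⟨u, hu⟩ ^ 2 = 1 := by
      rw [pow_two, ← map_mul, show (⟨u, hu⟩ * ⟨u, hu⟩ : Nm (A ⊔ B)) = 1 from Subtype.ext u2,
        map_one]
    have h2 : Fintype.card (Function.fixedPoints (act (A ⊔ B) ⟨u, hu⟩)) = 0 :=
      Fintype.card_eq_zero_iff.2 ⟨fun E => hn E.1.1 E.1.2 ((act_fix _ _ _).1 E.2)⟩
    rw [hε, Equiv.Perm.sign_of_pow_two_eq_one h1, card, h2]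
    decide
  have εy : ε ⟨y, yN⟩ = -1 := by
    have h0 : y * y ∈ Ct A := mem_centralizer_iff.2 fun x hx => by
      have h3 := hy x hx
      have h4 := hy x⁻¹ (inv_mem hx)
      rw [zpow_neg, zpow_one] at h3 h4
      calc x * (y * y) = x⁻¹⁻¹ * y * y := by group
        _ = y * (x⁻¹ * y) := by rw [← h4]; group
        _ = y * y * x := by rw [← h3]; group
    have h1 : act (A ⊔ B) ⟨y, yN⟩ ^ 2 = 1 := by
      rw [← map_pow]
      exact act_Ct _ (by rw [pow_two]; exact c.cen _ h0 (mul_mem yB yB))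
    have h2 : Fintype.card (Function.fixedPoints (act (A ⊔ B) ⟨y, yN⟩)) = 2 := by
      have h3 : Function.fixedPoints (act (A ⊔ B) ⟨y, yN⟩) = {⟨A, hA⟩, ⟨B, hB⟩} := by
        ext E
        rw [Function.mem_fixedPoints_iff, act_fix, Set.mem_insert_iff, Set.mem_singleton_iff,
          Subtype.ext_iff, Subtype.ext_iff]
        refine ⟨d.two E.1 E.2, ?_⟩
        rintro (h | h) <;> rw [h]
        exacts [yA, yB]
      rw [← Nat.card_eq_fintype_card, h3, Nat.card_coe_set_eq,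
        Set.ncard_pair fun h => ne (congrArg Subtype.val h)]
    rw [hε, Equiv.Perm.sign_of_pow_two_eq_one h1, card, h2]
    decide
  have e2 : (⟨s, le_normalizer c1.sL⟩ * ⟨u, hu⟩ : Nm (A ⊔ B)) =
      ⟨k, kN⟩ * ⟨f ^ n, le_normalizer (pow_mem c1.fL n)⟩ * ⟨y, yN⟩ := Subtype.ext e
  have e3 := congrArg ε e2
  rw [map_mul, map_mul, map_mul, εL s c1.sL, εL _ (pow_mem c1.fL n), εk, εu, εy] at e3
  exact absurd e3 (by decide)

end Cfsg.Agent.H39.ElLE
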