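import Cfsg.Agent.H11.ElDefs

/-!
# S3403, piece Z3: three fixed points of an inverting involution
-/

set_option autoImplicit false
open Subgroup

namespace Cfsg.Agent.H39.ElZ3

open Cfsg.Agent.H11.EL

universe u

variable {G : Type u} [Group G]

theorem exists_ord [Finite G] {A : Subgroup G} (h : Nat.card A = 11) :
    ∃ a ∈ A, orderOf a = 11 := by
  have : Fact (Nat.Prime 11) := ⟨by norm_num⟩
  obtain ⟨a, ha⟩ := exists_prime_orderOf_dvd_card' (G := A) 11 (by rw [h])
  exact ⟨a, a.2, by rw [← ha, Subgroup.orderOf_coe]⟩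

theorem ex_mul {A : Subgroup G} {g h : G} {i j : ℤ} (hg : Ex g A i) (hh : Ex h A j) :
    Ex (g * h) A (i * j) := fun a ha => by
  calc g * h * a * (g * h)⁻¹ = g * (h * a * h⁻¹) * g⁻¹ := by group
    _ = (g * a * g⁻¹) ^ j := by rw [hh a ha, conj_zpow]
    _ = a ^ (i * j) := by rw [hg a ha, zpow_mul]

theorem z3 (b : Base.{u}) : Z3Stmt.{u} := by
  intro G _ _ D A₀ y nb h0 yy hy
  have p1 : ∀ A ∈ Fx D y, Ex y A (-1) := by
    rintro A ⟨hA, yA⟩
    rcases nb.tri A hA y yA with h | h | ⟨i, h, hi⟩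
    · exfalso
      have y0 : y ∈ Nm A₀ := mem_normalizer_fintype fun a ha => by
        rw [hy a ha]; exact zpow_mem ha _
      have h1 := nb.cen A hA A₀ h0 y h y0
      obtain ⟨a, ha, oa⟩ := exists_ord (nb.card A₀ h0)
      have h2 := hy a ha
      rw [← mem_centralizer_iff.1 h1 a (mem_sup_right ha), mul_inv_cancel_right] at h2
      have h3 : a ^ (2 : ℤ) = 1 := by
        calc a ^ (2 : ℤ) = a * a := zpow_two a
          _ = 1 := by nth_rewrite 1 [h2]; group
      have h4 := orderOf_dvd_iff_zpow_eq_one.2 h3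
      rw [oa] at h4
      exact absurd h4 (by norm_num)
    · exact h
    · exfalso
      obtain ⟨a, ha, oa⟩ := exists_ord (nb.card A hA)
      have h2 := ex_mul h h a ha
      rw [yy, one_mul, inv_one, mul_one] at h2
      have h3 : a ^ (i ^ 2 - 1) = 1 := by
        rw [zpow_sub_one, pow_two, ← h2, mul_inv_cancel]
      have h4 := orderOf_dvd_iff_zpow_eq_one.2 h3
      rw [oa] at h4
      exact hi h4
  refine ⟨p1, fun g _ A hA B hB E hE AB BE AE gA gB gE => ?_⟩
  have key : ∀ k ∈ Ct A, k ∈ Nm B → k ∈ Nm E → k = 1 := fun k kA kB kE => by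
    by_contra k1
    have h1 := nb.fix A hA.1 B hB.1 AB k (nb.cen A hA.1 B hB.1 k kA kB) k1 E hE.1 kE
    rcases (b.ld A B y (nb.lp A hA.1 B hB.1 AB) hA.2 hB.2 (p1 A hA)).two E
      ⟨h1, nb.card E hE.1⟩ hE.2 with h | h
    · exact AE h.symm
    · exact BE h.symm
  rcases nb.tri A hA.1 g gA with h | h | h
  · rw [key g h gB gE]; exact one_mem _
  · have h1 : g * y ∈ Ct A := mem_centralizer_iff.2 fun a ha => by
      have := ex_mul h (p1 A hA) a ha
      rw [neg_mul_neg, one_mul, zpow_one] at this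
      exact (mul_inv_eq_iff_eq_mul.1 this).symm
    rw [eq_inv_of_mul_eq_one_left (key _ h1 (mul_mem gB hB.2) (mul_mem gE hE.2))]
    exact inv_mem (mem_zpowers y)
  · exact absurd (nb.two' A hA.1 g gA h B hB.1 E hE.1 AB.symm AE.symm gB gE) BE

end Cfsg.Agent.H39.ElZ3
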