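import Cfsg.Agent.H50.E72Defs

/-!
# S5935, piece EMB27: the Borel subgroup and the Bruhat decomposition of `L₂(27)`
-/

set_option autoImplicit false

namespace Cfsg.Agent.H39.Emb27

open Cfsg.Agent.H50.E72 Multiplicative Polynomial
open scoped Matrix MatrixGroups

universe u

variable {F : Type u} [Field F]

theorem charP3 [Fintype F] (h : Fintype.card F = 27) : CharP F 3 := by
  obtain ⟨p, hp⟩ := CharP.exists F
  obtain ⟨n, hpp, hn⟩ := FiniteField.card F p
  have h1 : p ∣ 3 ^ 3 := by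
    rw [show 3 ^ 3 = 27 by norm_num, ← h, hn]; exact dvd_pow_self p n.ne_zero
  have h2 : p = 3 := (Nat.prime_dvd_prime_iff_eq hpp Nat.prime_three).1 (hpp.dvd_of_dvd_pow h1)
  rwa [h2] at hp

theorem exists_theta [Fintype F] [CharP F 3] (h : Fintype.card F = 27) :
    ∃ θ : F, θ ^ 3 = θ + 1 := by
  by_contra hn
  have : Fact (Nat.Prime 3) := ⟨Nat.prime_three⟩
  have h3 : (3 : F) = 0 := by exact_mod_cast CharP.cast_eq_zero F 3
  let P : F[X] := (X ^ 3 - X) ^ 8 + (X ^ 3 - X) ^ 7 + (X ^ 3 - X) ^ 6 + (X ^ 3 - X) ^ 5 +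
    (X ^ 3 - X) ^ 4 + (X ^ 3 - X) ^ 3 + C 2 * (X ^ 3 - X) ^ 2 + C 2 * (X ^ 3 - X)
  have hd : P.natDegree ≤ 24 := by unfold P; compute_degree
  have hc : P.coeff 24 = 1 := by unfold P; compute_degree!
  have h0 : P = 0 := by
    refine eq_zero_of_natDegree_lt_card_of_eval_eq_zero P (f := id) Function.injective_id
      (fun x => ?_) (by omega)
    have e1 : x ^ 27 = x := by rw [← h]; exact FiniteField.pow_card x
    have e2 : (x ^ 3 - x) ^ 3 = x ^ 9 - x ^ 3 := by rw [sub_pow_char]; ring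
    have e3 : (x ^ 3 - x) ^ 9 = x - x ^ 9 := by
      rw [show 9 = 3 * 3 from rfl, pow_mul, e2, sub_pow_char, ← pow_mul, ← pow_mul, e1]
    have e4 : x ^ 3 - x - 1 ≠ 0 := fun e => hn ⟨x, by linear_combination e⟩
    simp only [P, id, eval_add, eval_pow, eval_sub, eval_X, eval_mul, eval_C]
    have e5 : (x ^ 3 - x) ^ 9 + (x ^ 3 - x) ^ 3 + (x ^ 3 - x) = 0 := by rw [e2, e3]; ring
    generalize x ^ 3 - x = y at e4 e5
    refine mul_left_cancel₀ e4 ?_
    linear_combination e5 - y * h3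
  rw [h0, coeff_zero] at hc
  exact zero_ne_one hc

/-- Coordinates with respect to `1, θ, θ ^ 2`. -/
def co [CharP F 3] (θ : F) : E3 →+ F where
  toFun e := ZMod.castHom (dvd_refl 3) F (e 0) + ZMod.castHom (dvd_refl 3) F (e 1) * θ +
    ZMod.castHom (dvd_refl 3) F (e 2) * θ ^ 2
  map_zero' := by simp
  map_add' a b := by simp only [Pi.add_apply, map_add]; ring

theorem co_m27 [CharP F 3] {θ : F} (h : θ ^ 3 = θ + 1) (e : E3) : co θ (m27 e) = θ * co θ e := by
  simp only [co, m27, AddMonoidHom.coe_mk, ZeroHom.coe_mk, Matrix.cons_val_zero,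
    Matrix.cons_val_one, Matrix.cons_val, map_add]
  linear_combination (-ZMod.castHom (dvd_refl 3) F (e 2)) * h

theorem co_iter [CharP F 3] {θ : F} (h : θ ^ 3 = θ + 1) (k : ℕ) :
    co θ (m27^[k] ![1, 0, 0]) = θ ^ k := by
  induction k with
  | zero => simp [co]
  | succ k ih => rw [Function.iterate_succ_apply', co_m27 h, ih, pow_succ']

theorem orb : ∀ e : E3, e = 0 ∨ ∃ k : Fin 13, e = m27^[k] ![1, 0, 0] ∨ e = -m27^[k] ![1, 0, 0] := by
  decide +kernel

theorem pow13 [CharP F 3] {θ : F} (h : θ ^ 3 = θ + 1) : θ ^ 13 = 1 := by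
  rw [← co_iter h, show m27^[13] ![1, 0, 0] = m27^[0] ![1, 0, 0] by decide +kernel, co_iter h,
    pow_zero]

theorem co_cases [CharP F 3] {θ : F} (h : θ ^ 3 = θ + 1) (e : E3) :
    e = 0 ∨ ∃ k : ℕ, co θ e = θ ^ k ∨ co θ e = -θ ^ k := by
  rcases orb e with h1 | ⟨k, h1 | h1⟩
  · exact Or.inl h1
  · exact Or.inr ⟨k, Or.inl (by rw [h1, co_iter h])⟩
  · exact Or.inr ⟨k, Or.inr (by rw [h1, map_neg, co_iter h])⟩

theorem theta_ne [CharP F 3] {θ : F} (h : θ ^ 3 = θ + 1) : θ ≠ 0 := by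
  rintro rfl
  simp at h

theorem co_inj [CharP F 3] {θ : F} (h : θ ^ 3 = θ + 1) : Function.Injective (co θ) := by
  refine (injective_iff_map_eq_zero _).2 fun e he => ?_
  rcases co_cases h e with h1 | ⟨k, h1 | h1⟩
  · exact h1
  · exact absurd (h1.symm.trans he) (pow_ne_zero k (theta_ne h))
  · exact absurd (neg_eq_zero.1 (h1.symm.trans he)) (pow_ne_zero k (theta_ne h))

/-- The upper unitriangular matrices. -/
def uu : Multiplicative F →* SL(2, F) where
  toFun c := ⟨!![1, c.toAdd; 0, 1], by simp [Matrix.det_fin_two]⟩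
  map_one' := by ext i j; fin_cases i <;> fin_cases j <;> simp
  map_mul' a b := by
    apply Subtype.ext
    change (!![1, (a * b).toAdd; 0, 1] : Matrix (Fin 2) (Fin 2) F) =
      !![1, a.toAdd; 0, 1] * !![1, b.toAdd; 0, 1]
    ext i j; fin_cases i <;> fin_cases j <;> simp [Matrix.mul_apply, Fin.sum_univ_two, add_comm]

/-- The diagonal matrices. -/
def dd : Fˣ →* SL(2, F) where
  toFun a := ⟨!![(a : F), 0; 0, ((a⁻¹ : Fˣ) : F)], by simp [Matrix.det_fin_two]⟩
  map_one' := by ext i j; fin_cases i <;> fin_cases j <;> simp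
  map_mul' a b := by
    apply Subtype.ext
    change (!![((a * b : Fˣ) : F), 0; 0, (((a * b)⁻¹ : Fˣ) : F)] : Matrix (Fin 2) (Fin 2) F) =
      !![(a : F), 0; 0, ((a⁻¹ : Fˣ) : F)] * !![(b : F), 0; 0, ((b⁻¹ : Fˣ) : F)]
    ext i j; fin_cases i <;> fin_cases j <;> simp [Matrix.mul_apply, Fin.sum_univ_two, mul_comm]

/-- The Weyl element. -/
def ww : SL(2, F) := ⟨!![0, 1; -1, 0], by simp [Matrix.det_fin_two]⟩

theorem uu_val (c : F) : (uu (ofAdd c)).1 = !![1, c; 0, 1] := rfl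
theorem dd_val (a : Fˣ) : (dd a).1 = !![(a : F), 0; 0, ((a⁻¹ : Fˣ) : F)] := rfl
theorem ww_val : (ww : SL(2, F)).1 = !![0, 1; -1, 0] := rfl

theorem dd_uu (a : Fˣ) (c : F) : dd a * uu (ofAdd c) = uu (ofAdd ((a : F) ^ 2 * c)) * dd a := by
  apply Subtype.ext
  simp only [Matrix.SpecialLinearGroup.coe_mul, uu_val, dd_val]
  ext i j; fin_cases i <;> fin_cases j <;> simp [Matrix.mul_apply, Fin.sum_univ_two]
  field_simp

theorem ww_ww : (ww : SL(2, F)) * ww = dd (-1) := by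
  apply Subtype.ext
  simp only [Matrix.SpecialLinearGroup.coe_mul, ww_val, dd_val]
  ext i j; fin_cases i <;> fin_cases j <;> simp [Matrix.mul_apply, Fin.sum_univ_two]

theorem ww_dd (a : Fˣ) : ww * dd a = dd a⁻¹ * ww := by
  apply Subtype.ext
  simp only [Matrix.SpecialLinearGroup.coe_mul, ww_val, dd_val]
  ext i j; fin_cases i <;> fin_cases j <;> simp [Matrix.mul_apply, Fin.sum_univ_two]

theorem val_ud (s : F) (a : Fˣ) :
    (uu (ofAdd s) * dd a).1 = !![(a : F), s * (a : F)⁻¹; 0, (a : F)⁻¹] := by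
  simp only [Matrix.SpecialLinearGroup.coe_mul, uu_val, dd_val]
  ext i j; fin_cases i <;> fin_cases j <;> simp [Matrix.mul_apply, Fin.sum_univ_two]

theorem val_uwud (s s' : F) (a : Fˣ) : (uu (ofAdd s) * ww * uu (ofAdd s') * dd a).1 =
    !![-(s * a), (1 - s * s') * (a : F)⁻¹; -(a : F), -(s' * (a : F)⁻¹)] := by
  simp only [Matrix.SpecialLinearGroup.coe_mul, uu_val, dd_val, ww_val]
  ext i j; fin_cases i <;> fin_cases j <;> simp [Matrix.mul_apply, Fin.sum_univ_two]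
  ring

theorem val_uw (s : F) : (uu (ofAdd s) * ww).1 = !![-s, 1; -1, 0] := by
  simp only [Matrix.SpecialLinearGroup.coe_mul, uu_val, ww_val]
  ext i j; fin_cases i <;> fin_cases j <;> simp [Matrix.mul_apply, Fin.sum_univ_two]

theorem bruhat (A : SL(2, F)) : (∃ s a, A = uu (ofAdd s) * dd a) ∨
    ∃ s s' a, A = uu (ofAdd s) * ww * uu (ofAdd s') * dd a := by
  have hd : A.1 0 0 * A.1 1 1 - A.1 0 1 * A.1 1 0 = 1 := by rw [← Matrix.det_fin_two]; exact A.2
  by_cases hc : A.1 1 0 = 0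
  · rw [hc, mul_zero, sub_zero] at hd
    have ha : A.1 0 0 ≠ 0 := left_ne_zero_of_mul_eq_one hd
    refine Or.inl ⟨A.1 0 0 * A.1 0 1, Units.mk0 _ ha, Subtype.ext ?_⟩
    rw [val_ud]
    ext i j; fin_cases i <;> fin_cases j <;> simp [hc]
    · field_simp
    · exact eq_inv_of_mul_eq_one_right hd
  · refine Or.inr ⟨A.1 0 0 / A.1 1 0, A.1 1 1 * A.1 1 0, Units.mk0 _ (neg_ne_zero.2 hc),
      Subtype.ext ?_⟩
    rw [val_uwud]
    ext i j; fin_cases i <;> fin_cases j <;> simp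
    · field_simp
    · field_simp; linear_combination -hd
    · field_simp

/-- The quotient map. -/
def pr : SL(2, F) →* PSL(2, F) := QuotientGroup.mk' _

theorem pr_eq {A B : SL(2, F)} (h : pr A = pr B) : ∃ r : F, ∀ i j, B.1 i j = r * A.1 i j := by
  obtain ⟨z, hz, rfl⟩ := (QuotientGroup.mk'_eq_mk' _).1 h
  obtain ⟨r, -, hr⟩ := Matrix.SpecialLinearGroup.mem_center_iff.1 hz
  refine ⟨r, fun i j => ?_⟩
  rw [Matrix.SpecialLinearGroup.coe_mul, ← hr]
  simp [Matrix.scalar_apply, mul_comm]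

theorem pr_neg : pr (dd (-1 : Fˣ)) = 1 := by
  refine (QuotientGroup.eq_one_iff _).2 (Matrix.SpecialLinearGroup.mem_center_iff.2 ⟨-1, by simp, ?_⟩)
  rw [dd_val]
  ext i j; fin_cases i <;> fin_cases j <;> simp

theorem emb27 : Emb27Stmt.{u} := by
  intro F _ _ hF
  have := charP3 hF
  obtain ⟨θ, hθ⟩ := exists_theta hF
  have inj := co_inj hθ
  have sur : Function.Surjective (co θ) := by
    refine ((Fintype.bijective_iff_injective_and_card _).2 ⟨inj, ?_⟩).2
    rw [hF]; simp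
  let a : Fˣ := Units.mk0 θ (theta_ne hθ) ^ 7
  have a2 : (a : F) ^ 2 = θ := by
    simp only [a, Units.val_pow_eq_pow_val, Units.val_mk0]
    rw [← pow_mul, show 7 * 2 = 13 + 1 from rfl, pow_succ, pow13 hθ, one_mul]
  have a13 : a ^ 13 = 1 := by
    ext
    simp only [a, Units.val_pow_eq_pow_val, Units.val_mk0, Units.val_one]
    rw [← pow_mul, mul_comm, pow_mul, pow13 hθ, one_pow]
  clear_value a
  have tor : ∀ b : Fˣ, ∃ k : ℕ, pr (dd b) = pr (dd a) ^ k := fun b => by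
    obtain ⟨e, he⟩ := sur b
    rcases co_cases hθ e with h1 | ⟨k, h1 | h1⟩
    · rw [h1, map_zero] at he
      exact absurd he.symm b.ne_zero
    · refine ⟨2 * k, ?_⟩
      rw [← map_pow, ← map_pow]
      congr 2
      ext; rw [← he, h1, ← a2, Units.val_pow_eq_pow_val, pow_mul]
    · refine ⟨2 * k, ?_⟩
      have : b = -1 * a ^ (2 * k) := by
        ext; rw [← he, h1, ← a2]; simp [pow_mul]
      rw [this, map_mul, map_mul, pr_neg, one_mul, map_pow, map_pow]
  let x : Multiplicative E3 →* PSL(2, F) := (pr.comp uu).comp (AddMonoidHom.toMultiplicative (co θ))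
  have hx : ∀ e, x e = pr (uu (ofAdd (co θ e.toAdd))) := fun e => rfl
  clear_value x
  refine ⟨x, pr (dd a), pr ww, ?_, ?_, fun e => ?_, ?_, ?_, fun g => ?_, fun e e' e'' k h => ?_,
    fun e k h => ?_⟩
  · refine (injective_iff_map_eq_one _).2 fun e he => ?_
    rw [hx, ← map_one pr] at he
    obtain ⟨r, hr⟩ := pr_eq he.symm
    have h1 := hr 0 1
    simp only [uu_val] at h1
    have h2 : co θ e.toAdd = co θ 0 := by simpa using h1
    exact toAdd.injective (inj h2)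
  · rw [← map_pow, ← map_pow, a13, map_one, map_one]
  · rw [hx, hx, ← map_mul, dd_uu, toAdd_ofAdd, toAdd_ofAdd, co_m27 hθ, a2, map_mul,
      mul_inv_cancel_right]
  · rw [← map_mul, ww_ww, pr_neg]
  · rw [← map_mul, ww_dd, map_mul, mul_inv_cancel_right, map_inv, map_inv]
  · obtain ⟨A, rfl⟩ : ∃ A, pr A = g := QuotientGroup.mk'_surjective _ g
    rcases bruhat A with ⟨s, b, rfl⟩ | ⟨s, s', b, rfl⟩
    · obtain ⟨e, rfl⟩ := sur s
      obtain ⟨k, hk⟩ := tor b
      exact Or.inl ⟨ofAdd e, k, by rw [map_mul, hk, hx, toAdd_ofAdd]⟩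
    · obtain ⟨e, rfl⟩ := sur s
      obtain ⟨e', rfl⟩ := sur s'
      obtain ⟨k, hk⟩ := tor b
      exact Or.inr ⟨ofAdd e, ofAdd e', k, by
        rw [map_mul, map_mul, map_mul, hk, hx, hx, toAdd_ofAdd, toAdd_ofAdd]⟩
  · rw [hx, hx, hx, ← map_pow, ← map_pow, ← map_mul, ← map_mul, ← map_mul, ← map_mul] at h
    obtain ⟨r, hr⟩ := pr_eq h.symm
    have h1 := hr 0 0
    have h2 := hr 1 0
    rw [val_uw, val_uwud] at h1 h2
    simp only [Matrix.of_apply, Matrix.cons_val', Matrix.cons_val_zero, Matrix.cons_val_one,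
      Matrix.cons_val_fin_one] at h1 h2
    refine toAdd.injective (inj ?_)
    linear_combination -h1 + co θ e'.toAdd * h2
  · rw [hx, ← map_pow, ← map_pow, ← map_mul] at h
    obtain ⟨r, hr⟩ := pr_eq h.symm
    have h2 := hr 1 0
    rw [val_ud, ww_val] at h2
    simp at h2

end Cfsg.Agent.H39.Emb27
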