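import Cfsg.Agent.H73.GagDefs

/-! Homomorphisms between sums of natural modules for `SL₂(2ⁿ)`. -/

set_option autoImplicit false
set_option linter.style.haveILetI false
set_option linter.unusedTactic false

namespace Cfsg.Agent.H39.GagAlg

open Cfsg.Agent.H82 Cfsg.Agent.H73.Gag
open scoped MatrixGroups

universe u

variable {F : Type} [Field F]

/-- `M` is a sum of natural modules, described by the matrix units `e` and `f`. -/
structure NatS {M : Type u} [AddCommGroup M] [DistribMulAction SL(2, F) M] [Module F M]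
    (e f : M →ₗ[F] M) : Prop where
  ee : ∀ m, e (e m) = 0
  ff : ∀ m, f (f m) = 0
  ef : ∀ m, e (f m) + f (e m) = m
  u : ∀ (s : F) m, uu s • m = m + s • e m
  l : ∀ (s : F) m, ll s • m = m + s • f m
  h : ∀ (s : F) (hs : s ≠ 0) m, hh s hs • m = s • e (f m) + s⁻¹ • f (e m)

theorem exists_natS [Finite F] {M : Type u} [AddCommGroup M] [DistribMulAction SL(2, F) M]
    (h : FPF3 F M) (h2 : (2 : F) = 0) (hM : ∀ m : M, m + m = 0) :
    ∃ (_ : Module F M) (e f : M →ₗ[F] M), NatS e f := by
  let A : SL(2, F) → M →+ M := fun g => DistribSMul.toAddMonoidHom M g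
  let E : F → M →+ M := fun s => A (uu s) - AddMonoidHom.id M
  let L : F → M →+ M := fun s => A (ll s) - AddMonoidHom.id M
  let S : F → M →+ M := fun c => (E c).comp (L 1) + (L c).comp (E 1)
  let Eq : ((Fin 2 → F) →+ M) → Prop := fun Φ => ∀ (g : SL(2, F)) v, Φ (g • v) = g • Φ v
  have ext : ∀ T T' : M →+ M, (∀ Φ, Eq Φ → ∀ v, T (Φ v) = T' (Φ v)) → ∀ m, T m = T' m := by
    intro T T' k m
    obtain ⟨Φ, Ψ, hΦ, hΨ, a, b, rfl⟩ := h.exists_add h2 hM m
    rw [map_add, map_add, k Φ hΦ, k Ψ hΨ]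
  have kA : ∀ Φ, Eq Φ → ∀ g v, A g (Φ v) = Φ (g • v) := fun Φ k g v => (k g v).symm
  have kE : ∀ Φ, Eq Φ → ∀ s v, E s (Φ v) = Φ ![s * v 1, 0] := fun Φ k s v => by
    show A (uu s) (Φ v) - Φ v = _
    rw [kA Φ k, ← map_sub]
    congr 1
    apply vec2_ext <;> simp [SL2_smul_apply, ent]
  have kL : ∀ Φ, Eq Φ → ∀ s v, L s (Φ v) = Φ ![0, s * v 0] := fun Φ k s v => by
    show A (ll s) (Φ v) - Φ v = _
    rw [kA Φ k, ← map_sub]
    congr 1
    apply vec2_ext <;> simp [SL2_smul_apply, ent]
  have kS : ∀ Φ, Eq Φ → ∀ c v, S c (Φ v) = Φ (c • v) := fun Φ k c v => by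
    show E c (L 1 (Φ v)) + L c (E 1 (Φ v)) = _
    rw [kL Φ k, kE Φ k, kE Φ k, kL Φ k, ← map_add]
    congr 1
    apply vec2_ext <;> simp
  letI : SMul F M := ⟨fun c m => S c m⟩
  letI : Module F M := Module.ofMinimalAxioms (fun c => map_add (S c))
    (fun r s => ext (S (r + s)) (S r + S s) fun Φ k v => by
      rw [kS Φ k, AddMonoidHom.add_apply, kS Φ k, kS Φ k, add_smul, map_add])
    (fun r s => ext (S (r * s)) ((S r).comp (S s)) fun Φ k v => by
      rw [AddMonoidHom.comp_apply, kS Φ k, kS Φ k, kS Φ k, mul_smul])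
    (ext (S 1) (AddMonoidHom.id M) fun Φ k v => by rw [kS Φ k, one_smul]; rfl)
  refine ⟨inferInstance,
    { toAddHom := E 1
      map_smul' := fun c => ext ((E 1).comp (S c)) ((S c).comp (E 1)) fun Φ k v => ?_ },
    { toAddHom := L 1
      map_smul' := fun c => ext ((L 1).comp (S c)) ((S c).comp (L 1)) fun Φ k v => ?_ },
    ext ((E 1).comp (E 1)) 0 fun Φ k v => ?_, ext ((L 1).comp (L 1)) 0 fun Φ k v => ?_,
    ext (S 1) (AddMonoidHom.id M) fun Φ k v => ?_,
    fun s => ext (A (uu s)) (AddMonoidHom.id M + (S s).comp (E 1)) fun Φ k v => ?_,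
    fun s => ext (A (ll s)) (AddMonoidHom.id M + (S s).comp (L 1)) fun Φ k v => ?_,
    fun s hs => ext (A (hh s hs)) ((S s).comp ((E 1).comp (L 1)) + (S s⁻¹).comp ((L 1).comp (E 1)))
      fun Φ k v => ?_⟩
  all_goals
    simp only [AddMonoidHom.comp_apply, AddMonoidHom.add_apply, AddMonoidHom.id_apply,
      AddMonoidHom.zero_apply, kE Φ k, kL Φ k, kS Φ k, kA Φ k, ← map_add]
    first
      | (rw [← map_zero Φ]; congr 1; apply vec2_ext <;> simp; done)
      | (congr 1; apply vec2_ext <;> simp [SL2_smul_apply, ent, add_comm]; done)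

section

variable {Y R : Type u} [AddCommGroup Y] [AddCommGroup R] [DistribMulAction SL(2, F) Y]
  [DistribMulAction SL(2, F) R] [Module F Y] [Module F R] {e f : Y →ₗ[F] Y} {e' f' : R →ₗ[F] R}

theorem NatS.efe (y : NatS e f) (m : Y) : e (f (e m)) = e m := by
  have := y.ef (e m)
  rwa [y.ee, map_zero, add_zero] at this

theorem NatS.fef (y : NatS e f) (m : Y) : f (e (f m)) = f m := by
  have := y.ef (f m)
  rwa [y.ff, map_zero, zero_add] at this

variable (y : NatS e f) (r : NatS e' f') {φ : Y →+ R}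
include y r

theorem comm_e {s : F} (h : ∀ m, φ (uu s • m) = uu s • φ m) (m : Y) :
    φ (s • e m) = s • e' (φ m) := by
  have := h m
  rwa [y.u, r.u, map_add, add_right_inj] at this

theorem comm_f {s : F} (h : ∀ m, φ (ll s • m) = ll s • φ m) (m : Y) :
    φ (s • f m) = s • f' (φ m) := by
  have := h m
  rwa [y.l, r.l, map_add, add_right_inj] at this

theorem e_hh (h : ∀ (s : F) m, φ (s • e m) = s • e' (φ m)) {l : F} (hl : l ≠ 0) (m : Y) :
    e' (hh l hl • φ m - φ (hh l hl • m)) = 0 := by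
  have h1 : ∀ m, φ (e m) = e' (φ m) := fun m => by simpa using h 1 m
  rw [map_sub, ← h1, r.h, y.h, map_add, map_add, map_smul, map_smul, map_smul, map_smul, r.ee, y.ee,
    r.efe, y.efe, smul_zero, smul_zero, zero_add, zero_add, h, sub_self]

theorem comm_ll {l : F} (l0 : l ≠ 0) (l1 : l + 1 ≠ 0) (l2 : l ^ 2 + l + 1 ≠ 0)
    (h : ∀ (s : F) m, φ (s • e m) = s • e' (φ m))
    (hh' : ∀ (l : F) (hl : l ≠ 0) m, φ (hh l hl • m) = hh l hl • φ m) (t : F) (m : Y) :
    φ (ll t • m) = ll t • φ m := by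
  have h1 : ∀ m, φ (e m) = e' (φ m) := fun m => by simpa using h 1 m
  let β : Y → R := fun m => e' (f' (φ (f m)))
  have ba : ∀ m m', β (m + m') = β m + β m' := fun m m' => by simp only [β, map_add]
  have b1 : ∀ (c : F), c ≠ 0 → ∀ m, c • β (c • m) = β m := fun c hc m => by
    have := congrArg (fun x => e' (f' x)) (hh' c hc (f (c • m)))
    simp only [y.h, r.h, y.ff, y.fef, map_zero, smul_zero, zero_add, map_add, map_smul, r.fef, r.ff,
      add_zero, smul_smul, inv_mul_cancel₀ hc, one_smul] at this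
    simp only [β, map_smul]
    exact this.symm
  have b0 : ∀ m, β m = 0 := fun m => by
    have e1 := b1 (l + 1) l1 m
    have e2 := b1 l l0 m
    rw [add_smul l 1 m, one_smul, ba] at e1
    have e3 : (l ^ 2 + l + 1) • β m = 0 := by
      have e4 : l • (l + 1) • (β (l • m) + β m) = l • β m := by rw [e1]
      rw [smul_add (l + 1), smul_add l, smul_comm l (l + 1) (β (l • m)), e2] at e4
      linear_combination (norm := module) e4
    exact (smul_eq_zero.1 e3).resolve_left l2
  have hf : ∀ m, φ (f m) = f' (φ m) := fun m => by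
    have e1 : φ (f m) = f' (φ (e (f m))) := by
      rw [h1, ← r.ef (φ (f m))]
      have : e' (f' (φ (f m))) = 0 := b0 m
      rw [this, zero_add, r.efe]
    have e2 : f' (φ (f (e m))) = 0 := by
      rw [← r.fef]
      have : e' (f' (φ (f (e m)))) = 0 := b0 _
      rw [this, map_zero]
    rw [e1]
    conv_rhs => rw [← y.ef m, map_add, map_add, e2, add_zero]
  rw [y.l, r.l, map_add, ← y.fef, ← map_smul, hf, h, hf, map_smul, r.fef]

theorem D_zero (hR : ∀ x : R, x + x = 0) {l : F} (l0 : l ≠ 0) (l1 : l + 1 ≠ 0)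
    (D : F → Y →+ R) (hD : ∀ s m, D s m = φ (s • e m) + s • e' (φ m) + s • e' (φ (s • e m)))
    (De : ∀ s m, D s (e m) = e' (D s m)) (Df : ∀ s m, D s (f m) = f' (D s m)) (s : F) (m : Y) :
    D s m = 0 := by
  have ga : ∀ (s : F) m, e' (φ (s • e m)) = s • e' (φ (e m)) := fun s m => by
    have := De s m
    rw [hD, hD] at this
    simpa only [y.ee, smul_zero, map_zero, zero_add, add_zero, map_add, map_smul, r.ee] using
      this.symm
  have al : ∀ (s : F) m, e' (f' (φ (s • e m))) + s • e' (φ (f (e m))) + (s * s) • e' (φ (e m)) = 0 :=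
    fun s m => by
      have := congrArg (fun x => e' (f' x)) (Df s (e m))
      simp only [r.ff, map_zero] at this
      rw [hD] at this
      simpa only [y.efe, map_add, map_smul, r.efe, ga, smul_smul] using this
  have al' : ∀ (s : F) m, e' (f' (φ (s • e m))) =
      s • e' (f' (φ (e m))) + (s + s * s) • e' (φ (e m)) := fun s m => by
    have e1 := al s m
    have e2 := al 1 m
    simp only [one_smul, mul_one] at e2
    have e3 : s • (e' (f' (φ (e m))) + e' (φ (f (e m))) + e' (φ (e m))) = 0 := by rw [e2, smul_zero]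
    have e6 := hR ((s * s) • e' (φ (e m)))
    linear_combination (norm := module) e1 - e3 - e6
  have g0 : ∀ m, e' (φ (e m)) = 0 := fun m => by
    have e1 := al' (l * l) m
    have e2 := al' l (l • m)
    rw [e.map_smul, smul_smul, al' l m, ga, e1] at e2
    have e3 := hR ((l * l + l * l * l + l * l * l) • e' (φ (e m)))
    have e4 : (l ^ 2 * (l + 1) ^ 2) • e' (φ (e m)) = 0 := by
      linear_combination (norm := module) e2 + e3
    exact (smul_eq_zero.1 e4).resolve_left (mul_ne_zero (pow_ne_zero _ l0) (pow_ne_zero _ l1))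
  have d0 : ∀ m, D s (e m) = 0 := fun m => by
    rw [hD, y.ee, smul_zero, map_zero, g0, map_zero, smul_zero, add_zero, add_zero]
  rw [← y.ef m, map_add, d0, Df, d0, map_zero, add_zero]

end

theorem exists_param [Finite F] (hF : 4 < Nat.card F) :
    ∃ l : F, l ≠ 0 ∧ l + 1 ≠ 0 ∧ l ^ 2 + l + 1 ≠ 0 := by
  classical
  by_contra h
  push Not at h
  haveI := Fintype.ofFinite F
  let p : Polynomial F := Polynomial.X * (Polynomial.X + 1) * (Polynomial.X ^ 2 + Polynomial.X + 1)
  have hd : p.natDegree ≤ 4 := by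
    simp only [p]
    compute_degree
  have h0 : p = 0 := by
    refine Polynomial.eq_zero_of_natDegree_lt_card_of_eval_eq_zero p Function.injective_id
      (fun l => ?_) (by rw [← Nat.card_eq_fintype_card]; omega)
    simp only [p, id, Polynomial.eval_mul, Polynomial.eval_add, Polynomial.eval_X, Polynomial.eval_one,
      Polynomial.eval_pow]
    by_cases h1 : l = 0
    · simp [h1]
    · by_cases h2 : l + 1 = 0
      · simp [h2]
      · simp [h l h1 h2]
  have hm : p.Monic := by
    simp only [p]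
    monicity!
  exact hm.ne_zero h0

/-- **ALG** -/
theorem alg : AlgStmt.{u} := by
  intro F _ _ h2 hF Y R B _ _ _ _ _ _ _ _ _ _ hY hR hB fY fR g hg hs
  obtain ⟨_, e, f, y⟩ := exists_natS fY h2 hY
  obtain ⟨_, e', f', r⟩ := exists_natS fR h2 hR
  obtain ⟨l, l0, l1, l2⟩ := exists_param hF
  have inj : ∀ b, (∀ m, e' (g b m) = 0) → b = 0 := fun b hb => by
    by_contra h0
    obtain ⟨x, hx⟩ := exists_ne (0 : R)
    have he : ∀ x, e' x = 0 := fun x => by
      obtain ⟨m, rfl⟩ := hs b h0 x
      exact hb m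
    exact hx (by rw [← r.ef x, he, he, map_zero, add_zero])
  have cm : ∀ (k : SL(2, F)) b, k • b = b → ∀ m, g b (k • m) = k • g b m := fun k b h m => by
    rw [← hg, h]
  have df : ∀ (k : SL(2, F)) b m, g (k • b - b) (k • m) = k • g b m - g b (k • m) := fun k b m => by
    rw [map_sub, AddMonoidHom.sub_apply, hg]
  have fix : ∀ (k : SL(2, F)) b, (∀ m, e' (k • g b m - g b (k • m)) = 0) → k • b = b :=
    fun k b h => sub_eq_zero.1 (inj _ fun m => by rw [← smul_inv_smul k m, df, h])
  have step1 : ∀ b : B, (∀ t : F, uu t • b = b) → ∀ t : F, ll t • b = b := fun b hb t => by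
    have he := fun s => comm_e y r (cm _ b (hb s))
    refine fix _ b fun m => ?_
    rw [comm_ll y r l0 l1 l2 he (fun c hc => cm _ b (fix _ b (e_hh y r he hc))), sub_self, map_zero]
  have htop : fixS B (UU F) = ⊤ := by
    by_contra hne
    haveI : Fact (Nat.Prime 2) := ⟨Nat.prime_two⟩
    obtain ⟨b, hb, h⟩ := exists_not_mem_smul_sub_mem (p := 2) (P := UU F)
      (by
        rintro ⟨_, t, rfl⟩
        refine ⟨1, Subtype.ext ?_⟩
        show uu t ^ 2 ^ 1 = 1
        rw [pow_one, sq, ← uu_add, ← two_mul, h2, zero_mul, uu_zero])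
      (fun b => ⟨1, by rw [pow_one, sq]; exact hB b⟩) (fixS B (UU F))
      (fun k hk w hw => by rw [hw k hk]; exact hw) hne
    have h' := fun s => mem_fixS_UU.1 (h _ (uu_mem s))
    have hz := D_zero y r (φ := g b) hR l0 l1 (fun s => g (uu s • b - b))
      (fun s m => by
        have e1 : uu s • uu s • m = m := by
          rw [← mul_smul, ← uu_add, ← two_mul, h2, zero_mul, uu_zero, one_smul]
        conv_lhs => rw [← e1, df, e1, r.u, y.u]
        simp only [map_add]
        module)
      (fun s m => by simpa using comm_e y r (cm _ _ (h' s 1)) m)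
      (fun s m => by simpa using comm_f y r (cm _ _ (step1 _ (h' s) 1)) m)
    exact hb (mem_fixS_UU.2 fun s => sub_eq_zero.1 (inj _ fun m => by rw [hz, map_zero]))
  intro k b
  have hb := mem_fixS_UU.1 (htop ▸ AddSubgroup.mem_top b : b ∈ fixS B (UU F))
  exact smul_eq_of_uu_ll hb (step1 b hb) k

end Cfsg.Agent.H39.GagAlg
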