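import Cfsg.Agent.H98.GbL

/-! Project GB, piece TWIST: multiplication of Green's characters by linear characters. -/

set_option autoImplicit false

namespace Cfsg.Agent.H39.GbTwist

open Cfsg Finset Cfsg.Agent.H98.GB
open scoped MatrixGroups

universe u

variable {F : Type u} [Field F] [Fintype F] [DecidableEq F] (C : Ctx F)

theorem P_mod (hV : VALStmt.{u}) {m a b : ℕ} (hm : 0 < m)
    (h : a ≡ b [MOD Fintype.card F ^ m - 1]) : C.P a m = C.P b m := by
  funext g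
  rcases hV F C m hm g with k | ⟨c, ζ, h1, h2, -⟩
  · rw [k, k]
  · rw [h2, h2]
    exact congrArg _ (sum_congr rfl fun i _ => pow_eq_pow_of_modEq (h.mul_right _) h1)

theorem P_q (hV : VALStmt.{u}) {m : ℕ} (hm : 0 < m) (a : ℕ) :
    C.P (a * Fintype.card F) m = C.P a m := by
  funext g
  rcases hV F C m hm g with k | ⟨c, ζ, h1, h2, -⟩
  · rw [k, k]
  · rw [h2, h2]
    congr 1
    have e := (sum_range_succ' (fun i => ζ ^ (a * Fintype.card F ^ i)) m).symm.trans
      (sum_range_succ (fun i => ζ ^ (a * Fintype.card F ^ i)) m)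
    have e2 : ζ ^ (a * Fintype.card F ^ m) = ζ ^ (a * Fintype.card F ^ 0) :=
      pow_eq_pow_of_modEq (((Nat.modEq_iff_dvd' (Nat.one_le_pow _ _ Fintype.card_pos)).2
        dvd_rfl).symm.mul_left a) h1
    rw [e2, add_left_inj] at e
    rw [← e]
    exact sum_congr rfl fun i _ => by rw [pow_succ' (Fintype.card F), mul_assoc]

theorem pow_fix {c : C.L} (hc : C.qL * c = c) (m : ℕ) : C.qL ^ m * c = c := by
  induction m with
  | zero => simp
  | succ m ih => rw [pow_succ, mul_assoc, hc, ih]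

theorem P_eta (hV : VALStmt.{u}) (L : C.Lab) {c : C.L} (hc : C.qL * c = c) {m : ℕ} (hm : 0 < m)
    (a : ℕ) (g : GL (Fin m) F) :
    (dl (C.eta c) m g : ℂ) * C.P a m g = C.P (a + C.ex c m) m g := by
  rcases hV F C m hm g with k | ⟨d, ζ, h1, h2, -, h3, -⟩
  · rw [k, k, mul_zero]
  have e1 : (dl (C.eta c) m g : ℂ) = ζ ^ C.ex c m := by
    have := L.ex_lift c 1 m (by rwa [pow_one])
    simp only [one_mul] at this
    rw [this, mul_comm, pow_mul, ← h3]
    simp [dl, Ctx.eta]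
  have e2 : ∀ i, C.ex c m * Fintype.card F ^ i ≡ C.ex c m [MOD Fintype.card F ^ m - 1] := by
    have := L.ex_q c m (pow_fix C hc m)
    rw [hc] at this
    intro i
    induction i with
    | zero => simp [Nat.ModEq]
    | succ i ih =>
      rw [pow_succ, ← mul_assoc]
      exact (ih.mul_right _).trans this.symm
  rw [h2, h2, e1, mul_left_comm, mul_sum]
  refine congrArg _ (sum_congr rfl fun i _ => ?_)
  rw [add_mul, pow_add, pow_eq_pow_of_modEq (e2 i) h1, mul_comm]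

theorem P_ex (hV : VALStmt.{u}) (L : C.Lab) {b : C.L} {m : ℕ} (hm : 0 < m)
    (hb : C.qL ^ m * b = b) (i : ℕ) : C.P (C.ex (C.qL ^ i * b) m) m = C.P (C.ex b m) m := by
  induction i with
  | zero => simp
  | succ i ih =>
    rw [pow_succ', mul_assoc, P_mod C hV hm (L.ex_q _ m (by rw [mul_left_comm, hb])), P_q C hV hm,
      ih]

theorem twist (hM : MULStmt.{u}) (hN : NWEHStmt.{u}) (hL : LABStmt.{u}) (hV : VALStmt.{u})
    (hB : BRStmt.{u}) : TWISTStmt.{u} := by
  intro F _ _ _ C c hc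
  have L := hL F C
  obtain ⟨T, h1, -⟩ := hM F 1 C.H (fun n g => (dl (C.eta c) n g : ℂ))
    (fun n g x => by simp [mul_comm])
    (funext fun g => by rw [Subsingleton.elim g 1, map_one]; rfl)
    (fun a b n h u d v => by simp only [dl_tri, Units.val_mul])
  have h2 : ∀ a m, 0 < m → T (C.pa a m) = C.pa (a + C.ex c m) m := fun a m hm => C.H.inj (by
    funext n
    rw [h1, Ctx.pa, Ctx.pa, C.H.ev_sg ((hB F C).1 _ _), C.H.ev_sg ((hB F C).1 _ _)]
    by_cases e : n = m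
    · subst e
      rw [Pi.single_eq_same, Pi.single_eq_same]
      exact funext (P_eta C hV L hc hm a)
    · rw [Pi.single_eq_of_ne e, Pi.single_eq_of_ne e, mul_zero])
  have h3 : ∀ φ k, 0 < k → T (C.pp φ k) = C.pp (C.tw c φ) k := fun φ k hk => by
    have hm := Nat.mul_pos (L.dg_pos φ) hk
    obtain ⟨i, hi⟩ := (L.mk_eq (C.out φ + c) (C.out (C.tw c φ))).1 (L.mk_out (C.tw c φ)).symm
    have e1 : C.qL ^ (C.dg φ * k) * C.out φ = C.out φ :=
      (L.dg_iff _ _).2 (by rw [L.mk_out]; exact dvd_mul_right _ _)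
    have e2 := pow_fix C hc (C.dg φ * k)
    rw [Ctx.pp, Ctx.pp, map_smul, h2 _ _ hm, L.dg_tw c φ hc, hi, Ctx.pa, Ctx.pa,
      P_ex C hV L hm (by rw [mul_add, e1, e2]), P_mod C hV hm (L.ex_add _ _ _ e1 e2)]
  refine ⟨T, h1, h3, fun Λ n => ?_⟩
  have hc' : C.qL * -c = -c := by rw [mul_neg, hc]
  have k1 : ∀ φ, C.tw (-c) (C.tw c φ) = φ := fun φ => by
    rw [L.tw_tw _ _ _ hc' hc, neg_add_cancel, L.tw_zero]
  have k2 : ∀ φ, C.tw c (C.tw (-c) φ) = φ := fun φ => by
    rw [L.tw_tw _ _ _ hc hc', add_neg_cancel, L.tw_zero]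
  refine (h1 _ n).symm.trans (congrArg (C.H.ev · n) ?_)
  rw [sL, sL, map_prod, ← Equiv.prod_comp (⟨C.tw c, C.tw (-c), k1, k2⟩ : C.Φ ≃ C.Φ)
    fun φ => sch C.N (C.pp φ) (C.twL c Λ φ)]
  refine prod_congr rfl fun φ _ => ?_
  rw [((hN _).2.2.2.1 _ T _).2.2]
  simp only [Equiv.coe_fn_mk, Ctx.twL, k1]
  exact (hN _).2.2.2.2.2.1 _ _ _ _ fun k hk _ => h3 φ k hk

end Cfsg.Agent.H39.GbTwist
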