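import Mathlib
import Cfsg.Prelude.Def_SporadicB
import Cfsg.Prelude.Def_Sz
import Cfsg.Prelude.Def_Classical
import Cfsg.Prelude.Def_CaseTheorems
import Cfsg.Prelude.Def_Local
import Cfsg.Agent.H52.FStar
import Cfsg.Agent.H8.SylowIn

/-!
Holt's theorem, row C2: control of the fusion of a `2`-central involution identifies `F*`.
-/

set_option autoImplicit false

namespace Cfsg.Agent.H39.HC2

open Cfsg Cfsg.Agent.H52 Subgroup
open Cfsg.Agent.H8 (IsSylowIn)

universe u

theorem solv_a4 : Group.IsSolvable (alternatingGroup (Fin 4)) := by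
  refine ⟨2, ?_⟩
  have h4 : Nat.card (Fin 4) = 4 := by simp
  rw [derivedSeries_succ, derivedSeries_one, ← alternatingGroup.kleinFour_eq_commutator h4,
    commutator_eq_bot_iff_le_centralizer]
  have := alternatingGroup.kleinFour_isKleinFour h4
  intro a ha b hb
  exact congrArg Subtype.val
    (IsKleinFour.isMulCommutative.is_comm.comm (⟨b, hb⟩ : alternatingGroup.kleinFour (Fin 4)) ⟨a, ha⟩)

/-- The text of S2901 in the universe `u`. -/
def T2901 : Prop :=
  ∀ {K : Type u} [Group K] [Finite K] [IsSimpleGroup K] (_ : ¬ IsMulCommutative K) (P : Subgroup K)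
    (_ : P ≠ ⊤) (r : K) (_ : r ∈ P) (_ : Cfsg.IsTwoCentralInvolution r)
    (_ : Subgroup.centralizer ({r} : Set K) ≤ P)
    (_ : ∀ g : K, g * r * g⁻¹ ∈ P → ∃ h ∈ P, h * r * h⁻¹ = g * r * g⁻¹),
    ((( ∃ (F : Type) (_ : Field F) (_ : Fintype F) (a : ℕ), 2 ≤ a ∧ Fintype.card F = 2 ^ a ∧ Nonempty (K ≃* Matrix.ProjectiveSpecialLinearGroup (Fin 2) F)) ∨ (∃ (F : Type) (_ : Field F) (_ : Fintype F) (a : ℕ), 2 ≤ a ∧ Fintype.card F = (2 ^ a) ^ 2 ∧ Nonempty (K ≃* Cfsg.PSU 3 F (2 ^ a))) ∨ Cfsg.Lie.IsoSuzuki K) ∧ ∃ S : Sylow 2 K, P = Subgroup.normalizer ((S : Subgroup K) : Set K)) ∨ (∃ n : ℕ, 5 ≤ n ∧ Nonempty (K ≃* ↥(alternatingGroup (Fin n))) ∧ Nonempty (↥P ≃* ↥(alternatingGroup (Fin (n - 1)))))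

theorem c2902 (H : T2901.{u}) {L : Type u} [Group L] [Finite L] (hO : Cfsg.oddCore L = ⊥) (P : Subgroup L) (hFs : IsSimpleGroup ↥(Cfsg.generalizedFittingSubgroup ↥P)) (hFna : ¬ IsMulCommutative ↥(Cfsg.generalizedFittingSubgroup ↥P)) (hnotalt : ∀ n : ℕ, ¬ Nonempty (↥(Cfsg.generalizedFittingSubgroup ↥P) ≃* ↥(alternatingGroup (Fin n)))) (r : ↥P) (hrF : r ∈ Cfsg.generalizedFittingSubgroup ↥P) (hr : Cfsg.IsTwoCentralInvolution r) (hC : Subgroup.centralizer ({(r : L)} : Set L) ≤ P) (hfus : ∀ g : L, g * (r : L) * g⁻¹ ∈ P → ∃ h : ↥P, h ∈ Cfsg.generalizedFittingSubgroup ↥P ∧ (h : L) * (r : L) * (h : L)⁻¹ = g * (r : L) * g⁻¹) : (Cfsg.generalizedFittingSubgroup L) = ((Cfsg.generalizedFittingSubgroup ↥P).map P.subtype) := by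
  have : Fact (Nat.Prime 2) := ⟨Nat.prime_two⟩
  set F₀ := generalizedFittingSubgroup ↥P with hF₀
  have nF : F₀.Normal := fstar_normal
  have qs : IsQuasisimple F₀ := isQuasisimple_of_isSimpleGroup hFna
  have ctl : ∀ g : L, g * (r : L) * g⁻¹ ∈ P → g ∈ P := by
    intro g hg
    obtain ⟨h, -, e⟩ := hfus g hg
    have : (h : L)⁻¹ * g ∈ P := hC (mem_centralizer_singleton_iff.2 (by
      calc (h : L)⁻¹ * g * r = (h : L)⁻¹ * (g * r * g⁻¹) * g := by group
        _ = r * ((h : L)⁻¹ * g) := by rw [← e]; group))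
    simpa using mul_mem h.2 this
  obtain ⟨ord, T₀, rT, cT⟩ := hr
  have r1 : r ≠ 1 := by rintro rfl; simp at ord
  set T := (T₀ : Subgroup P).map P.subtype with hT
  have sP : IsSylowIn 2 T P := H8.isSylowIn_map_subtype T₀
  have rT' : (r : L) ∈ T := ⟨r, rT, rfl⟩
  have cT' : ∀ x ∈ T, x * (r : L) = r * x := by
    rintro _ ⟨x, hx, rfl⟩
    exact congrArg Subtype.val (cT x hx)
  have sL : IsSylowIn 2 T ⊤ := by
    refine H8.isSylowIn_of_maximal le_top sP.isPGroup fun Q hQ _ hle => ?_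
    by_contra hn
    have lt := H8.lt_inf_normalizer_of_lt hQ (lt_of_le_of_ne hle fun e => hn e.ge)
    refine lt.not_ge (sP.le_of_le_normalizer' (hQ.to_le inf_le_left) (fun g hg => ctl g ?_)
      inf_le_right)
    exact sP.le ((mem_normalizer_iff.1 hg.2 _).1 rT')
  have key : ∀ S : Subgroup L, (S.subgroupOf P).IsSubnormal → (∃ x ∈ S, x ∈ P ∧ x ≠ 1) →
      F₀ ≤ S.subgroupOf P := by
    rintro S hS ⟨x, hx, hx', x1⟩
    have ne : S.subgroupOf P ≠ ⊥ := fun e => x1 (by
      have : (⟨x, hx'⟩ : P) ∈ S.subgroupOf P := hx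
      rw [e, mem_bot] at this
      exact congrArg Subtype.val this)
    have h1 := fstar_inf_ne_bot_of_subnormal hS ne
    rcases (hS.subgroupOf (K := F₀)).eq_bot_or_top_of_isSimpleGroup hFs with e | e
    · exact absurd (disjoint_iff.1 (subgroupOf_eq_bot.1 e).symm) h1
    · exact subgroupOf_eq_top.1 e
  have no2 : ∀ Q : Subgroup L, IsPGroup 2 Q → ¬ F₀ ≤ Q.subgroupOf P := fun Q hQ k =>
    IsQuasisimple.not_isPGroup qs ((hQ.comap_subtype (K := P)).to_le k)
  have O2 : pCore 2 L = ⊥ := by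
    by_contra ne
    have nn := pCore_normal 2 L
    obtain ⟨⟨x, hx⟩, x1⟩ := (ne_bot_iff_exists_ne_one.1 ne)
    have le : pCore 2 L ≤ T := sL.le_of_le_normalizer pCore_isPGroup le_top le_normalizer_of_normal
    exact no2 _ pCore_isPGroup (key _ nn.isSubnormal.subgroupOf
      ⟨x, hx, sP.le (le hx), fun e => x1 (Subtype.ext e)⟩)
  have fit : fittingSubgroup L = ⊥ := by rw [fitting_eq_pCore_of_pPrimeCore_eq_bot hO, O2]
  have fs : generalizedFittingSubgroup L = layer L := by
    rw [generalizedFittingSubgroup, fit, sup_bot_eq]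
  have nl := layer_normal (G := L)
  -- every component is `F`
  have comp : ∀ A : Subgroup L, IsComponent A → A = F₀.map P.subtype := by
    intro A hA
    have sA : IsSylowIn 2 (T ⊓ layer L ⊓ A) A := by
      have h1 := sL.inf_of_le_normalizer (N := layer L) le_normalizer_of_normal
      rw [top_inf_eq] at h1
      have h2 := h1.inf_of_le_normalizer (IsComponent.layer_le_normalizer hA)
      rwa [inf_eq_right.2 (IsComponent.le_layer hA)] at h2
    have ne : T ⊓ layer L ⊓ A ≠ ⊥ := by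
      intro e
      have h1 := sA.not_dvd
      rw [e, relIndex_bot_left] at h1
      exact h1 (IsComponent.dvd_card_of_pPrimeCore_eq_bot hO hA)
    obtain ⟨⟨x, hx⟩, x1⟩ := (ne_bot_iff_exists_ne_one.1 ne)
    have FA : F₀ ≤ A.subgroupOf P :=
      key A hA.1.subgroupOf ⟨x, hx.2, sP.le hx.1.1, fun e => x1 (Subtype.ext e)⟩
    refine le_antisymm ?_ (map_le_iff_le_comap.2 FA)
    by_cases AP : A ≤ P
    · intro a ha
      exact ⟨⟨a, AP ha⟩, IsComponent.le_fstar (IsComponent.subgroupOf hA AP) ha, rfl⟩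
    exfalso
    have cA : center A = ⊥ := by
      apply map_injective A.subtype_injective
      rw [map_center_subtype, Subgroup.map_bot, ← le_bot_iff, ← fit]
      exact IsComponent.center_le_fitting hA
    have := IsQuasisimple.isSimpleGroup_of_center_eq_bot hA.2 cA
    let s : A := ⟨r, FA hrF⟩
    have os : orderOf s = 2 := by
      rw [← ord, ← Subgroup.orderOf_coe s, ← Subgroup.orderOf_coe r]
    have res := H (K := A) (IsQuasisimple.not_isMulCommutative hA.2) (P.subgroupOf A)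
      (fun e => AP (subgroupOf_eq_top.1 e)) s r.2
      ⟨os, sA.toSylow, ⟨⟨rT', IsComponent.le_layer hA (FA hrF)⟩, FA hrF⟩,
        fun y hy => Subtype.ext (cT' y hy.1.1)⟩
      (fun g hg => hC (mem_centralizer_singleton_iff.2
        (congrArg Subtype.val (mem_centralizer_singleton_iff.1 hg))))
      (fun g hg => ⟨g, ctl g hg, rfl⟩)
    rcases res with ⟨-, S, eS⟩ | ⟨n, h5, -, ⟨e⟩⟩
    · -- `F ∩ S` is a nontrivial normal subgroup of `F`
      let j : F₀ →* A := (P.subtype.comp F₀.subtype).codRestrict A fun x => FA x.2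
      have jN : ∀ x, j x ∈ normalizer ((S : Subgroup A) : Set A) := fun x => by
        rw [← eS]; exact x.1.2
      have nn : ((S : Subgroup A).comap j).Normal := ⟨fun a ha g => by
        rw [mem_comap, map_mul, map_mul, map_inv]
        exact (mem_normalizer_iff.1 (jN g) _).1 ha⟩
      have sS : s ∈ (S : Subgroup A) := by
        have h2 : IsPGroup 2 (zpowers s) :=
          IsPGroup.of_card (n := 1) (by rw [Nat.card_zpowers, os, pow_one])
        exact (H8.isSylowIn_top S).le_of_le_normalizer' h2 le_top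
          (zpowers_le.2 (jN ⟨r, hrF⟩)) (mem_zpowers s)
      rcases nn.eq_bot_or_eq_top with e | e
      · have : (⟨r, hrF⟩ : F₀) ∈ (S : Subgroup A).comap j := sS
        rw [e, mem_bot] at this
        exact r1 (congrArg Subtype.val this)
      · refine no2 ((S : Subgroup A).map A.subtype) (S.2.map _) fun y hy => ?_
        have : (⟨y, hy⟩ : F₀) ∈ (S : Subgroup A).comap j := e ▸ mem_top _
        exact ⟨_, this, rfl⟩
    · let j : F₀ →* P.subgroupOf A :=
        ((P.subtype.comp F₀.subtype).codRestrict A fun x => FA x.2).codRestrict _ fun x => x.1.2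
      have ji : Function.Injective j := fun a b h =>
        Subtype.ext (Subtype.ext (congrArg (fun x : P.subgroupOf A => ((x : A) : L)) h))
      have nn : j.range.Normal := ⟨by
        rintro _ ⟨a, rfl⟩ g
        exact ⟨⟨_, nF.conj_mem _ a.2 ⟨g.1.1, g.2⟩⟩, rfl⟩⟩
      by_cases h6 : n = 5
      · subst h6
        have := solv_a4
        exact IsQuasisimple.not_isSolvable qs
          (Group.isSolvable_of_isSolvable_injective (f := e.toMonoidHom.comp j) (e.injective.comp ji))
      · have := alternatingGroup.isSimpleGroup (α := Fin (n - 1)) (by simp; omega)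
        have := e.isSimpleGroup
        rcases nn.eq_bot_or_eq_top with k | k
        · have : j ⟨r, hrF⟩ ∈ j.range := ⟨_, rfl⟩
          rw [k, mem_bot, ← map_one j] at this
          exact r1 (congrArg Subtype.val (ji this))
        · exact hnotalt _ ⟨(MulEquiv.ofBijective j ⟨ji, MonoidHom.range_eq_top.1 k⟩).trans e⟩
  rw [fs]
  refine le_antisymm (layer_le_iff.2 fun A hA => (comp A hA).le) ?_
  have : Nontrivial L := ⟨r, 1, fun e => r1 (Subtype.ext e)⟩
  obtain ⟨A, hA⟩ := layer_ne_bot_iff.1 (fs ▸ fstar_ne_bot (G := L))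
  rw [← comp A hA]
  exact IsComponent.le_layer hA

end Cfsg.Agent.H39.HC2
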