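import Cfsg.Agent.H97.JmDefs
import Cfsg.Agent.H33.J4Odd5
import Cfsg.Agent.S5566
import Cfsg.Agent.S5577
import Cfsg.Agent.S5629

/-!
# S5582, piece X1: the order, the large primes, the elementary abelian group of order `2 ^ 11`
-/

set_option autoImplicit false

namespace Cfsg.Agent.H97.JM

open Subgroup

universe u

namespace X1

theorem big {G : Type u} [Group G] [Finite G] {p n : ℕ} (hp : p.Prime)
    (hn : ¬ p ^ (1 + 1) ∣ Nat.card G)
    (h : ∀ U : Sylow p G, centralizer ((U : Subgroup G) : Set G) = (U : Subgroup G) ∧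
      Nat.card (normalizer ((U : Subgroup G) : Set G)) = n) (a : G) (ha : orderOf a = p) :
    centralizer ({a} : Set G) = zpowers a ∧
      Nat.card (normalizer ((zpowers a : Subgroup G) : Set G)) = n := by
  have := Fact.mk hp
  obtain ⟨U, hU⟩ := H33.J4O.exists_sylow (p := p) (A := zpowers a) (k := 1)
    (by rw [Nat.card_zpowers, ha, pow_one]) hn
  have h1 := h U
  rw [hU, H33.J4O.cent_zpowers] at h1
  exact h1

end X1

theorem pX1 : X1.{u} := by
  intro G _ _ _ hG hJ
  have hc : Nat.card G = 86775571046077562880 := by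
    obtain ⟨z, hz⟩ := hJ
    exact (H33.J4O.card_hna hG ⟨z, hz⟩ (S5629.result hG z hz)).1
  refine ⟨hc, fun p e hpe => ?_, fun T => ?_⟩
  · obtain ⟨h1, h2, h3, h4, h5⟩ := S5577.result hG hJ
    simp only [List.mem_cons, Prod.mk.injEq, List.not_mem_nil, or_false] at hpe
    rcases hpe with ⟨rfl, rfl⟩ | ⟨rfl, rfl⟩ | ⟨rfl, rfl⟩ | ⟨rfl, rfl⟩ | ⟨rfl, rfl⟩
    · exact X1.big (by norm_num) (by rw [hc]; norm_num) h1
    · exact X1.big (by norm_num) (by rw [hc]; norm_num) h2
    · exact X1.big (by norm_num) (by rw [hc]; norm_num) h3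
    · exact X1.big (by norm_num) (by rw [hc]; norm_num) h4
    · exact X1.big (by norm_num) (by rw [hc]; norm_num) h5
  · obtain ⟨V, ⟨h1, h2, h3⟩, hu⟩ := S5566.result hG hJ T
    refine ⟨V, h1, fun t ht => ?_, fun v hv => by rw [← pow_two]; exact h2.2 v hv, h3⟩
    have e : V.map (MulAut.conj t).toMonoidHom = V := by
      refine hu _ ⟨?_, ⟨?_, ?_⟩, ?_⟩
      · rintro _ ⟨v, hv, rfl⟩
        exact mul_mem (mul_mem ht (h1 hv)) (inv_mem ht)
      · have := h2.1
        infer_instance
      · rintro _ ⟨v, hv, rfl⟩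
        rw [← map_pow, h2.2 v hv, map_one]
      · rw [card_map_of_injective (MulAut.conj t).injective, h3]
    refine mem_normalizer_fintype fun v hv => ?_
    have : t * v * t⁻¹ ∈ V.map (MulAut.conj t).toMonoidHom := ⟨v, hv, rfl⟩
    rwa [e] at this

end Cfsg.Agent.H97.JM
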