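import Cfsg.Agent.H50.L81Defs
import Cfsg.Agent.H75.ChevLin
import Cfsg.Agent.H37.F4inE6

/-! Project L81: piece BT1. -/

set_option autoImplicit false

namespace Cfsg.Agent.H39.L81Bt1

open Equiv Cfsg.Lie H37 H34 H34.Split H50.E83 H50.L81

theorem conj_N {J : Set (Fin chevE8.rank)} {n u : GK} (hn : n ∈ P8.N) (hw : P8.ν n ∈ C8.S.WJ J)
    (hu : u ∈ H75.rad P8 J) : n * u * n⁻¹ ∈ H75.rad P8 J :=
  conj_U (A' := {r | C8.S.pos r ∧ r ∉ C8.S.Phi J}) hn (fun _ hr =>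
    ⟨C8.S.pos_of_not_mem_Phi hw hr.1 hr.2, fun h => hr.2 ((C8.S.map_mem_Phi_iff hw).1 h)⟩) hu

theorem B_le (J : Set (Fin chevE8.rank)) :
    P8.B ≤ Subgroup.normalizer (H75.rad P8 J : Set GK) := fun b hb => by
  refine Subgroup.mem_normalizer_iff.2 fun u => ⟨H35.conj_mem_rad J hb, fun h => ?_⟩
  have : b⁻¹ * (b * u * b⁻¹) * b⁻¹⁻¹ ∈ H75.rad P8 J := H35.conj_mem_rad J (inv_mem hb) h
  simpa [mul_assoc] using this

theorem N_mem {J : Set (Fin chevE8.rank)} {n : GK} (hn : n ∈ P8.N) (hw : P8.ν n ∈ C8.S.WJ J) :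
    n ∈ Subgroup.normalizer (H75.rad P8 J : Set GK) := by
  refine Subgroup.mem_normalizer_iff.2 fun u => ⟨conj_N hn hw, fun h => ?_⟩
  simpa [mul_assoc] using conj_N (inv_mem hn) (by rw [ν_inv hn]; exact inv_mem hw) h

theorem bt1 : Bt1Stmt := by
  intro D hD hne y hy
  have : Fact (Nat.Prime 3) := ⟨Nat.prime_three⟩
  have : Nonempty (Fin chevE8.rank) := ⟨⟨0, by decide⟩⟩
  let M := H75.chevModel1 (D := chevE8) (by simp) (ZMod 3) 3
  obtain ⟨g₀, h0⟩ := M.exists_conj_le_U hD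
  obtain ⟨d, hd, hd1⟩ := (Subgroup.ne_bot_iff_exists_ne_one).1 hne |>.imp fun a h => And.intro a.2 h
  obtain ⟨g, -, J, -, -, h1, h2⟩ := (H75.chevLin C8 K).borelTits (τ := Twist.one _) (R := ⊤)
    (H75.Coord.compat_one _) le_top (fun _ _ => rfl) (ι '' D)
    ⟨_, ⟨d, hd, rfl⟩, fun h => hd1 (Subtype.ext (ι_injective (h.trans (map_one _).symm)))⟩
    ⟨ι g₀, trivial, by
      rintro _ ⟨d, hd, rfl⟩
      rw [← map_inv, ← map_mul, ← map_mul]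
      exact fieldHom_mem_U (C := C8) (algebraMap (ZMod 3) K) (h0 d hd)⟩
  obtain ⟨a, ha, n, hn, hw, u, hu, e⟩ := h2 (ι y) trivial (by
    rintro _ ⟨d, hd, rfl⟩
    exact ⟨y⁻¹ * d * y, hy d hd, by simp⟩)
  refine ⟨g, H75.rad P8 J, Subgroup.normalizer (H75.rad P8 J : Set GK), B_le J,
    fun _ h => U_sub h fun _ h => h.1, fun a ha q hq => (Subgroup.mem_normalizer_iff.1 ha q).1 hq,
    fun d hd => h1 _ ⟨d, hd, rfl⟩, ?_⟩
  rw [e]
  exact mul_mem (mul_mem (B_le J (Up_le_B ha.1)) (N_mem hn.1 hw)) (B_le J (Up_le_B hu.1))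

end Cfsg.Agent.H39.L81Bt1
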