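/-
Project CY, chapter L8: the involution fixing two points.
-/
import Cfsg.Agent.H93.L8Defs

set_option autoImplicit false

namespace Cfsg.Agent.H39.L8Fx

open Subgroup MulAction Cfsg.Agent.H11.Cy Cfsg.Agent.H93.L8

theorem center_one {M : Type} [Group M] (h : F8 M) {a : M} (ha : ∀ b, b * a = a * b) : a = 1 := by
  have := h.simple
  rcases this.eq_bot_or_eq_top_of_normal (center M) inferInstance with e | e
  · exact mem_bot.1 (e ▸ mem_center_iff.2 ha)
  · let _ : CommGroup M := { (inferInstance : Group M) with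
      mul_comm := fun a b => mem_center_iff.1 (e ▸ mem_top b) a }
    have : Finite M := Nat.finite_of_card_ne_zero (by rw [h.card]; decide)
    have hp := IsSimpleGroup.prime_card (α := M)
    rw [h.card] at hp
    norm_num at hp

theorem fx : FxStmt := by
  intro G _ _ Ω _ _ p A st _ ep ty idx x y hxy
  obtain ⟨f8, -, odd⟩ := ty x y hxy
  obtain ⟨hc, hF⟩ := idx x y hxy
  have hKH : Kl A x y ≤ Hs G x y := fun k hk =>
    ⟨(ep.kfix x y hxy k).1 hk x (le_sup_left : A x ≤ A x ⊔ A y),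
      (ep.kfix x y hxy k).1 hk y (le_sup_right : A y ≤ A x ⊔ A y)⟩
  have hHN : Hs G x y ≤ normalizer (Fl A x y : Set G) := fun h hh =>
    normalizer_inf_normalizer_le_normalizer_sup _ _ ⟨(ep.nA x h).2 hh.1, (ep.nA y h).2 hh.2⟩
  have inF : ∀ u ∈ Hs G x y, orderOf u = 2 → u ∈ Fl A x y := fun u hu ho =>
    hF u (hHN hu) ⟨1, by rw [pow_one, ← ho, pow_orderOf_eq_one]⟩
  have notK : ∀ u : G, orderOf u = 2 → u ∉ Kl A x y := fun u ho hu => by
    have := orderOf_dvd_natCard (⟨u, hu⟩ : Kl A x y)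
    rw [← orderOf_coe, ho] at this
    exact (Nat.not_even_iff_odd.2 odd) (even_iff_two_dvd.2 this)
  obtain ⟨t, ht⟩ := exists_prime_orderOf_dvd_card' (G := Hs G x y) 2 (by rw [hc]; exact dvd_mul_right _ _)
  have ht' : orderOf (t : G) = 2 := by rw [orderOf_coe, ht]
  refine ⟨t, ht', t.2.1, t.2.2, fun h => notK t ht' (ep.eps x y hxy t t.2 h), fun u hu ux uy => ?_⟩
  have huH : u ∈ Hs G x y := ⟨ux, uy⟩
  have hi : ((Kl A x y).subgroupOf (Hs G x y)).index = 2 := by
    have h1 := ((Kl A x y).subgroupOf (Hs G x y)).index_mul_card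
    rw [Nat.card_congr (subgroupOfEquivOfLe hKH).toEquiv, hc] at h1
    exact Nat.eq_of_mul_eq_mul_right Nat.card_pos h1
  have h2 : t * ⟨u, huH⟩ ∈ (Kl A x y).subgroupOf (Hs G x y) := by
    rw [mul_mem_iff_of_index_two hi]
    exact iff_of_false (notK t ht') (notK u hu)
  have h3 : (t : G) * u ∈ Kl A x y := h2
  have h4 : (t : G) * u ∈ Fl A x y := mul_mem (inF t t.2 ht') (inF u huH hu)
  have h5 : (⟨_, h4⟩ : Fl A x y) = 1 := center_one f8 fun b => Subtype.ext (h3 b b.2)
  have h6 : (t : G) * u = 1 := congrArg Subtype.val h5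
  have h7 : (t : G) * t = 1 := by rw [← sq, ← ht', pow_orderOf_eq_one]
  exact mul_left_cancel (h6.trans h7.symm)

end Cfsg.Agent.H39.L8Fx
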