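import Cfsg.Agent.H54.O84Defs

/-! Project O84, piece E3: untwisting the Frobenius map on the subsystem subgroup `D₄`. -/

set_option autoImplicit false
set_option maxRecDepth 100000

namespace Cfsg.Agent.H39.O84E3

open Cfsg.Agent.H54.O84 Equiv Cfsg.Lie H37 H40 H34 H29

def l0 : List ℕ := [1, 2, 4, 3, 1, 2, 4, 3, 1, 2, 4, 3]

theorem l0_mem : wd l0 ∈ C8.S.WJ J :=
  C8.S.mem_WJ_iff.2 ⟨_, by
    intro i hi
    obtain ⟨a, ha, rfl⟩ := List.mem_map.1 hi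
    exact (by decide : ∀ a ∈ l0, a % 8 ∈ [1, 2, 3, 4]) a ha, rfl⟩

theorem l0_neg {r : Rt} (hr : r ∈ Δ0) : wd l0 r = C8.S.neg r := by
  have : ∀ r ∈ d0L, l0.foldr (fun i s => rf (i % 8) s) r = 239 - r := by decide +kernel
  exact Fin.ext (by rw [wd_val, neg_val, this _ (mem_Δ0.1 hr)])

theorem fr4_xg (r : Rt) (t : K) : fr4 (C8.xg K r t) = C8.xg K r (t ^ 2 ^ 2) :=
  (C8.V.fieldHom_xE (iterateFrobenius K 2 2) r t).trans (by rw [iterateFrobenius_def]; rfl)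

theorem e3 : E3Stmt := by
  intro φ hφ
  obtain ⟨n, -, -, hn, hnU⟩ := Cert.exists_can (C := C8) (k := K) l0_mem
  obtain ⟨h, hU, e⟩ := Cert.lang_U (C := C8) (k := K) J (σ := fr4)
    (C8.reg_fieldHom (q := 2 ^ 2) fun t => iterateFrobenius_def 2 2 t) (d := 2) two_pos (τ := 1)
    fr4_xg (fun r hr => hr) hnU
  have h1 : ∀ y ∈ P8.U Δ0, φ y = n * fr4 y * n⁻¹ := fun y hy =>
    Split.U_le (K := φ.eqLocus ((MulAut.conj n).toMonoidHom.comp fr4)) (fun r hr x hx => by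
      obtain ⟨t, rfl⟩ := Cert.mem_X.1 hx
      show φ (C8.xg K r t) = n * fr4 (C8.xg K r t) * n⁻¹
      rw [hφ, fr4_xg, hn, l0_neg hr]
      rfl) hy
  have h2 : (fixU φ Δ0).map (MulAut.conj h).toMonoidHom = fixU fr4 Δ0 := by
    ext z
    constructor
    · rintro ⟨y, ⟨hy, hy'⟩, rfl⟩
      exact ⟨(P8.U Δ0).mul_mem ((P8.U Δ0).mul_mem hU hy) ((P8.U Δ0).inv_mem hU),
        (fix_conj_iff fr4 e y).2 ((h1 y hy).symm.trans hy')⟩
    · rintro ⟨hz, hz'⟩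
      have hy : h⁻¹ * z * h ∈ P8.U Δ0 := mul_mem (mul_mem (inv_mem hU) hz) hU
      have e' : h * (h⁻¹ * z * h) * h⁻¹ = z := by group
      exact ⟨_, ⟨hy, (h1 _ hy).trans ((fix_conj_iff fr4 e _).1 (by rw [e']; exact hz'))⟩, e'⟩
  exact ⟨((MulAut.conj h).subgroupMap _).trans (MulEquiv.subgroupCongr h2)⟩

end Cfsg.Agent.H39.O84E3
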