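import Cfsg.Agent.H71.P3Defs

/-! Project P3, piece CH: from the characters to the numbers of orbits. -/

set_option autoImplicit false

namespace Cfsg.Agent.H39.P3C

open Cfsg Cfsg.Agent.H71.P3 MulAction
open scoped Pointwise

theorem col {G Y Z : Type} [Group G] [MulAction G Y] [Finite Y] (K : Subgroup G) {m : ℕ}
    (h : Nat.card (orbitRel.Quotient K Y) ≤ m + 1) (e : Y → Z) (he : Function.Injective e) :
    ∃ c : Z → Fin (m + 1), ∀ y y', c (e y) = c (e y') → ∃ g ∈ K, g • y = y' := by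
  have := Fintype.ofFinite (orbitRel.Quotient K Y)
  obtain ⟨j⟩ := Function.Embedding.nonempty_of_card_le (α := orbitRel.Quotient K Y)
    (β := Fin (m + 1)) (by rwa [Fintype.card_fin, ← Nat.card_eq_fintype_card])
  refine ⟨Function.extend e (fun y => j (Quotient.mk'' y)) 0, fun y y' k => ?_⟩
  rw [he.extend_apply, he.extend_apply] at k
  obtain ⟨g, hg⟩ := orbitRel_apply.1 (Quotient.exact' (j.injective k).symm)
  exact ⟨g, g.2, hg⟩

theorem orb (dec : DecStmt) {G : Type} [Group G] [Fintype G] (K : Subgroup G) {χ ψ : G → ℂ}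
    (h : H11.permChar G (G ⧸ K) = (fun _ => 1) + χ + ψ) (Y : Type) [Finite Y] [MulAction G Y]
    [IsPretransitive G Y] [Nonempty Y] {a b : ℕ} (ha : classInner (H11.permChar G Y) χ = a)
    (hb : classInner (H11.permChar G Y) ψ = b) :
    Nat.card (orbitRel.Quotient K Y) = 1 + a + b := by
  have := (dec G K).1 Y
  rw [H11.classInner_comm_of_isCharacter (H11.isCharacter_permChar _) (H11.isCharacter_permChar _),
    h, H11.classInner_add_right, H11.classInner_add_right,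
    H11.classInner_permChar_one_of_isPretransitive, ha, hb] at this
  exact_mod_cast this.symm

theorem ch (dec : DecStmt) (mult : MultStmt) (oa : OaStmt) : ChStmt := by
  intro F V _ _ _ _ _ S K _ how h3
  obtain ⟨⟨χ, ψ, iχ, iψ, nχ, nψ, e⟩, a, b, hab⟩ := (dec S.G (K.subgroupOf S.G)).2 h3
  refine ⟨⟨a, b, fun g hg => ?_⟩, ?_⟩
  · rcases hab ⟨g, hg⟩ with k | ⟨x, hx, y, hy, k⟩ | ⟨x, hx, y, hy, k⟩
    · exact Or.inl k
    · exact Or.inr (Or.inl ⟨x, hx, y, hy, congrArg Subtype.val k⟩)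
    · exact Or.inr (Or.inr ⟨x, hx, y, hy, congrArg Subtype.val k⟩)
  obtain ⟨t1, t2, t3, ⟨fl⟩, -⟩ := oa S
  have n1 : Nonempty S.Pt := ⟨⟨fl.1.1, fl.2.1⟩⟩
  have n2 : Nonempty S.Ln := ⟨⟨fl.1.2, fl.2.2.1⟩⟩
  have n3 : Nonempty S.Fl := ⟨fl⟩
  obtain ⟨a1, b1, c1, e1, f1, g1, m1⟩ := mult S χ iχ nχ
  obtain ⟨a2, b2, c2, e2, f2, g2, m2⟩ := mult S ψ iψ nψ
  by_cases hc : c1 ≠ 0 ∧ c2 ≠ 0
  · left
    obtain ⟨m, hm⟩ := how χ iχ nχ (by rw [g1]; exact_mod_cast hc.1)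
    obtain ⟨m', hm'⟩ := how ψ iψ nψ (by rw [g2]; exact_mod_cast hc.2)
    have k := congrFun e 1
    rw [H11.permChar_one, Pi.add_apply, Pi.add_apply, hm, hm'] at k
    have k' : K.relIndex S.G = 1 + ringChar F * (m + m') := by
      rw [mul_add, ← add_assoc]
      exact_mod_cast k
    rw [k']
    intro d
    exact CharP.ringChar_ne_one (Nat.dvd_one.1 ((Nat.dvd_add_left (dvd_mul_right _ _)).1 d))
  right
  have o1 := orb dec _ e S.Pt e1 e2
  have o2 := orb dec _ e S.Ln f1 f2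
  have o3 := orb dec _ e S.Fl g1 g2
  obtain ⟨k1, p1⟩ := col (Y := S.Pt) (K.subgroupOf S.G) (m := 1) (by omega) Subtype.val
    Subtype.val_injective
  obtain ⟨k2, p2⟩ := col (Y := S.Ln) (K.subgroupOf S.G) (m := 1) (by omega) Subtype.val
    Subtype.val_injective
  obtain ⟨k3, p3⟩ := col (Y := S.Fl) (K.subgroupOf S.G) (m := 2) (by omega) Subtype.val
    Subtype.val_injective
  refine ⟨⟨k1, fun x x' hx hx' k => ?_⟩, ⟨k2, fun x x' hx hx' k => ?_⟩,
    ⟨fun x L => k3 (x, L), fun x L x' L' hx hx' k => ?_⟩⟩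
  · obtain ⟨g, hg, k⟩ := p1 ⟨x, hx⟩ ⟨x', hx'⟩ k
    exact ⟨g, hg, congrArg Subtype.val k⟩
  · obtain ⟨g, hg, k⟩ := p2 ⟨x, hx⟩ ⟨x', hx'⟩ k
    exact ⟨g, hg, congrArg Subtype.val k⟩
  · obtain ⟨g, hg, k⟩ := p3 ⟨(x, L), hx⟩ ⟨(x', L'), hx'⟩ k
    exact ⟨g, hg, congrArg (fun z => z.1.1) k, congrArg (fun z => z.1.2) k⟩

end Cfsg.Agent.H39.P3C
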