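import Cfsg.Agent.H79.RbDefs

/-!
Project RB, piece Adj: adjoints in the Fock space.
-/

set_option autoImplicit false

namespace Cfsg.Agent.H39.RbAdj

open Finset Cfsg.Agent.H79.RB

theorem nrm_add (m : ℕ →₀ ℕ) (i : ℕ) :
    nrm (m + Finsupp.single i 1) = nrm m * ((((2 * i + 1 : ℕ) : ℂ) / 2) * (m i + 1)) := by
  have h : ∀ m : ℕ →₀ ℕ, nrm m = (((2 * i + 1 : ℕ) : ℂ) / 2) ^ m i * ((m i).factorial : ℂ) *
      nrm (m.erase i) := fun m => by
    rw [nrm, nrm, ← Finsupp.mul_prod_erase' m i _ (by simp)]
  rw [h, h m, Finsupp.erase_add, Finsupp.erase_single, add_zero, Finsupp.add_apply,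
    Finsupp.single_eq_same, pow_succ, Nat.factorial_succ]
  push_cast
  ring

theorem adj1 (i : ℕ) (P R : Fk) : ip (MvPolynomial.X i * P) R = ip P (AA i R) := by
  induction P using MvPolynomial.induction_on' with
  | monomial m a =>
    rw [MvPolynomial.X, MvPolynomial.monomial_mul, one_mul, ip_monomial', ip_monomial', add_comm,
      nrm_add, AA, LinearMap.smul_apply, MvPolynomial.coeff_smul, Derivation.coeFn_coe,
      MvPolynomial.coeff_pderiv, smul_eq_mul]
    ring
  | add p q hp hq => simp only [mul_add, map_add, LinearMap.add_apply, hp, hq]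

theorem ip_qq (j : ℕ) (R : Fk) : ip (qq j) R = ∑ m ∈ Mon j, MvPolynomial.coeff m R := by
  rw [qq, map_sum, LinearMap.sum_apply]
  refine sum_congr rfl fun m _ => ?_
  rw [ip_monomial', inv_mul_cancel_left₀ (nrm_ne_zero m)]

theorem map_shift (m : ℕ →₀ ℕ) (a : ℂ) :
    (shift (MvPolynomial.monomial m a)).map MvPolynomial.constantCoeff =
      Polynomial.monomial (wt m) a := by
  rw [shift, MvPolynomial.aeval_monomial, Polynomial.map_mul, Finsupp.prod, Polynomial.map_prod,
    ← Polynomial.C_mul_X_pow_eq_monomial, wt, Finsupp.sum, ← prod_pow_eq_pow_sum]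
  congr 1
  · simp [Polynomial.algebraMap_apply]
  · exact prod_congr rfl fun i _ => by simp [pow_mul]

theorem coeff_TT (j : ℕ) (R : Fk) :
    MvPolynomial.coeff 0 (TT j R) = ∑ m ∈ Mon j, MvPolynomial.coeff m R := by
  induction R using MvPolynomial.induction_on' with
  | monomial m a =>
    have h := congrArg (fun f => Polynomial.coeff f j) (map_shift m a)
    simp only [Polynomial.coeff_map, Polynomial.coeff_monomial] at h
    simp only [MvPolynomial.coeff_monomial, sum_ite_eq, mem_Mon]
    exact h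
  | add p q hp hq => simp only [map_add, MvPolynomial.coeff_add, hp, hq, sum_add_distrib]

theorem adj2 (hc : CommStmt) (j : ℕ) (P R : Fk) : ip (qq j * P) R = ip P (TT j R) := by
  induction P using MvPolynomial.induction_on generalizing R with
  | C a =>
    rw [mul_comm, MvPolynomial.C_mul', map_smul, LinearMap.smul_apply, ip_qq, MvPolynomial.C_apply,
      ip_monomial', coeff_TT]
    simp [nrm]
  | add p q hp hq => simp only [mul_add, map_add, LinearMap.add_apply, hp, hq]
  | mul_X p i hp =>
    rw [mul_comm p, mul_left_comm, adj1, adj1, hp, hc.1]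

theorem TT_bound (P : Fk) {N : ℕ} (h : (shift P).natDegree ≤ N) (j : ℕ) (hj : N < j) :
    TT j P = 0 := Polynomial.coeff_eq_zero_of_natDegree_lt (h.trans_lt hj)

theorem adj3 (hb : BasicStmt) (hc : CommStmt) (n : ℕ) (P R : Fk) :
    ip (phi n P) R = (-1 : ℂ) ^ n * ip P (phi (-n) R) := by
  have h := hb.2.2.2.2.2.2.1
  set N := max (shift P).natDegree (shift R).natDegree
  rw [h n N P (TT_bound P (le_max_left _ _)), ip_comm P,
    h (-n) (n + N) R (TT_bound R ((le_max_right _ _).trans (Nat.le_add_left _ _))), add_assoc,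
    sum_range_add _ n, sum_eq_zero (s := range n), zero_add, map_sum, map_sum, LinearMap.sum_apply,
    LinearMap.sum_apply, mul_sum]
  · refine sum_congr rfl fun j _ => ?_
    have e1 : qz (n + j) = qq (n + j) := by
      rw [qz, if_pos (by omega)]; congr 1
    have e2 : qz (-n + (n + j : ℕ)) = qq j := by
      rw [qz, if_pos (by omega)]; congr 1; omega
    rw [e1, e2, map_smul, map_smul, LinearMap.smul_apply, LinearMap.smul_apply, adj2 hc, adj2 hc,
      ip_comm, smul_eq_mul, smul_eq_mul, pow_add, ← mul_assoc, ← mul_assoc, ← mul_pow]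
    simp
  · intro j hj
    rw [qz, if_neg (by have := mem_range.1 hj; omega), zero_mul, smul_zero]

theorem adjStmt (hb : BasicStmt) (hc : CommStmt) : AdjStmt := by
  refine ⟨adj1, adj2 hc, fun a P R => ?_⟩
  obtain ⟨n, rfl | rfl⟩ := Int.eq_nat_or_neg a
  · simpa using adj3 hb hc n P R
  · rw [neg_neg, Int.natAbs_neg, Int.natAbs_natCast, ip_comm P, adj3 hb hc, ip_comm, ← mul_assoc,
      ← mul_pow]
    simp

end Cfsg.Agent.H39.RbAdj
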