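import Cfsg.Agent.H39.ReeThm

/-!
Small Ree groups: groups of unbounded order isospectral to the direct cube.
-/

set_option autoImplicit false

namespace Cfsg.Agent.H39

open Cfsg.Agent.H37 Cfsg.Agent.H77 Matrix

section Semidirect

variable {N Q : Type*} [CommGroup N] [Group Q] {ψ : Q →* MulAut N}

theorem sdp_pow_eq_one (h3 : ∀ n : N, n ^ 3 = 1) (x : N ⋊[ψ] Q) {j : ℕ} (h : x.right ^ j = 1) :
    x ^ (j * 3) = 1 := by
  have h1 : x ^ j ∈ (SemidirectProduct.inl : N →* N ⋊[ψ] Q).range := by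
    rw [SemidirectProduct.range_inl_eq_ker_rightHom, MonoidHom.mem_ker, map_pow]; exact h
  obtain ⟨n, hn⟩ := h1
  rw [pow_mul, ← hn, ← map_pow, h3, map_one]

theorem sdp_orderOf_eq [Finite N] (x : N ⋊[ψ] Q) (h : ∀ v, ψ x.right v = v → v = 1) :
    orderOf x = orderOf x.right := by
  have h1 : Function.Injective fun v => v * (ψ x.right v)⁻¹ := fun v v' e => by
    refine mul_inv_eq_one.mp (h _ ?_)
    have e' : v * (ψ x.right v)⁻¹ = v' * (ψ x.right v')⁻¹ := e
    rw [map_mul, map_inv, ← div_eq_mul_inv, ← div_eq_mul_inv, div_eq_div_iff_mul_eq_mul]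
    rw [← div_eq_mul_inv, ← div_eq_mul_inv, div_eq_div_iff_mul_eq_mul] at e'
    rw [e', mul_comm]
  obtain ⟨v, hv⟩ := Finite.surjective_of_injective h1 x.left
  have h2 : x = (SemidirectProduct.inl v⁻¹)⁻¹ * SemidirectProduct.inr x.right *
      SemidirectProduct.inl v⁻¹ := by
    ext <;> simp [← hv]
  rw [h2, orderOf_conj, orderOf_injective _ SemidirectProduct.inr_injective]
  simp

end Semidirect

namespace Ree

variable {G : Type*} [Group G] {F : Type*} [Field F] (S : Ree G F) (n : ℕ)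

/-- The Frobenius twist of a matrix. -/
def fr : SL2 F →* SL2 F := Matrix.SpecialLinearGroup.map (S.s.comp S.s)

theorem fr_neg (g : SL2 F) : S.fr (-g) = -S.fr g := by
  ext i j; simp [fr]

theorem trace_fr (g : SL2 F) : (S.fr g : M2 F).trace = (g : M2 F).trace ^ 3 := by
  rw [← S.ss]; simp [fr, Matrix.trace_fin_two]

/-- The action on tuples of matrices. -/
def act (p : ℤˣ × SL2 F) (M : Fin n → M2 F) : Fin n → M2 F :=
  fun i => p.1 • ((p.2 : M2 F) * M i * (S.fr p.2 : M2 F)ᵀ)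

theorem act_one (M : Fin n → M2 F) : S.act n 1 M = M := by
  funext i; simp [act]

theorem act_mul (p p' : ℤˣ × SL2 F) (M : Fin n → M2 F) :
    S.act n (p * p') M = S.act n p (S.act n p' M) := by
  funext i; simp [act, mul_smul, Matrix.mul_assoc]

theorem act_add (p : ℤˣ × SL2 F) (M M' : Fin n → M2 F) :
    S.act n p (M + M') = S.act n p M + S.act n p M' := by
  funext i; simp [act, Matrix.mul_add, Matrix.add_mul]

/-- The action as a homomorphism to the automorphism group. -/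
def actHom : ℤˣ × SL2 F →* MulAut (Multiplicative (Fin n → M2 F)) :=
  MonoidHom.mk' (fun p =>
    { toFun M := Multiplicative.ofAdd (S.act n p M.toAdd)
      invFun M := Multiplicative.ofAdd (S.act n p⁻¹ M.toAdd)
      left_inv M := by simp [← act_mul, act_one]
      right_inv M := by simp [← act_mul, act_one]
      map_mul' M M' := by simp [act_add] })
    fun p p' => by ext M; simp [act_mul]

theorem actHom_apply (p : ℤˣ × SL2 F) (M : Multiplicative (Fin n → M2 F)) :
    (S.actHom n p M).toAdd = S.act n p M.toAdd := rfl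

theorem h_map_neg_one : S.h (Units.map (Int.castRingHom F : ℤ →* F) (-1)) = S.t :=
  congrArg S.h (Units.ext (by simp))

/-- The covering of the centraliser of `t`. -/
def cov : ℤˣ × SL2 F →* G :=
  MonoidHom.noncommCoprod (S.h.comp (Units.map (Int.castRingHom F : ℤ →* F))) S.φ fun ε x => by
    rcases Int.units_eq_one_or ε with rfl | rfl
    · simp
    · rw [MonoidHom.comp_apply, h_map_neg_one]
      exact (S.φ_comm_t x).symm

theorem cov_one (x : SL2 F) : S.cov (1, x) = S.φ x := by simp [cov]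

theorem cov_neg (x : SL2 F) : S.cov (-1, x) = S.t * S.φ x := by
  rw [← h_map_neg_one]; rfl

theorem ker_cov_le : S.cov.rangeRestrict.ker ≤ (S.actHom n).ker := by
  rintro ⟨ε, x⟩ h
  have h1 : S.cov (ε, x) = 1 := congrArg Subtype.val h
  rcases Int.units_eq_one_or ε with rfl | rfl
  · rw [cov_one, φ_eq_one_iff] at h1
    rcases h1 with rfl | rfl
    · exact map_one _
    · ext M i
      simp [actHom_apply, act, fr_neg]
  · rw [cov_neg, ← map_one S.φ] at h1
    exact absurd h1.symm (S.φ_ne_t_mul _ _)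

/-- The action of the centraliser of `t`. -/
noncomputable def actC : S.cov.range →* MulAut (Multiplicative (Fin n → M2 F)) :=
  S.cov.rangeRestrict.liftOfSurjective S.cov.rangeRestrict_surjective ⟨_, S.ker_cov_le n⟩

theorem actC_apply (p : ℤˣ × SL2 F) : S.actC n (S.cov.rangeRestrict p) = S.actHom n p :=
  MonoidHom.liftOfRightInverse_comp_apply ..

/-- An extension of the centraliser of `t` by an elementary abelian 3-group. -/
abbrev Ext : Type _ := Multiplicative (Fin n → M2 F) ⋊[S.actC n] S.cov.range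

theorem eq_zero_of_fixed {g : SL2 F} {M : M2 F}
    (h : (g : M2 F) * M * (S.fr g : M2 F)ᵀ = M) (h1 : (g : M2 F).trace ^ 3 ≠ (g : M2 F).trace) :
    M = 0 := by
  have e1 := sl_cayley g
  have e2 := congrArg Matrix.transpose (sl_cayley (S.fr g))
  have e3 : (S.fr g : M2 F)ᵀ * (S.fr g⁻¹ : M2 F)ᵀ = 1 := by
    rw [← Matrix.transpose_mul, ← Matrix.SpecialLinearGroup.coe_mul, ← map_mul]; simp
  rw [Matrix.transpose_sub, Matrix.transpose_mul, Matrix.transpose_smul, Matrix.transpose_one,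
    trace_fr] at e2
  generalize (S.fr g : M2 F)ᵀ = k at h e2 e3
  have e4 : (g : M2 F) * g * M * (k * k) = M := by
    calc _ = (g : M2 F) * (g * M * k) * k := by simp only [Matrix.mul_assoc]
      _ = M := by rw [h, h]
  have e5 : ((g : M2 F).trace ^ 3 - (g : M2 F).trace) • (M * k) = 0 := by
    have e6 : M * (k * k) = (g : M2 F).trace • (M * k) - M := by
      rw [e1, Matrix.sub_mul, Matrix.sub_mul, Matrix.smul_mul, Matrix.smul_mul, ← Matrix.mul_assoc,
        h, Matrix.one_mul] at e4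
      exact (sub_eq_iff_comm.mp e4).symm
    rw [e2, Matrix.mul_sub, Matrix.mul_smul, Matrix.mul_one, sub_left_inj] at e6
    rw [sub_smul, e6, sub_self]
  rw [← Matrix.mul_one M, ← e3, ← Matrix.mul_assoc,
    (smul_eq_zero.mp e5).resolve_left (sub_ne_zero.mpr h1), Matrix.zero_mul]

variable [ReeCard F]

theorem mem_range_cov {g : G} (h : g ∈ Subgroup.centralizer {S.t}) : g ∈ S.cov.range := by
  obtain ⟨x, rfl | rfl⟩ := S.mem_C_iff.mp h
  exacts [⟨_, S.cov_one x⟩, ⟨_, S.cov_neg x⟩]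

theorem orderOf_ext (x : S.Ext n) : orderOf x ∣ 6 ∨ orderOf x ∣ 9 ∨ ∃ g : G, orderOf g = orderOf x := by
  have := S.charP
  have h3 : ∀ M : Multiplicative (Fin n → M2 F), M ^ 3 = 1 := fun M => by
    apply Multiplicative.toAdd.injective
    ext i j k
    simp [show (3 : F) = 0 from CharP.cast_eq_zero F 3]
  obtain ⟨⟨ε, g⟩, hp⟩ := S.cov.rangeRestrict_surjective x.right
  have hε : ε ^ 2 = 1 := Int.units_sq ε
  have key : (∀ M : M2 F, ε • ((g : M2 F) * M * (S.fr g : M2 F)ᵀ) = M → M = 0) →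
      ∃ g : G, orderOf g = orderOf x := fun h => ⟨x.right, by
    rw [Subgroup.orderOf_coe, sdp_orderOf_eq x fun v hv => ?_]
    rw [← hp, actC_apply] at hv
    exact Multiplicative.toAdd.injective (funext fun i => h _ (congrFun
      (congrArg Multiplicative.toAdd hv) i))⟩
  have hpow : ∀ j, ε ^ j = 1 → (g ^ j = 1 ∨ g ^ j = -1) → x.right ^ j = 1 := fun j h1 h2 => by
    rw [← hp, ← map_pow, Prod.pow_mk, h1]
    exact Subtype.ext ((S.cov_one _).trans (S.φ_eq_one_iff.mpr h2))
  by_cases h0 : (g : M2 F).trace = 0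
  · exact Or.inl (orderOf_dvd_of_pow_eq_one (sdp_pow_eq_one h3 x (hpow 2 hε (Or.inr
      ((pow_two g).trans (Subtype.ext (mul_self_of_trace_eq_zero h0)))))))
  by_cases h1 : (g : M2 F).trace ^ 2 = 1
  · have h2 : g ^ 3 = 1 ∨ g ^ 3 = -1 := by
      have e : ((g ^ 3 : SL2 F) : M2 F) = -((g : M2 F).trace • (1 : M2 F)) := by
        rw [Matrix.SpecialLinearGroup.coe_pow, pow_three', sl_cayley, Matrix.sub_mul,
          Matrix.smul_mul, sl_cayley, smul_sub, smul_smul, ← pow_two, h1, one_smul, Matrix.one_mul]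
        abel
      refine (sq_eq_one_iff.mp h1).symm.imp (fun e' => ?_) fun e' => ?_ <;>
        exact Subtype.ext (by rw [e, e']; simp)
    rcases Int.units_eq_one_or ε with rfl | rfl
    · exact Or.inr (Or.inl (orderOf_dvd_of_pow_eq_one (sdp_pow_eq_one h3 x (hpow 3 rfl h2))))
    · refine Or.inr (Or.inr (key fun M hM => ?_))
      have e1 := S.act_mul 1 (-1, g) (-1, g) fun _ => M
      have e2 := S.act_mul 1 (-1, g) ((-1, g) * (-1, g)) fun _ => M
      have e3 : S.act 1 (-1, g) (fun _ => M) = fun _ => M := funext fun _ => hM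
      rw [e1, e3, e3, e3, ← pow_three, Prod.pow_mk] at e2
      have e4 : -M = M := by
        have := congrFun e2 0
        rcases h2 with e | e <;> simpa [act, e, fr_neg, pow_succ] using this
      ext i j
      have := congrFun (congrFun e4 i) j
      simp only [Matrix.neg_apply, Matrix.zero_apply] at this ⊢
      grind
  refine Or.inr (Or.inr (key fun M hM => S.eq_zero_of_fixed (g := g * g) ?_ ?_))
  · have e1 := S.act_mul 1 (ε, g) (ε, g) fun _ => M
    have e3 : S.act 1 (ε, g) (fun _ => M) = fun _ => M := funext fun _ => hM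
    rw [e3, e3] at e1
    simpa [act] using congrFun e1 0
  · rw [Matrix.SpecialLinearGroup.coe_mul, sl_cayley, Matrix.trace_sub, Matrix.trace_smul,
      Matrix.trace_one, smul_eq_mul]
    intro e
    have h2 : (g : M2 F).trace * (g : M2 F).trace + 1 ≠ 0 := fun e =>
      ReeCard.not_isSquare_neg_one F ⟨_, (eq_neg_of_add_eq_zero_left e).symm⟩
    simp only [Fintype.card_fin, Nat.cast_ofNat] at e
    generalize (g : M2 F).trace = τ at *
    grind

omit [ReeCard F] in
theorem exists_orderOf_nine : ∃ x : S.Ext (n + 1), orderOf x = 9 := by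
  have := S.charP
  let x : S.Ext (n + 1) := ⟨Multiplicative.ofAdd fun _ => !![0, 0; 0, 1],
    S.cov.rangeRestrict (1, slX 1)⟩
  have h3 : ∀ M : Multiplicative (Fin (n + 1) → M2 F), M ^ 3 = 1 := fun M => by
    apply Multiplicative.toAdd.injective
    ext i j k
    simp [show (3 : F) = 0 from CharP.cast_eq_zero F 3]
  refine ⟨x, orderOf_eq_prime_pow (p := 3) (n := 1) (fun h => ?_) (sdp_pow_eq_one h3 x (j := 3) ?_)⟩
  · have h1 := congrArg (fun y : S.Ext (n + 1) => y.left.toAdd 0 0 0) h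
    simp [x, pow_succ, ← map_mul, actC_apply, actHom_apply, act, fr, coe_slX, Matrix.vecMul,
      dotProduct, Matrix.vecHead] at h1
    grind
  · refine Subtype.ext ?_
    change S.cov (1, slX 1) ^ 3 = 1
    rw [cov_one, S.φ_X, u_cube]
    simp [S.u_zero]

theorem lt_card_ext : n < Nat.card (S.Ext n) := by
  have := S.finite
  rw [SemidirectProduct.card]
  refine lt_of_lt_of_le ?_ (Nat.le_mul_of_pos_right _ Nat.card_pos)
  rw [Nat.card_congr Multiplicative.toAdd, Nat.card_fun, Nat.card_eq_fintype_card (α := Fin n),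
    Fintype.card_fin]
  exact Nat.lt_pow_self Finite.one_lt_card

end Ree

theorem Ree.range_orderOf {G : Type*} [Group G] {F : Type*} [Field F] [ReeField F] (S : Ree G F)
    {m : ℕ} (hF : Nat.card F = 3 ^ (2 * m + 1)) (n : ℕ) :
    Set.range (orderOf : G × G × S.Ext (n + 1) → ℕ) = Set.range (orderOf : G × G × G → ℕ) := by
  have := S.finite
  have h1 : ∀ x : S.Ext (n + 1), ∃ g : G, orderOf g = orderOf x := fun x => by
    rcases S.orderOf_ext _ x with h | h | h
    exacts [(S.orderOf_iff hF _).mpr (Or.inl h), (S.orderOf_iff hF _).mpr (Or.inr (Or.inl h)), h]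
  have h2 : ∀ g ∈ Subgroup.centralizer {S.t}, ∃ x : S.Ext (n + 1), orderOf x = orderOf g :=
    fun g hg => ⟨SemidirectProduct.inr ⟨g, S.mem_range_cov hg⟩, by
      rw [orderOf_injective _ SemidirectProduct.inr_injective, Subgroup.orderOf_mk]⟩
  have : Finite (S.Ext (n + 1)) := Finite.of_equiv _ SemidirectProduct.equivProd.symm
  have h3 : ∀ g : G, (∃ x : S.Ext (n + 1), orderOf x = orderOf g) ∨
      orderOf g ∣ 3 ^ (2 * m + 1) - 3 ^ (m + 1) + 1 ∨ orderOf g ∣ 3 ^ (2 * m + 1) + 3 ^ (m + 1) + 1 := by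
    intro g
    rcases S.orderOf_cases g with e | e | ⟨k, e⟩ | ⟨k, e⟩ | e
    · have h6 : S.u 0 1 0 * S.t ∈ {x | x ∈ S.B ∧ orderOf x = 6} := by
        rw [S.mem_B_orderOf_six]
        exact ⟨(0, 1, 0), ⟨trivial, by simp⟩, rfl⟩
      obtain ⟨x, hx⟩ := h2 _ (mul_mem (S.φ_X 1 ▸ S.L_le_C (S.φ_mem_L _)) S.t_mem_C)
      exact Or.inl (exists_orderOf_of_dvd (by rwa [hx, h6.2]))
    · obtain ⟨x, hx⟩ := S.exists_orderOf_nine n
      exact Or.inl (exists_orderOf_of_dvd (by rwa [hx]))
    · exact Or.inl (orderOf_conj g k ▸ h2 _ (S.H_le_C e))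
    · exact Or.inl (orderOf_conj g k ▸ h2 _ (S.D_le_C e))
    · by_cases h : g = 1
      · exact Or.inl ⟨1, by simp [h]⟩
      obtain ⟨x₁, x₂, -, -, c1, c2, hc⟩ := S.exists_tori hF
      exact Or.inr ((hc g ⟨h, e⟩).imp (fun e => c1 ▸ Model.orderOf_dvd_card_of_mem_conjSet e)
        fun e => c2 ▸ Model.orderOf_dvd_card_of_mem_conjSet e)
  have h4 : ∀ a b : G, (orderOf a ∣ 3 ^ (2 * m + 1) - 3 ^ (m + 1) + 1 ∧
      orderOf b ∣ 3 ^ (2 * m + 1) - 3 ^ (m + 1) + 1) ∨ (orderOf a ∣ 3 ^ (2 * m + 1) + 3 ^ (m + 1) + 1 ∧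
      orderOf b ∣ 3 ^ (2 * m + 1) + 3 ^ (m + 1) + 1) → ∃ g : G, orderOf g = (orderOf a).lcm (orderOf b) :=
    fun a b h => (S.orderOf_iff hF _).mpr (Or.inr (Or.inr (Or.inr (Or.inr
      (h.imp (fun h => Nat.lcm_dvd h.1 h.2) fun h => Nat.lcm_dvd h.1 h.2)))))
  ext d
  constructor
  · rintro ⟨⟨a, b, x⟩, rfl⟩
    obtain ⟨g, hg⟩ := h1 x
    exact ⟨(a, b, g), by simp only [Prod.orderOf_mk, hg]⟩
  · rintro ⟨⟨a, b, c⟩, rfl⟩
    simp only [Prod.orderOf_mk]
    rcases h3 c with ⟨x, hx⟩ | hc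
    · exact ⟨(a, b, x), by simp only [Prod.orderOf_mk, hx]⟩
    rcases h3 b with ⟨x, hx⟩ | hb
    · exact ⟨(a, c, x), by simp only [Prod.orderOf_mk, hx, Nat.lcm_comm (orderOf c)]⟩
    rcases h3 a with ⟨x, hx⟩ | ha
    · exact ⟨(b, c, x), by
        simp only [Prod.orderOf_mk, hx]; rw [← Nat.lcm_assoc, Nat.lcm_comm]⟩
    by_contra hne
    have k1 : ¬ ∃ g : G, orderOf g = (orderOf b).lcm (orderOf c) := fun ⟨g, hg⟩ =>
      hne ⟨(a, g, 1), by simp [Prod.orderOf_mk, hg]⟩
    have k2 : ¬ ∃ g : G, orderOf g = (orderOf a).lcm (orderOf b) := fun ⟨g, hg⟩ =>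
      hne ⟨(g, c, 1), by simp [Prod.orderOf_mk, hg, Nat.lcm_assoc]⟩
    have k3 : ¬ ∃ g : G, orderOf g = (orderOf a).lcm (orderOf c) := fun ⟨g, hg⟩ =>
      hne ⟨(b, g, 1), by
        simp only [Prod.orderOf_mk, hg, orderOf_one, Nat.lcm_one_right]
        rw [← Nat.lcm_assoc, Nat.lcm_comm (orderOf b), Nat.lcm_assoc]⟩
    have := mt (h4 b c) k1
    have := mt (h4 a b) k2
    have := mt (h4 a c) k3
    tauto

end Cfsg.Agent.H39
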