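import Cfsg.Agent.H39.ClassSq
import Cfsg.Agent.H39.ReeThm
import Cfsg.Agent.H39.ReeRep
import Cfsg.Agent.H39.SzChar
import Cfsg.Agent.S0165

/-!
Small Ree groups: squares of regular semisimple classes.
-/

set_option autoImplicit false

namespace Cfsg.Agent.H39

open Cfsg
open scoped Pointwise

theorem card_centralizer_conj {G : Type*} [Group G] (x g : G) :
    Nat.card (Subgroup.centralizer ({g⁻¹ * x * g} : Set G)) =
      Nat.card (Subgroup.centralizer ({x} : Set G)) :=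
  Nat.card_congr (Equiv.subtypeEquiv (MulAut.conj g).toEquiv fun y => by
    simp only [Subgroup.mem_centralizer_singleton_iff]
    change _ ↔ g * y * g⁻¹ * x = x * (g * y * g⁻¹)
    constructor
    · intro h
      calc _ = g * (y * (g⁻¹ * x * g)) * g⁻¹ := by group
        _ = _ := by rw [h]; group
    · intro h
      calc _ = g⁻¹ * (g * y * g⁻¹ * x) * g := by group
        _ = _ := by rw [h]; group)

theorem ncard_fixedBy_conj {G X : Type*} [Group G] [MulAction G X] (x g : G) :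
    (MulAction.fixedBy X (g⁻¹ * x * g)).ncard = (MulAction.fixedBy X x).ncard := by
  refine Set.ncard_congr (fun P _ => g • P) (fun P hP => ?_) (fun P Q _ _ h => ?_) fun P hP => ?_
  · rw [MulAction.mem_fixedBy, mul_smul, mul_smul, inv_smul_eq_iff] at hP
    exact hP
  · exact (smul_left_cancel_iff g).mp h
  · refine ⟨g⁻¹ • P, ?_, smul_inv_smul g P⟩
    rw [MulAction.mem_fixedBy, mul_smul, mul_smul, smul_inv_smul, hP]

theorem card_le_three_mul {G F : Type*} [Group G] [Finite F] {K : Subgroup G} (f : Fin 3 × F → G)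
    (h : ∀ y ∈ K, ∃ p, y = f p) : Nat.card K ≤ 3 * Nat.card F := by
  have h1 : (K : Set G).ncard ≤ (f '' Set.univ).ncard := Set.ncard_le_ncard (fun y hy => by
    obtain ⟨p, rfl⟩ := h y hy
    exact ⟨p, trivial, rfl⟩) (Set.toFinite _)
  have h2 := h1.trans (Set.ncard_image_le (Set.toFinite _))
  rwa [Set.ncard_univ, Nat.card_prod, Nat.card_eq_fintype_card (α := Fin 3), Fintype.card_fin] at h2

namespace Ree

variable {G : Type*} [Group G] {F : Type*} [Field F] (S : Ree G F)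

/-! ### Centralisers -/

theorem mem_U_of_comm {a b c : F} (ha : a ≠ 0) {y : G} (h : y * S.u a b c = S.u a b c * y) :
    y ∈ S.U := by
  obtain ⟨a', b', c', k, rfl⟩ := S.mem_B_of_comm (S.u_mem_U a b c) (by simp [u_eq_one_iff, ha]) h
  rw [mul_assoc, h_mul_u, ← mul_assoc, ← mul_assoc, mul_left_inj, u_mul, u_mul, u_eq_iff] at h
  obtain rfl : k = 1 := Units.ext (mul_right_cancel₀ ha (by
    rw [Units.val_one]; linear_combination h.1))
  simpa using S.u_mem_U a' b' c'

theorem card_centralizer_nine [Finite F] {a : F} (ha : a ≠ 0) (b c : F) :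
    Nat.card (Subgroup.centralizer {S.u a b c}) ≤ 3 * Nat.card F := by
  have := S.charP
  refine card_le_three_mul (fun p => S.u a b c ^ (p.1 : ℕ) * S.u 0 0 p.2) fun y hy => ?_
  have key : ∀ y ∈ Subgroup.centralizer {S.u a b c}, y ∈ S.Y → ∃ d, y = S.u 0 0 d := by
    intro y hy hY
    obtain ⟨b', c', rfl⟩ := hY
    have h := (S.u_comm_iff.mp (Subgroup.mem_centralizer_singleton_iff.mp hy)).2
    obtain rfl : b' = 0 := by simpa [ha] using h
    exact ⟨_, rfl⟩
  have hs := self_mem_centralizer (S.u a b c)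
  obtain ⟨a', b', c', rfl⟩ := S.mem_U_of_comm ha (Subgroup.mem_centralizer_singleton_iff.mp hy)
  have h := (S.u_comm_iff.mp (Subgroup.mem_centralizer_singleton_iff.mp hy)).1
  have h1 : S.s (a' / a) = a' / a := by
    rw [map_div₀, div_eq_div_iff ((map_ne_zero S.s).mpr ha) ha]
    linear_combination -h
  rcases S.s_eq_self h1 with e | e | e
  · obtain rfl : a' = 0 := by simpa [ha] using e
    obtain ⟨d, hd⟩ := key _ hy (S.u_mem_Y ..)
    exact ⟨(0, d), by simpa using hd⟩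
  · obtain rfl : a' = a := (div_eq_one_iff_eq ha).mp e
    obtain ⟨d, hd⟩ := key _ (mul_mem (inv_mem hs) hy) (by rw [u_inv, u_mul, u_mem_Y_iff]; ring)
    exact ⟨(1, d), by simp [← hd]⟩
  · obtain rfl : a' = -a := by rw [div_eq_iff ha] at e; linear_combination e
    obtain ⟨d, hd⟩ := key _ (mul_mem (inv_mem (pow_mem hs 2)) hy) (by
      rw [pow_two, u_mul, u_inv, u_mul, u_mem_Y_iff]; grind)
    exact ⟨(2, d), by simp [← hd]⟩

theorem card_centralizer_six [Finite F] {d : F} (hd : d ≠ 0) :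
    Nat.card (Subgroup.centralizer {S.u 0 d 0 * S.t}) ≤ 3 * Nat.card F := by
  refine card_le_three_mul (fun p => S.u 0 p.2 0 * S.t ^ (p.1 : ℕ)) fun y hy => ?_
  have h : Commute y (S.u 0 d 0 * S.t) := Subgroup.mem_centralizer_singleton_iff.mp hy
  have h1 := h.mul_right h
  rw [ut_sq] at h1
  simp only [map_zero, mul_zero, zero_sub, zero_mul] at h1
  have h2 := h1.mul_right h
  rw [← mul_assoc, u_zero_mul, neg_add_cancel, add_zero, S.u_zero, one_mul] at h2
  obtain ⟨b, k, rfl⟩ := S.mem_B_comm_t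
    (S.mem_B_of_comm (S.u_mem_U ..) (by simp [u_eq_one_iff, hd]) h1) h2
  have h3 := S.uh_conj_u_zero 0 b 0 k (-d) 0
  rw [h1.eq, mul_inv_cancel_right, u_eq_iff] at h3
  rcases S.mul_s_eq_one (x := k) (mul_right_cancel₀ hd (by linear_combination h3.2.1)) with e | e
  · obtain rfl : k = 1 := Units.ext e
    exact ⟨(0, b), by simp⟩
  · obtain rfl : k = -1 := Units.ext e
    exact ⟨(1, b), by simp [t]⟩

theorem invol_of_mem_B {j : G} (hB : j ∈ S.B) (hj : j * j = 1) (h1 : j ≠ 1) :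
    ∃ a c, j = S.u a (a * S.s a) c * S.t := by
  have := S.charP
  rcases S.cases_of_mem_B hB with h | ⟨a, b, c, rfl⟩ | ⟨g, h, h2, h3⟩
  · refine absurd ?_ h1
    have h9 := S.pow_nine_of_mem_U h
    rwa [show 9 = 2 * 4 + 1 from rfl, pow_succ, pow_mul, pow_two j, hj, one_pow, one_mul] at h9
  · rw [ut_sq, u_eq_one_iff, sub_eq_zero] at hj
    exact ⟨a, c, by rw [hj.2.1]⟩
  · rcases S.eq_of_mem_H_of_mul_self h (by
      rw [show g⁻¹ * j * g * (g⁻¹ * j * g) = g⁻¹ * (j * j) * g by group, hj]; simp) with e | e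
    exacts [absurd e h2, absurd e h3]

theorem invol_comm {j : G} (hj : j * j = 1) (h1 : j ≠ 1) {b c : F} (hz : S.u 0 b c ≠ 1)
    (h : j * S.u 0 b c = S.u 0 b c * j) :
    b ≠ 0 ∧ ∃ a d, a * b = -c ∧ j = S.u a (a * S.s a) d * S.t := by
  have := S.charP
  obtain ⟨a, d, rfl⟩ := S.invol_of_mem_B (S.mem_B_of_comm (S.u_mem_U ..) hz h) hj h1
  have h3 := S.uh_conj_u_zero a (a * S.s a) d (-1) b c
  rw [← t, h, mul_inv_cancel_right, u_eq_iff] at h3
  simp only [Units.val_neg, Units.val_one, map_neg, map_one] at h3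
  have h4 : a * b = -c := by grind
  refine ⟨?_, a, d, h4, rfl⟩
  rintro rfl
  obtain rfl : c = 0 := by grind
  exact hz S.u_zero

/-! ### Fixed points -/

theorem ncard_fixedBy_t [Finite F] : (MulAction.fixedBy S.Pt S.t).ncard = Nat.card F + 1 := by
  have h : MulAction.fixedBy S.Pt S.t = insert S.inf (Set.range fun b => S.u 0 b 0 • S.zer) := by
    ext P
    rw [MulAction.mem_fixedBy, t_smul_iff]
    simp only [Set.mem_insert_iff, Set.mem_range, eq_comm]
  rw [h, Set.ncard_insert_of_notMem (by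
    rintro ⟨b, e⟩; exact S.smul_zer_ne_inf (S.u_mem_B ..) e), Set.ncard_range_of_injective]
  intro b b' e
  exact (S.u_inj (S.smul_zer_inj (S.u_mem_U ..) (S.u_mem_U ..) e)).2.1

theorem ncard_fixedBy_H {x : G} (hx : x ∈ S.H) (h1 : x ≠ 1) (h2 : x ≠ S.t) :
    (MulAction.fixedBy S.Pt x).ncard = 2 := by
  rw [← Set.ncard_pair S.inf_ne_zer]
  congr 1
  ext P
  refine ⟨S.fix_of_mem_H hx h1 h2, ?_⟩
  rintro (rfl | rfl)
  exacts [(S.mem_H_iff_fix.mp hx).1, (S.mem_H_iff_fix.mp hx).2]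

theorem ncard_fixedBy_zero {x : G} (hx : ∀ g, g⁻¹ * x * g ∉ S.B) :
    (MulAction.fixedBy S.Pt x).ncard = 0 := by
  rw [Set.eq_empty_of_forall_notMem (s := MulAction.fixedBy S.Pt x), Set.ncard_empty]
  intro P hP
  obtain ⟨g, rfl⟩ := S.exists_smul_inf P
  refine hx g (S.mem_B'.mpr ?_)
  rw [mul_smul, mul_smul, hP, inv_smul_smul]

theorem card_Pt [Finite F] : Nat.card S.Pt = Nat.card F ^ 3 + 1 := S.index_B

variable [ReeField F]

theorem isConj_t_iff {j : G} : IsConj S.t j ↔ j * j = 1 ∧ j ≠ 1 := by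
  rw [isConj_iff]
  refine ⟨?_, fun h => S.exists_conj_t_eq h.1 h.2⟩
  rintro ⟨g, rfl⟩
  exact ⟨by rw [conj_mul, t_t]; simp, fun e => S.t_ne_one (conj_eq_one_iff.mp e)⟩

theorem ncard_fixedBy_invol {j : G} (hj : j * j = 1) (h1 : j ≠ 1) :
    (MulAction.fixedBy S.Pt j).ncard = Nat.card F + 1 := by
  obtain ⟨g, rfl⟩ := S.exists_conj_t_eq hj h1
  rw [← S.ncard_fixedBy_t, ← ncard_fixedBy_conj S.t g⁻¹, inv_inv]

theorem reg_cases {x : G} (h2 : 2 < orderOf x) (h3 : ¬ 3 ∣ orderOf x) :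
    (∃ g, g⁻¹ * x * g ∈ S.H ∧ g⁻¹ * x * g ≠ 1 ∧ g⁻¹ * x * g ≠ S.t) ∨
      (∃ g, g⁻¹ * x * g ∈ S.D ∧ g⁻¹ * x * g ∉ S.V) ∨ S.IsPi x := by
  have hs : ∀ g, g⁻¹ * x * g * (g⁻¹ * x * g) ≠ 1 := fun g e => by
    have := orderOf_le_of_pow_eq_one two_pos ((pow_two _).trans e)
    rw [orderOf_conj] at this
    omega
  rcases S.orderOf_cases x with h | h | ⟨g, h⟩ | ⟨g, h⟩ | h
  · have := Nat.le_of_dvd two_pos (dvd_two_of_not_three (Or.inl h) h3)
    omega
  · have := Nat.le_of_dvd two_pos (dvd_two_of_not_three (Or.inr h) h3)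
    omega
  · exact Or.inl ⟨g, h, fun e => hs g (by rw [e, mul_one]), fun e => hs g (by rw [e, t_t])⟩
  · exact Or.inr (Or.inl ⟨g, h, fun e => hs g (S.mul_self_of_mem_V e)⟩)
  · exact Or.inr (Or.inr ⟨by rintro rfl; simp at h2, h⟩)

theorem ncard_fixedBy_reg {x : G} (h2 : 2 < orderOf x) (h3 : ¬ 3 ∣ orderOf x) :
    (MulAction.fixedBy S.Pt x).ncard = 2 ∨ (MulAction.fixedBy S.Pt x).ncard = 0 := by
  rcases S.reg_cases h2 h3 with ⟨g, h, h1, ht⟩ | ⟨g, h, hV⟩ | h
  · exact Or.inl (by rw [← ncard_fixedBy_conj x g, S.ncard_fixedBy_H h h1 ht])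
  · refine Or.inr (by
      rw [← ncard_fixedBy_conj x g]
      refine S.ncard_fixedBy_zero fun k hk => S.notMem_B_of_pow
        (fun e => hV (S.mem_V_of_mul_self h ((pow_two _).symm.trans e))) (S.sq_mem_M h).2 k ?_
      rw [show k⁻¹ * (g⁻¹ * x * g) ^ 2 * k = (k⁻¹ * (g⁻¹ * x * g) * k) ^ 2 by
        simp only [pow_two]; group]
      exact pow_mem hk 2)
  · exact Or.inr (S.ncard_fixedBy_zero fun g => (h.conj g).notMem_B)

include S in
theorem reg_real {x : G} (h2 : 2 < orderOf x) (h3 : ¬ 3 ∣ orderOf x) :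
    ∃ r, r * x * r⁻¹ = x⁻¹ := by
  have := S.finite
  have key : ∀ g r : G, r * (g⁻¹ * x * g) * r⁻¹ = (g⁻¹ * x * g)⁻¹ → ∃ r, r * x * r⁻¹ = x⁻¹ :=
    fun g r h => ⟨g * r * g⁻¹, by
      calc _ = g * (r * (g⁻¹ * x * g) * r⁻¹) * g⁻¹ := by group
        _ = _ := by rw [h]; group⟩
  rcases S.reg_cases h2 h3 with ⟨g, h, -, -⟩ | ⟨g, h, -⟩ | h
  · exact key g _ (S.h_w_conj_of_mem_H h 1)
  · obtain ⟨n, -, -, -, hn, -⟩ := S.exists_inverting
    exact key g _ (hn _ h)
  · refine isConj_inv_of_centralizer (fun a ha h1 => h.centralizer_eq h1 ha) ?_ ?_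
      (self_mem_centralizer x)
    · exact Odd.of_dvd_nat (odd_phi6 _) h.card_centralizer_dvd
    · rw [h.card_normalizer]
      exact Dvd.dvd.mul_right (by norm_num) _

variable {S} in
theorem IsPi.card_centralizer_le {m : ℕ} (hF : Nat.card F = 3 ^ (2 * m + 1)) {x : G}
    (h : S.IsPi x) : Nat.card (Subgroup.centralizer {x}) ≤ Nat.card F + 3 ^ (m + 1) + 1 := by
  obtain ⟨x₁, x₂, h1, h2, c1, c2, hc⟩ := S.exists_tori hF
  rcases hc x h with ⟨-, g, e⟩ | ⟨-, g, e⟩
  · rw [← card_centralizer_conj x g, h1.centralizer_eq (h.conj g).1 e, c1, hF]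
    exact Nat.succ_le_succ ((Nat.sub_le _ _).trans (Nat.le_add_right _ _))
  · rw [← card_centralizer_conj x g, h2.centralizer_eq (h.conj g).1 e, c2, hF]

include S in
theorem card_centralizer_reg {m : ℕ} (hF : Nat.card F = 3 ^ (2 * m + 1)) {x : G}
    (h2 : 2 < orderOf x) (h3 : ¬ 3 ∣ orderOf x) :
    Nat.card (Subgroup.centralizer {x}) ≤ Nat.card F + 3 ^ (m + 1) + 1 := by
  rcases S.reg_cases h2 h3 with ⟨g, h, h1, ht⟩ | ⟨g, h, hV⟩ | h
  · rw [← card_centralizer_conj x g, S.centralizer_eq_H h h1 ht, card_H]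
    generalize 3 ^ (m + 1) = r
    omega
  · rw [← card_centralizer_conj x g, S.centralizer_eq_D' h hV, card_D]
    generalize 3 ^ (m + 1) = r
    omega
  · exact h.card_centralizer_le hF

include S in
theorem le_degree {χ : G → ℂ} (hχ : IsIrrCharacter G χ) (h1 : χ ≠ fun _ => 1) :
    phi6 (Nat.card F) ≤ charDegree χ := by
  have := S.finite
  have := S.isSimpleGroup
  have h := H11.charKer_eq_bot_of_isSimpleGroup hχ h1
  obtain ⟨n, ρ, -, rfl⟩ := hχ
  rw [H11.charKer_character] at h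
  rw [H24.deg_eq ρ.char_one]
  exact S.le_finrank ρ fun e => S.u001_ne_one (Subgroup.mem_bot.mp (h ▸ e))

include S in
/-- The generic case. -/
theorem inSq_of_le {m : ℕ} (hF : Nat.card F = 3 ^ (2 * m + 1)) {x : G}
    (h2 : 2 < orderOf x) (h3 : ¬ 3 ∣ orderOf x) {g : G}
    (hg : Nat.card (Subgroup.centralizer {g}) ≤ 3 * Nat.card F) : InSq x g := by
  have := S.finite
  refine inSq_of_small (fun _ => S.le_degree) ?_
  have h := S.card_centralizer_reg hF h2 h3
  have h27 := ReeField.le_card F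
  obtain ⟨r, hr⟩ : ∃ r, r = 3 ^ m := ⟨_, rfl⟩
  have e1 : Nat.card F = 3 * r ^ 2 := by rw [hF, hr]; ring
  have e2 : 3 ^ (m + 1) = 3 * r := by rw [hr]; ring
  rw [e2] at h
  have hr3 : 3 ≤ r := by nlinarith
  calc _ ≤ (Nat.card F + 3 * r) ^ 2 * (3 * Nat.card F) := by
        gcongr
        omega
    _ = ((Nat.card F + 3 * r) * (3 * r)) ^ 2 := by rw [e1]; ring
    _ < _ := by
        refine Nat.pow_lt_pow_left (Nat.lt_succ_of_le (Nat.le_sub_of_add_le ?_)) two_ne_zero
        rw [e1]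
        obtain ⟨k, rfl⟩ := Nat.exists_eq_add_of_le hr3
        ring_nf
        omega

/-! ### The class of `u 0 b c` -/

omit [ReeField F] in
theorem exists_split {x : G} {P : S.Pt} (hP : x • P ≠ P) : ∃ g a b c k, g • S.inf = x • P ∧
    g⁻¹ * x * g = S.u a b c * S.t * (S.h k * S.w) := by
  obtain ⟨g, h1, h2⟩ := S.exists_smul_pair hP
  obtain ⟨a, b, c, k, e⟩ := S.mem_B'.mpr (show (g⁻¹ * x * g * S.w) • S.inf = S.inf by
    rw [mul_smul, w_smul_inf, mul_smul, h2, mul_smul, ← h1, inv_smul_smul])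
  refine ⟨g, a, b, c, -k, h1, ?_⟩
  rw [← mul_inv_cancel_right (g⁻¹ * x * g) S.w, e, w_inv, t, mul_assoc, mul_assoc,
    ← mul_assoc (S.h (-1)), ← map_mul]
  simp

theorem exists_inSq_T {m : ℕ} (hF : Nat.card F = 3 ^ (2 * m + 1)) {x : G}
    (h2 : 2 < orderOf x) (h3 : ¬ 3 ∣ orderOf x) : ∃ b c, b ≠ 0 ∧ InSq x (S.u 0 b c) := by
  have := S.finite
  by_contra hcon
  push Not at hcon
  let I : Set G := {i | i * i = 1 ∧ i ≠ 1 ∧ i * x * i⁻¹ = x⁻¹}
  have hI : I.ncard ≤ Nat.card (Subgroup.centralizer {x}) := by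
    obtain ⟨r, hr⟩ := S.reg_real h2 h3
    refine Set.ncard_le_ncard_of_injOn (fun i => r⁻¹ * i) (fun i hi => ?_)
      fun _ _ _ _ h => mul_left_cancel h
    refine Subgroup.mem_centralizer_singleton_iff.mpr ?_
    calc r⁻¹ * i * x = r⁻¹ * (i * x * i⁻¹) * i := by group
      _ = _ := by rw [hi.2.2, ← hr]; group
  have hcov : (Set.univ : Set S.Pt) ⊆ MulAction.fixedBy S.Pt x ∪
      ⋃ i ∈ I, MulAction.fixedBy S.Pt i := by
    intro Q _
    by_cases hQ : x • Q = Q
    · exact Or.inl hQ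
    obtain ⟨g, a, b, c, k, e1, e2⟩ := S.exists_split (x := x) (P := x⁻¹ • Q) (by
      rw [smul_inv_smul, Ne, eq_inv_smul_iff]; exact hQ)
    rw [smul_inv_smul] at e1
    have hs := inSq_mul_self (S.u a b c * S.t) (S.h_w_sq k)
    rw [← e2, ut_sq] at hs
    have hb : a * S.s a - b = 0 := by
      by_contra hb
      exact hcon _ _ hb hs.left
    have hv : S.u a b c * S.t * (S.u a b c * S.t) = 1 := by
      rw [ut_sq, u_eq_one_iff]
      exact ⟨rfl, hb, by linear_combination -a * hb⟩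
    have hB : S.u a b c * S.t ∈ S.B := mul_mem (S.u_mem_B ..) S.t_mem_B
    have hv1 : S.u a b c * S.t ≠ 1 :=
      fun e => S.neg_one_ne_one (S.uh_mem_U_iff.mp (e ▸ one_mem S.U))
    generalize S.u a b c * S.t = v at *
    refine Or.inr (Set.mem_biUnion (x := g * v * g⁻¹) ⟨by rw [conj_mul, hv]; simp,
      fun e => hv1 (conj_eq_one_iff.mp e), ?_⟩ ?_)
    · have hj := S.h_w_sq k
      generalize S.h k * S.w = j at *
      have ex : x = g * (v * j) * g⁻¹ := by rw [← e2]; group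
      rw [ex]
      calc _ = g * ((v * v) * j * v⁻¹) * g⁻¹ := by group
        _ = g * (j⁻¹ * v⁻¹) * g⁻¹ := by rw [hv, one_mul, inv_eq_of_mul_eq_one_right hj]
        _ = _ := by group
    · rw [MulAction.mem_fixedBy, ← e1, mul_smul, inv_smul_smul, mul_smul, S.mem_B'.mp hB]
  have h4 := (Set.ncard_le_ncard hcov).trans (Set.ncard_union_le _ _)
  have h5 : (⋃ i ∈ I, MulAction.fixedBy S.Pt i).ncard ≤ I.ncard * (Nat.card F + 1) := by
    have h := (Set.toFinite I).toFinset.set_ncard_biUnion_le fun i => MulAction.fixedBy S.Pt i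
    rw [Finset.sum_congr rfl (g := fun _ => Nat.card F + 1) fun i hi => by
      rw [Set.Finite.mem_toFinset] at hi
      exact S.ncard_fixedBy_invol hi.1 hi.2.1, Finset.sum_const, smul_eq_mul,
      ← Set.ncard_eq_toFinset_card] at h
    simpa using h
  have h6 := S.card_centralizer_reg hF h2 h3
  have h7 : 3 ^ (m + 1) ≤ Nat.card F := hF ▸ three_pow_le
  have h8 := S.ncard_fixedBy_reg h2 h3
  have h27 := ReeField.le_card F
  rw [Set.ncard_univ, card_Pt] at h4
  have h9 : I.ncard * (Nat.card F + 1) ≤ (2 * Nat.card F + 1) * (Nat.card F + 1) := by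
    gcongr
    omega
  generalize Nat.card F = q at *
  have : 27 * q ^ 2 ≤ q ^ 3 := by rw [pow_succ' q 2]; gcongr
  have h10 : q ^ 3 + 1 ≤ 2 + (2 * q + 1) * (q + 1) := by omega
  nlinarith

theorem inSq_T {m : ℕ} (hF : Nat.card F = 3 ^ (2 * m + 1)) {x : G}
    (h2 : 2 < orderOf x) (h3 : ¬ 3 ∣ orderOf x) {b : F} (hb : b ≠ 0) (c : F) :
    InSq x (S.u 0 b c) := by
  obtain ⟨b', c', hb', h⟩ := S.exists_inSq_T hF h2 h3
  have key : ∀ b₁ c₁ (k : Fˣ), (k : F) * S.s k * b₁ = b → InSq x (S.u 0 b₁ c₁) →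
      InSq x (S.u 0 b c) := fun b₁ c₁ k e h => by
    have := h.conj (S.u ((c - k ^ 2 * S.s k * c₁) / b) 0 0 * S.h k)
    rwa [uh_conj_u_zero, e, div_mul_cancel₀ _ hb, add_sub_cancel] at this
  obtain ⟨k, e | e⟩ := S.exists_unit_mul_s (div_ne_zero hb hb')
  · exact key b' c' k (by rw [e, div_mul_cancel₀ _ hb']) h
  · have h' := h.inv (S.reg_real h2 h3)
    rw [u_zero_inv] at h'
    exact key _ _ k (by rw [e, neg_mul_neg, div_mul_cancel₀ _ hb']) h'

/-! ### The class of `u 0 0 c` -/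

include S in
theorem ncard_reg_classes {m : ℕ} (hF : Nat.card F = 3 ^ (2 * m + 1)) :
    (ConjClasses.mk '' {x : G | 2 < orderOf x ∧ ¬ 3 ∣ orderOf x}).ncard ≤ Nat.card F - 2 := by
  have := S.finite
  obtain ⟨x₁, x₂, h1, h2, c1, c2, hc⟩ := S.exists_tori hF
  have hπ : ∀ {x : G}, S.IsPi x →
      6 * (ConjClasses.mk '' ((Subgroup.centralizer {x} : Subgroup G) \ {1} : Set G)).ncard ≤
        Nat.card (Subgroup.centralizer {x}) - 1 := fun {x} hx => by
    have h := mul_ncard_image_le (T := ((Subgroup.centralizer {x} : Subgroup G) \ {1} : Set G))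
      (N := Subgroup.normalizer ((Subgroup.centralizer {x} : Subgroup G) : Set G)) (n := 6)
      (fun a ha y hy => ⟨conj_mem_of_mem_normalizer ha hy.1, fun e => hy.2 (conj_eq_one_iff.mp e)⟩)
      fun y hy => by
        rw [hx.centralizer_eq hy.2 hy.1]
        refine Nat.eq_of_mul_eq_mul_left (Nat.card_pos (α := Subgroup.centralizer {x})) ?_
        rw [card_mul_relIndex Subgroup.le_normalizer, hx.card_normalizer, mul_comm]
    rwa [Set.ncard_sdiff_singleton_of_mem (one_mem _)] at h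
  have hH := mul_ncard_image_le (T := (S.H \ {1, S.t} : Set G))
    (N := Subgroup.normalizer (S.H : Set G)) (n := 2)
    (fun a ha y hy => ⟨conj_mem_of_mem_normalizer ha hy.1, fun e => hy.2 (by
      have : a * y * a⁻¹ * (a * y * a⁻¹) = 1 := by
        rcases e with e | e
        · rw [e, mul_one]
        · rw [e, t_t]
      rw [conj_mul, conj_eq_one_iff] at this
      exact S.eq_of_mem_H_of_mul_self hy.1 this)⟩)
    fun y hy => by
      rw [S.centralizer_eq_H hy.1 (fun e => hy.2 (Or.inl e)) fun e => hy.2 (Or.inr e)]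
      refine Nat.eq_of_mul_eq_mul_left (Nat.card_pos (α := S.H)) ?_
      rw [card_mul_relIndex Subgroup.le_normalizer, card_normalizer_H, card_H, mul_comm]
  have hD := mul_ncard_image_le (T := (S.D \ S.V : Set G))
    (N := Subgroup.normalizer (S.D : Set G)) (n := 6)
    (fun a ha y hy => ⟨conj_mem_of_mem_normalizer ha hy.1, fun e => hy.2 (by
      have := S.mul_self_of_mem_V e
      rw [conj_mul, conj_eq_one_iff] at this
      exact S.mem_V_of_mul_self hy.1 this)⟩)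
    fun y hy => by
      rw [S.centralizer_eq_D' hy.1 hy.2]
      refine Nat.eq_of_mul_eq_mul_left (Nat.card_pos (α := S.D)) ?_
      rw [card_mul_relIndex Subgroup.le_normalizer, normalizer_D, card_normalizer_V, card_D,
        mul_comm]
  rw [Set.ncard_sdiff (by
    rintro _ (rfl | rfl)
    exacts [one_mem _, S.t_mem_H]), Set.ncard_pair S.t_ne_one.symm] at hH
  rw [Set.ncard_sdiff S.V_le_D] at hD
  have e1 : (S.H : Set G).ncard = Nat.card F - 1 := S.card_H
  have e2 : (S.D : Set G).ncard = Nat.card F + 1 := S.card_D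
  have e3 : (S.V : Set G).ncard = 4 := S.card_V
  have h3 := hπ h1
  have h4 := hπ h2
  rw [c1, ← hF] at h3
  rw [c2, ← hF] at h4
  have h7 : 3 ^ (m + 1) ≤ Nat.card F := hF ▸ three_pow_le
  have key : ∀ x g : G, ConjClasses.mk x = ConjClasses.mk (g⁻¹ * x * g) := fun x g =>
    ConjClasses.mk_eq_mk_iff_isConj.mpr (isConj_iff.mpr ⟨g⁻¹, by rw [inv_inv]⟩)
  have h5 : ConjClasses.mk '' {x : G | 2 < orderOf x ∧ ¬ 3 ∣ orderOf x} ⊆
      ((ConjClasses.mk '' (S.H \ {1, S.t} : Set G) ∪ ConjClasses.mk '' (S.D \ S.V : Set G)) ∪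
      ConjClasses.mk '' ((Subgroup.centralizer {x₁} : Subgroup G) \ {1} : Set G)) ∪
      ConjClasses.mk '' ((Subgroup.centralizer {x₂} : Subgroup G) \ {1} : Set G) := by
    rintro _ ⟨x, hx, rfl⟩
    rcases S.reg_cases hx.1 hx.2 with ⟨g, h, h1, ht⟩ | ⟨g, h, hV⟩ | h
    · exact Or.inl (Or.inl (Or.inl ⟨_, ⟨h, fun e => e.elim h1 ht⟩, (key x g).symm⟩))
    · exact Or.inl (Or.inl (Or.inr ⟨_, ⟨h, hV⟩, (key x g).symm⟩))
    · rcases hc x h with ⟨-, g, e⟩ | ⟨-, g, e⟩
      · exact Or.inl (Or.inr ⟨_, ⟨e, (h.conj g).1⟩, (key x g).symm⟩)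
      · exact Or.inr ⟨_, ⟨e, (h.conj g).1⟩, (key x g).symm⟩
  have h6 := (Set.ncard_le_ncard h5).trans ((Set.ncard_union_le _ _).trans (Nat.add_le_add_right
    ((Set.ncard_union_le _ _).trans (Nat.add_le_add_right (Set.ncard_union_le _ _) _)) _))
  have h27 := ReeField.le_card F
  generalize 3 ^ (m + 1) = r at *
  omega

omit [ReeField F] in
theorem trace_conj (x g : G) : (S.ρ (g * x * g⁻¹)).trace = (S.ρ x).trace := by
  rw [map_mul, Matrix.trace_mul_comm, ← map_mul, inv_mul_cancel_left]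

theorem reg_of_trace {m : ℕ} (hF : Nat.card F = 3 ^ (2 * m + 1)) {y : G}
    (h1 : (S.ρ y).trace ≠ 1) (h2 : (S.ρ y).trace ≠ (S.ρ S.w).trace) :
    2 < orderOf y ∧ ¬ 3 ∣ orderOf y := by
  have := S.finite
  have := S.charP
  have := Fintype.ofFinite F
  have hq : (S.ρ (y ^ Nat.card F)).trace = (S.ρ y).trace := by
    rw [map_pow, Nat.card_eq_fintype_card, FiniteField.trace_pow_card, FiniteField.pow_card]
  have h7 : (S.ρ 1).trace = 1 := by
    rw [map_one, Matrix.trace_one, Fintype.card_fin]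
    grind
  have h24 := ReeCard.mod_24 F
  have key : y ^ Nat.card F * y ^ Nat.card F ≠ 1 := fun e => by
    by_cases h : y ^ Nat.card F = 1
    · exact h1 (by rw [← hq, h, h7])
    · obtain ⟨g, hg⟩ := S.exists_conj_eq_w e h
      exact h2 (by rw [← hq, ← hg, trace_conj])
  rw [← pow_add, ← two_mul, Ne, ← orderOf_dvd_iff_pow_eq_one] at key
  have h0 := orderOf_pos y
  refine ⟨?_, fun h3 => key ?_⟩
  · by_contra h
    have : orderOf y = 1 ∨ orderOf y = 2 := by omega
    rcases this with e | e <;> simp [e] at key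
  · obtain ⟨g, hg⟩ := S.exists_conj_mem_B h3
    rw [← orderOf_conj y g] at h3 ⊢
    have h9 : 9 ∣ Nat.card F := by
      have h27 := ReeField.le_card F
      rcases m with _ | m
      · omega
      · exact hF ▸ ⟨3 ^ (2 * m + 1), by ring⟩
    rcases S.orderOf_cases_of_mem_B hg with h | ⟨a, b, c, e⟩ | h
    · exact ((orderOf_dvd_of_pow_eq_one (S.pow_nine_of_mem_U h)).trans h9).mul_left _
    · exact (orderOf_dvd_of_pow_eq_one (e ▸ S.ut_pow_six a b c)).trans (by omega)
    · exact absurd h3 (ReeCard.not_three_dvd_sub h)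

theorem inSq_X {m : ℕ} (hF : Nat.card F = 3 ^ (2 * m + 1))
    (hτ : ∀ c (k : Fˣ), (S.ρ (S.u 0 0 c * S.h k * S.w)).trace = -1 + c ^ 2 / (k ^ 2 * S.s k))
    {x : G} (h2 : 2 < orderOf x) (h3 : ¬ 3 ∣ orderOf x) {c : F} (hc : c ≠ 0) :
    InSq x (S.u 0 0 c) := by
  have := S.finite
  have := S.charP
  have hw : (S.ρ S.w).trace = -1 := by simpa [S.u_zero] using hτ 0 1
  have h0 : ∀ k : Fˣ, (k : F) ^ 2 * S.s k ≠ 0 := fun k => by simp
  let f : Fˣ → ConjClasses G := fun k => ConjClasses.mk (S.u 0 0 1 * S.h k * S.w)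
  have hf : Function.Injective f := fun k l h => by
    obtain ⟨g, hg⟩ := isConj_iff.mp (ConjClasses.mk_eq_mk_iff_isConj.mp h)
    have e := S.trace_conj (S.u 0 0 1 * S.h k * S.w) g
    rw [hg, hτ, hτ, add_right_inj, one_pow, one_div, one_div, inv_inj] at e
    exact Units.ext (S.sq_mul_s_inj e.symm)
  have h4 : f '' {-1}ᶜ ⊆ ConjClasses.mk '' {x : G | 2 < orderOf x ∧ ¬ 3 ∣ orderOf x} := by
    rintro _ ⟨k, hk, rfl⟩
    refine ⟨_, S.reg_of_trace hF (fun e => hk (Units.ext (S.sq_mul_s_inj ?_))) fun e => ?_, rfl⟩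
    · rw [hτ, one_pow, one_div] at e
      have e' : ((k : F) ^ 2 * S.s k)⁻¹ = (-1)⁻¹ := by rw [inv_neg_one]; grind
      rw [inv_inj.mp e']
      simp
    · rw [hτ, hw, add_eq_left, one_pow, one_div, inv_eq_zero] at e
      exact h0 k e
  have h5 := Set.eq_of_subset_of_ncard_le h4 (by
    rw [Set.ncard_image_of_injective _ hf, Set.ncard_compl, Set.ncard_singleton, Nat.card_units]
    exact S.ncard_reg_classes hF)
  obtain ⟨k, -, hk⟩ := h5.ge ⟨x, ⟨h2, h3⟩, rfl⟩
  obtain ⟨g, hg⟩ := isConj_iff.mp (ConjClasses.mk_eq_mk_iff_isConj.mp hk.symm)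
  have h6 := inSq_mul_self (S.u 0 0 1) (S.h_w_sq k)
  rw [← mul_assoc, ← hg, ← inv_inv g, inv_inv g⁻¹, u_zero_mul] at h6
  obtain ⟨l, hl⟩ := S.exists_unit_sq_mul_s (neg_ne_zero.mpr hc)
  have h7 := h6.left.conj (S.h l)
  rw [h_conj_u, hl] at h7
  convert h7 using 2 <;> grind

/-! ### The class of involutions -/

theorem three_dvd_sqCount {g : G} (hg : 3 ∣ Nat.card (Subgroup.centralizer ({g} : Set G))) :
    3 ∣ sqCount S.t g := by
  have := S.finite
  have := S.charP
  obtain ⟨z, hz⟩ := exists_prime_orderOf_dvd_card' 3 hg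
  rw [← Subgroup.orderOf_coe] at hz
  obtain ⟨a, ha⟩ := S.exists_conj_mem_U (x := (z : G)) (n := 1) (by
    rw [pow_one, ← hz, pow_orderOf_eq_one])
  have h1 := Subgroup.mem_centralizer_singleton_iff.mp (conj_mem_centralizer z.2 a)
  rw [← orderOf_conj _ a] at hz
  rw [← sqCount_conj S.t g a⁻¹, inv_inv]
  generalize a⁻¹ * g * a = g' at *
  generalize a⁻¹ * (z : G) * a = z' at *
  obtain ⟨y, hy, hyg, hfree⟩ : ∃ y : G, orderOf y = 3 ∧ y * g' = g' * y ∧
      ∀ i j, IsConj S.t i → IsConj S.t j → i * j = g' → i * y = y * i → j * y = y * j → False := by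
    by_contra hcon
    push Not at hcon
    obtain ⟨i, j, hi, hj, e, ci, cj, -⟩ := hcon z' hz h1
    obtain ⟨b, c, rfl⟩ := (S.cube_eq_one_iff ha).mp (by rw [← hz, pow_orderOf_eq_one])
    have hz1 : S.u 0 b c ≠ 1 := fun e => by simp [e] at hz
    rw [isConj_t_iff] at hi hj
    obtain ⟨hb, a₁, d₁, e1, rfl⟩ := S.invol_comm hi.1 hi.2 hz1 ci
    obtain ⟨-, a₂, d₂, e2, rfl⟩ := S.invol_comm hj.1 hj.2 hz1 cj
    obtain rfl : a₁ = a₂ := mul_right_cancel₀ hb (e1.trans e2.symm)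
    obtain ⟨i, j, hi, -, -, ci, -⟩ := hcon (S.u 0 0 1) (orderOf_eq_prime
      ((S.cube_eq_one_iff (S.u_mem_U ..)).mpr (S.u_mem_Y ..)) S.u001_ne_one) (by
        rw [← e, mul_assoc, ← mul_assoc S.t, t_mul_u, mul_assoc, t_t, mul_one, u_mul, u_comm_iff]
        simp)
    rw [isConj_t_iff] at hi
    exact (S.invol_comm hi.1 hi.2 S.u001_ne_one ci).1 rfl
  have hc : ∀ (n : G) {i}, IsConj S.t i → IsConj S.t (n * i * n⁻¹) := fun n i h =>
    h.trans (isConj_iff.mpr ⟨n, rfl⟩)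
  let : MulAction (Subgroup.zpowers y)
      {p : G × G // IsConj S.t p.1 ∧ IsConj S.t p.2 ∧ p.1 * p.2 = g'} :=
    { smul n p := ⟨((n : G) * p.1.1 * (n : G)⁻¹, (n : G) * p.1.2 * (n : G)⁻¹), hc _ p.2.1,
        hc _ p.2.2.1, by
          obtain ⟨k, hk⟩ := n.2
          have : Commute (n : G) g' := hk ▸ (show Commute y g' from hyg).zpow_left k
          rw [conj_mul, p.2.2.2, this.eq, mul_inv_cancel_right]⟩
      one_smul p := Subtype.ext (Prod.ext (show ((1 : G) * _ * 1⁻¹) = _ by simp)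
        (show ((1 : G) * _ * 1⁻¹) = _ by simp))
      mul_smul m n p := Subtype.ext (Prod.ext
        (show (m : G) * n * _ * ((m : G) * n)⁻¹ = (m : G) * ((n : G) * _ * (n : G)⁻¹) * (m : G)⁻¹ by
          group)
        (show (m : G) * n * _ * ((m : G) * n)⁻¹ = (m : G) * ((n : G) * _ * (n : G)⁻¹) * (m : G)⁻¹ by
          group)) }
  have h := card_dvd_of_free (G := Subgroup.zpowers y)
    (X := {p : G × G // IsConj S.t p.1 ∧ IsConj S.t p.2 ∧ p.1 * p.2 = g'}) fun n p h => by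
      by_contra hn
      have e1 : (n : G) * p.1.1 * (n : G)⁻¹ = p.1.1 := congrArg (fun p => p.1.1) h
      have e2 : (n : G) * p.1.2 * (n : G)⁻¹ = p.1.2 := congrArg (fun p => p.1.2) h
      have : Fact (Nat.card (Subgroup.zpowers y)).Prime := ⟨by
        rw [Nat.card_zpowers, hy]; exact Nat.prime_three⟩
      obtain ⟨k, hk⟩ := mem_zpowers_of_prime_card (G := Subgroup.zpowers y) rfl hn
        (g' := ⟨y, Subgroup.mem_zpowers y⟩)
      have hk' : (n : G) ^ k = y := congrArg Subtype.val hk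
      exact hfree _ _ p.2.1 p.2.2.1 p.2.2.2
        (hk' ▸ ((show Commute (n : G) _ from mul_inv_eq_iff_eq_mul.mp e1).zpow_left k).symm)
        (hk' ▸ ((show Commute (n : G) _ from mul_inv_eq_iff_eq_mul.mp e2).zpow_left k).symm)
  rwa [Nat.card_zpowers, hy] at h

omit [ReeField F] in
theorem commutator_B_le : commutator S.B ≤ S.U.subgroupOf S.B := by
  rw [commutator_def, Subgroup.commutator_le]
  intro x _ y _
  obtain ⟨a, b, c, k, ex⟩ := x.2
  obtain ⟨a', b', c', l, ey⟩ := y.2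
  rw [Subgroup.mem_subgroupOf]
  change (x : G) * y * (x : G)⁻¹ * (y : G)⁻¹ ∈ S.U
  have : (x : G) * y * (x : G)⁻¹ * (y : G)⁻¹ = S.u a b c * (S.h k * S.u a' b' c' * (S.h k)⁻¹) *
      (S.h l * (S.u a b c)⁻¹ * (S.h l)⁻¹) * (S.u a' b' c')⁻¹ := by
    rw [ex, ey]
    calc _ = S.u a b c * S.h k * S.u a' b' c' * (S.h l * S.h k⁻¹) * (S.u a b c)⁻¹ * (S.h l)⁻¹ *
        (S.u a' b' c')⁻¹ := by rw [map_inv]; group
      _ = _ := by rw [h_comm, map_inv]; group
  rw [this]
  exact mul_mem (mul_mem (mul_mem (S.u_mem_U ..) (S.conj_mem_U (S.h_mem_B _) (S.u_mem_U ..)))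
    (S.conj_mem_U (S.h_mem_B _) (inv_mem (S.u_mem_U ..)))) (inv_mem (S.u_mem_U ..))

/-- The Steinberg character is the only one of defect zero. -/
theorem eq_St {χ : G → ℂ} (hχ : IsIrrCharacter G χ) (hd : Nat.card S.U ∣ charDegree χ) :
    χ = H11.permChar G S.Pt - fun _ => 1 := by
  classical
  have := S.finite
  have := Fintype.ofFinite G
  have hv : ∀ g ∈ S.U, g ≠ 1 → χ g = 0 := fun g hg h1 => by
    obtain ⟨ν, hν⟩ := S.isPGroup_U.exists_card_eq
    obtain ⟨n, ρ, hρ, rfl⟩ := hχ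
    rw [H24.deg_eq ρ.char_one, hν] at hd
    refine S0165.result ρ 3 ν Nat.prime_three (hν ▸ S.U.card_subgroup_dvd_card) (fun h => ?_) hd g ?_
    · rw [← S.U.card_mul_index, hν, pow_succ] at h
      exact S.not_three_dvd_index_U (Nat.dvd_of_mul_dvd_mul_left (by positivity) h)
    · obtain ⟨k, hk⟩ := IsPGroup.iff_orderOf.mp S.isPGroup_U ⟨g, hg⟩
      rw [Subgroup.orderOf_mk] at hk
      rw [hk]
      refine dvd_pow_self _ ?_
      rintro rfl
      exact h1 (orderOf_eq_one_iff.mp hk)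
  have h1 : classInner (fun n : S.U => χ n) (fun _ => 1) ≠ 0 := by
    rw [H11.classInner_one_right, Finset.sum_eq_single (1 : S.U)
      (fun g _ hg => hv g g.2 fun e => hg (Subtype.ext e)) (by simp)]
    exact mul_ne_zero (inv_ne_zero (H11.card_ne_zero _)) (H13.irr_one_ne_zero hχ)
  obtain ⟨ψ, hψ, h2, h3⟩ := H24.exists_between S.U_le_B (H11.isClassFunction_of_irr hχ) h1
  have : (S.U.subgroupOf S.B).Normal := ⟨fun n hn g => S.conj_mem_U g.2 hn⟩
  have h4 := H11.irr_apply_one_of_commutator_le hψ (S.commutator_B_le.trans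
    (H11.le_charKer_of_classInner_ne_zero hψ _ (by
      rwa [← H24.inner_subgroupOf S.U_le_B ψ fun _ => 1] at h3)))
  have hc := H14.IsCharacter.indFun S.B (H11.isCharacter_of_irr hψ)
  have h5 : classInner (indFun S.B ψ) χ ≠ 0 := by
    rwa [H14.classInner_indFun_left _ _ (H11.isClassFunction_of_irr hχ),
      H11.classInner_ne_zero_comm]
  have h6 := H24.deg_le_of_inner_ne_zero hc hχ h5
  have h7 : indFun S.B ψ 1 = (Nat.card F ^ 3 + 1 : ℕ) := by rw [H14.indFun_one, h4, index_B, mul_one]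
  rw [H24.deg_eq h7] at h6
  rw [card_U] at hd
  have h27 := ReeField.le_card F
  have h8 : charDegree χ = Nat.card F ^ 3 := by
    obtain ⟨k, hk⟩ := hd
    have h0 := H24.deg_pos hχ
    have : 2 ≤ Nat.card F ^ 3 := le_trans (by omega) (Nat.le_self_pow three_ne_zero _)
    rw [hk] at h0 h6 ⊢
    rcases k with _ | _ | k
    · simp at h0
    · simp
    · nlinarith
  have h9 := H11.isCharacter_sub_irr hc hχ h5
  have h10 : (indFun S.B ψ - χ) 1 = 1 := by
    rw [Pi.sub_apply, h7, H24.irr_deg hχ, h8]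
    push_cast
    ring
  have h11 : indFun S.B ψ - χ = fun _ => 1 := by
    funext g
    rw [← h10]
    exact H11.apply_eq_of_mem_charKer (H11.commutator_le_charKer h9 h10
      (S.commutator_eq_top ▸ Subgroup.mem_top g))
  have h12 : χ ≠ fun _ => 1 := fun e => by
    rw [e, H24.deg_one] at h8
    have := Nat.le_self_pow three_ne_zero (Nat.card F)
    omega
  have h13 : ψ = fun _ => 1 := by
    by_contra hne
    have e := H14.classInner_indFun_left S.B ψ (χ := fun _ => 1) fun _ _ => rfl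
    rw [H11.classInner_irr_of_ne hψ H11.isIrrCharacter_one hne, eq_add_of_sub_eq h11,
      H11.classInner_add_left, H11.classInner_irr_of_ne hχ H11.isIrrCharacter_one h12,
      H11.classInner_one_one] at e
    simp at e
  rw [← h11, h13]
  funext g
  simp [H14.indFun_one_eq_card_fixedBy, H11.permChar]

theorem inSq_t {x : G} (h2 : 2 < orderOf x) (h3 : ¬ 3 ∣ orderOf x) : InSq x S.t := by
  have := S.finite
  have : Nontrivial S.Pt := ⟨⟨_, _, S.inf_ne_zer⟩⟩
  refine inSq_of_gow Nat.prime_three S.isPGroup_U S.t_t (fun _ => S.three_dvd_sqCount)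
    ((H11.isIrrCharacter_permChar_sub_one_iff S.Pt).mpr inferInstance) (fun _ => S.eq_St) ?_
    (N := phi6 (Nat.card F)) ?_ (ReeCard.not_three_dvd_phi6 F)
  · simp only [Pi.sub_apply, H11.permChar, Nat.card_coe_set_eq]
    rcases S.ncard_fixedBy_reg h2 h3 with e | e <;> rw [e] <;> norm_num
  · rw [Pi.sub_apply, Pi.sub_apply, H11.permChar_one, H11.permChar, Nat.card_coe_set_eq,
      ncard_fixedBy_t, card_Pt, index_C]
    have : (Nat.card F : ℂ) ≠ 0 := by exact_mod_cast Nat.card_pos.ne'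
    unfold phi6
    generalize Nat.card F ^ 2 - Nat.card F + 1 = r
    push_cast
    field_simp
    ring

/-- The square of a regular semisimple class contains all non-identity elements. -/
theorem inSq {m : ℕ} (hF : Nat.card F = 3 ^ (2 * m + 1))
    (hτ : ∀ c (k : Fˣ), (S.ρ (S.u 0 0 c * S.h k * S.w)).trace = -1 + c ^ 2 / (k ^ 2 * S.s k))
    {x : G} (h2 : 2 < orderOf x) (h3 : ¬ 3 ∣ orderOf x) {g : G} (hg : g ≠ 1) : InSq x g := by
  have h27 := ReeField.le_card F
  have h7 : 3 ^ (m + 1) ≤ Nat.card F := hF ▸ three_pow_le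
  by_cases h : 3 ∣ orderOf g
  · obtain ⟨a, ha⟩ := S.exists_conj_mem_B h
    refine InSq.of_conj (a := a) ?_
    rw [← orderOf_conj g a] at h
    have hg' := conj_ne_one hg a
    generalize a⁻¹ * g * a = g' at *
    rcases S.orderOf_cases_of_mem_B ha with ⟨a, b, c, rfl⟩ | ⟨a, b, c, rfl⟩ | h'
    · by_cases ha : a = 0
      · subst ha
        by_cases hb : b = 0
        · subst hb
          exact S.inSq_X hF hτ h2 h3 fun e => hg' (by rw [e, S.u_zero])
        · exact S.inSq_T hF h2 h3 hb c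
      · exact S.inSq_of_le hF h2 h3 (S.card_centralizer_nine ha b c)
    · obtain ⟨a', c', d, e⟩ := S.exists_conj_t a b c
      rw [e]
      refine InSq.conj ?_ _
      by_cases hd : d = 0
      · rw [hd, S.u_zero, one_mul]
        exact S.inSq_t h2 h3
      · exact S.inSq_of_le hF h2 h3 (S.card_centralizer_six hd)
    · exact absurd h (ReeCard.not_three_dvd_sub h')
  · by_cases h' : 2 < orderOf g
    · refine S.inSq_of_le hF h2 h3 ((S.card_centralizer_reg hF h' h).trans ?_)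
      generalize 3 ^ (m + 1) = r at *
      omega
    · have := S.finite
      have h0 := orderOf_pos g
      have h1 : orderOf g ≠ 1 := fun e => hg (orderOf_eq_one_iff.mp e)
      obtain ⟨a, rfl⟩ := S.exists_conj_t_eq (x := g) (by
        rw [← pow_two, ← show orderOf g = 2 by omega, pow_orderOf_eq_one]) hg
      exact (S.inSq_t h2 h3).conj a

end Ree

end Cfsg.Agent.H39
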