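import Cfsg.Agent.H39.ReeInst

/-!
The trace of some elements of the big cell of the small Ree groups.
-/

set_option autoImplicit false
set_option maxRecDepth 100000

namespace Cfsg.Agent.H39

open Cfsg.Lie Cfsg.Agent.H37 Cfsg.Agent.H34 Cfsg.Agent.H40 Cfsg.Agent.H34.Cert Matrix

theorem check_diag : allLt (fun j => eqvP 3 (filt (nthN [0, 4, 5, 6, 9, 10, 11] j)
    (appWP 3 2 (codeG 36 68719476736 rowsG2) corG2
      (TL.cons (nthN [0, 4, 5, 6, 9, 10, 11] j) 1 1 TL.nil)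
      [(8, 1, 1), (3, -1, 1), (8, 1, 1), (10, 1, 1), (1, -1, 1), (10, 1, 1), (9, 1, 2), (11, 1, 3)]))
    (TL.cons (nthN [0, 4, 5, 6, 9, 10, 11] j) (nthN [1, 4, 1, 1, 1, 1, 1] j)
      (nthN [2, 1, 0, 0, 0, 0, 0] j : ℕ) TL.nil)) 7 = true := by
  decide +kernel

variable {K : Type*} [Field K] [CharP K 3]

theorem rho7_apply (g : chevG2.group K) (i j : Fin 7) : rho7 K g i j =
    ((g : GL chevG2.Idx K) : Matrix chevG2.Idx chevG2.Idx K) (sub7 i) (sub7 j) := rfl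

theorem diag_wu (c d : K) (j : Fin 7) :
    rho7 K (cG2.ng K 8 1 * cG2.ng K 10 1 * cG2.wg K [(9, c), (11, d)]) j j =
      ![-1, c ^ 2, 0, 0, 0, 0, 0] j := by
  have e2 : nthN [0, 4, 5, 6, 9, 10, 11] j = codeI chevG2 (sub7 j) := by
    revert j; decide +kernel
  obtain ⟨μ, h2, h3, -⟩ := exists_mu c d 0
  have hL := checkLink_sound linkG2
  have h1 := congrFun (ev_eqvP (D := chevG2) μ (allLt_sound check_diag j j.2)) (sub7 j)
  rw [e2, ev_filt] at h1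
  have h4 := ev_appWP (p := 3) hL μ (TL.cons (codeI chevG2 (sub7 j)) 1 1 TL.nil)
    (ops := [(8, 1, 1), (3, -1, 1), (8, 1, 1), (10, 1, 1), (1, -1, 1), (10, 1, 1), (9, 1, 2),
      (11, 1, 3)]) (by decide +kernel)
  have hn : chevG2.neg 8 = 3 ∧ chevG2.neg 10 = 1 := by decide +kernel
  have h5 : cG2.ng K 8 1 * cG2.ng K 10 1 * cG2.wg K [(9, c), (11, d)] = cG2.wg K (wordOf μ
      [(8, 1, 1), (3, -1, 1), (8, 1, 1), (10, 1, 1), (1, -1, 1), (10, 1, 1), (9, 1, 2),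
        (11, 1, 3)]) := by
    simp only [wordOf, List.map_cons, List.map_nil, wg_cons, wg_nil, ng_eq, hn, inv_one,
      mul_assoc (G := chevG2.group K), mul_one, Int.cast_one, Int.reduceNeg,
      Int.cast_neg, map_one, one_mul, h2, h3]
  have h6 := (congrFun h4 (sub7 j)).symm.trans h1
  rw [h5]
  rw [rho7_apply, coe_wg]
  refine (apply_eq_bV _ _ _).trans ?_
  simp only [ev_cons, ev_nil, map_one, Int.cast_one, mul_one, one_smul, add_zero, Pi.smul_apply,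
    bV_apply, if_true, smul_eq_mul] at h6
  rw [h6]
  have h7 : μ 4 = c ^ 2 := by rw [show 4 = 2 * 2 from rfl, map_mul, h2, pow_two]
  have h8 : (2 : K) = -1 := by grind
  fin_cases j <;> simp [nthN, h7, h8]

theorem rho7_tg (c : Fin 2 → Kˣ) : rho7 K (tgG2 K c) =
    Matrix.diagonal fun j => Sum.elim (fun _ => (1 : K)) (fun r => (torChar chevG2 c r.val : K))
      (sub7 j) :=
  Matrix.submatrix_diagonal _ _ sub7_inj

variable (θ : K →+* K) (h3 : ∀ t, θ (θ t) ^ 3 = t)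

include h3 in
theorem trace_rho7 (c : K) (k : Kˣ) :
    (rho7 K (reeU θ 0 0 c * reeH θ k * (cG2.ng K 8 1 * cG2.ng K 10 1))).trace =
      -1 + c ^ 2 / (k ^ 2 * reeS θ k) := by
  have h0 : θ k ≠ 0 := (map_ne_zero θ).mpr k.ne_zero
  have h1 := k.ne_zero
  obtain ⟨l, hl, e⟩ : ∃ l : Kˣ, (l : K) = k ^ 3 * (θ k ^ 3) ^ 2 ∧
      reeH θ k = tgG2 K (parG2 θ l) := ⟨_, by simp [reeS_apply], reeH_apply θ k⟩
  have hl' : θ l = θ k ^ 3 * k ^ 2 := by rw [hl, map_mul, map_pow, map_pow, map_pow, h3]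
  have hu : reeU θ 0 0 c = cG2.wg K [(9, c), (11, reeS θ c)] := by
    rw [reeU_eq θ h3]; simp [xg_zero]
  rw [map_mul, Matrix.trace_mul_comm, ← map_mul, ← mul_assoc, map_mul, hu, e, rho7_tg]
  simp only [Matrix.trace, Matrix.diag, Matrix.mul_diagonal, diag_wu, Fin.sum_univ_seven]
  have h2 : torChar chevG2 (parG2 θ l) 2 = _ := torG2 _ (a0 := -1) (a1 := 0) (by decide +kernel)
  have h4 : ∀ f : ℕ → Kˣ, Sum.elim (fun _ => (1 : K)) (fun r : Fin chevG2.nroots => (f r.val : K))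
      (sub7 0) = 1 ∧ Sum.elim (fun _ => (1 : K)) (fun r : Fin chevG2.nroots => (f r.val : K))
      (sub7 1) = f 2 := fun _ => ⟨rfl, rfl⟩
  rw [(h4 _).1, (h4 _).2, h2]
  simp [parG2, hl', reeS_apply, div_eq_mul_inv, mul_comm]

omit [CharP K 3] θ h3 in
/-- The small Ree groups of the statements carry a model with a known trace. -/
theorem exists_ree_trace [Fintype K] {m : ℕ} (hK : Fintype.card K = 3 ^ (2 * m + 1)) :
    ∃ S : Ree (twistedG2 K (3 ^ m)) K, ∀ c (k : Kˣ),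
      (S.ρ (S.u 0 0 c * S.h k * S.w)).trace = -1 + c ^ 2 / (k ^ 2 * S.s k) := by
  have : Fact (Nat.Prime 3) := ⟨Nat.prime_three⟩
  obtain ⟨_, θ, hθ, h3⟩ := exists_theta hK
  refine ⟨reeModel θ h3 hθ, fun c k => ?_⟩
  refine Eq.trans ?_ (trace_rho7 θ h3 c k)
  rw [← j_reeModel_u θ h3 hθ, ← j_reeModel_h θ h3 hθ, ← j_reeModel_w θ h3 hθ, ← map_mul, ← map_mul]
  rfl

end Cfsg.Agent.H39
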