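import Cfsg.Agent.H58.SWDefs

/-! Project SW: piece DM1A. -/

set_option autoImplicit false
open Matrix Cfsg
open scoped commutatorElement

namespace Cfsg.Agent.H39.SwDm1A

open Cfsg.Agent.H58.SW

variable {F : Type} [Field F] [Fintype F] [DecidableEq F] {n : ℕ}

omit [Fintype F] [DecidableEq F] in
theorem sum_mul {E : Finset (Mt n F)} (h : Fam E) (lam : Mt n F → F) {f : Mt n F} (hf : f ∈ E) :
    (∑ e ∈ E, lam e • e) * f = lam f • f := by
  rw [Finset.sum_mul, Finset.sum_eq_single_of_mem f hf fun e he ne => by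
    rw [smul_mul_assoc, h.orth e he f hf ne, smul_zero], smul_mul_assoc, h.idem f hf]

omit [Fintype F] [DecidableEq F] in
theorem mul_sum {E : Finset (Mt n F)} (h : Fam E) (lam : Mt n F → F) {f : Mt n F} (hf : f ∈ E) :
    f * (∑ e ∈ E, lam e • e) = lam f • f := by
  rw [Finset.mul_sum, Finset.sum_eq_single_of_mem f hf fun e he ne => by
    rw [mul_smul_comm, h.orth f hf e he ne.symm, smul_zero], mul_smul_comm, h.idem f hf]

omit [Fintype F] [DecidableEq F] in
theorem sum_mul_sum {E : Finset (Mt n F)} (h : Fam E) (lam mu : Mt n F → F)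
    (hl : ∀ e ∈ E, mu e * lam e = 1) : (∑ e ∈ E, lam e • e) * (∑ e ∈ E, mu e • e) = 1 := by
  rw [Finset.mul_sum, ← h.sum]
  refine Finset.sum_congr rfl fun f hf => ?_
  rw [mul_smul_comm, sum_mul h lam hf, smul_smul, hl f hf, one_smul]

omit [DecidableEq F] in
theorem card_le (P : F → Prop) {k : ℕ} (hk : 0 < k) (h : ∀ a, P a → a ^ k = 1) :
    Nat.card {a // P a} ≤ k := by
  classical
  have h1 := Nat.card_le_card_of_injective
    (fun a : {a // P a} => (⟨a.1, Multiset.mem_toFinset.2 ((Polynomial.mem_nthRoots hk).2 (h a.1 a.2))⟩ :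
      (Polynomial.nthRoots k (1 : F)).toFinset)) fun a b e => Subtype.ext (Subtype.mk.inj e)
  rw [Nat.card_eq_fintype_card (α := (Polynomial.nthRoots k (1 : F)).toFinset), Fintype.card_coe] at h1
  exact h1.trans ((Multiset.toFinset_card_le _).trans (Polynomial.card_nthRoots k 1))

theorem dm1A (hKA : KAStmt) (hKT : KTStmt) (hKW : KWStmt) (hI : IdetStmt) (hS : StabStmt) :
    Dm1AStmt := by
  intro F _ _ _ n c r H Q L δ E D B rk n3 zc
  classical
  have ka := hKA F n c
  have kt := hKT F n c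
  have cE : E.card = n := by
    have h := (hKW F n c).rksum E B.fam
    rwa [Finset.sum_congr rfl rk, Finset.sum_const, smul_eq_mul, mul_one] at h
  obtain ⟨t, ht⟩ := L.std δ D.dH
  have πE : ∀ e ∈ E, t.ap e ∈ E := fun e he => B.inv δ D.dH t ht e he
  have πi := (kt.bij t).1
  let f : F → F := fun a => t.σ (if t.neg = true then a⁻¹ else a)
  have f1 : f 1 = 1 := by simp [f]
  have key : ∀ lam : Mt n F → F, (∀ e ∈ E, c.ZV (lam e)) → ∏ e ∈ E, lam e = 1 →
      ∃ a : F, a ^ n = 1 ∧ ∀ e ∈ E, f (lam e) = a * lam (t.ap e) := fun lam hl hp => by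
    let y : Gl n F := ⟨∑ e ∈ E, lam e • e, ∑ e ∈ E, (lam e)⁻¹ • e,
      sum_mul_sum B.fam _ _ fun e he => inv_mul_cancel₀ (hl e he).1,
      sum_mul_sum B.fam _ _ fun e he => mul_inv_cancel₀ (hl e he).1⟩
    have yv : (y : Mt n F) = ∑ e ∈ E, lam e • e := rfl
    have yi : ((y⁻¹ : Gl n F) : Mt n F) = ∑ e ∈ E, (lam e)⁻¹ • e := rfl
    have yd : (y : Mt n F).det = 1 := by
      rw [yv, hI F n E lam B.fam, ← hp]
      exact Finset.prod_congr rfl fun e he => by rw [rk e he, pow_one]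
    have yS : y ∈ c.S := (ka.mem_S y).2 ⟨(ka.mem_St y).2 fun hu => by
      have h1 : c.st (y : Mt n F) = ∑ e ∈ E, lam e ^ c.q • e := by
        rw [yv]
        refine (map_sum (AddMonoidHom.mk' c.st (ka.st_add hu)) _ E).trans
          (Finset.sum_congr rfl fun e he => ?_)
        show c.st (lam e • e) = _
        rw [ka.st_smul, B.sf hu e he]
      rw [h1, yv]
      exact sum_mul_sum B.fam _ _ fun e he => by rw [← pow_succ']; exact (hl e he).2 hu, yd⟩
    have yH : y ∈ c.hat H := hS F n c r H Q L E B y yS fun e he => by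
      rw [cj, yv, yi, sum_mul B.fam lam he, smul_mul_assoc, mul_sum B.fam _ he, smul_smul,
        mul_inv_cancel₀ (hl e he).1, one_smul]
      exact he
    obtain ⟨a, -, ha⟩ := (ka.mem_Z _).1 (D.cen y yH)
    have h2 : ((δ y : Gl n F) : Mt n F) = a • (y : Mt n F) := by
      rw [← one_mul (y : Mt n F), ← smul_mul_assoc, ← ha, ← Units.val_mul, inv_mul_cancel_right]
    have h3 : ((δ y : Gl n F) : Mt n F) = ∑ e ∈ E, f (lam e) • t.ap e := by
      have h4 : (((if t.neg = true then y⁻¹ else y) : Gl n F) : Mt n F) =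
          ∑ e ∈ E, (if t.neg = true then (lam e)⁻¹ else lam e) • e := by
        split_ifs
        · exact yi
        · exact yv
      rw [ht.2.2 y, h4]
      refine (map_sum (AddMonoidHom.mk' t.ap (kt.add t)) _ E).trans
        (Finset.sum_congr rfl fun e _ => ?_)
      exact kt.smul t _ e
    refine ⟨a, ?_, fun e he => ?_⟩
    · have h5 := ((ka.mem_S _).1 ((kt.pres δ ⟨t, ht⟩ y).2.1.2 yS)).2
      rw [h2, Matrix.det_smul, yd, mul_one, Fintype.card_fin] at h5
      exact h5
    · have h6 : (∑ e ∈ E, f (lam e) • t.ap e) * t.ap e = f (lam e) • t.ap e := by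
        rw [Finset.sum_mul, Finset.sum_eq_single_of_mem e he fun e' he' ne => by
          rw [smul_mul_assoc, B.fam.orth _ (πE e' he') _ (πE e he) fun h => ne (πi h), smul_zero],
          smul_mul_assoc, B.fam.idem _ (πE e he)]
      rw [← h3, h2, smul_mul_assoc, yv, sum_mul B.fam lam (πE e he), smul_smul] at h6
      exact (smul_left_injective F (B.fam.ne0 _ (πE e he)) h6).symm
  have test : ∀ g ∈ E, ∀ b ∈ E, g ≠ b → ∀ l, c.ZV l → ∃ (a : F) (lam : Mt n F → F), a ^ n = 1 ∧
      lam g = l ∧ lam b = l⁻¹ ∧ (∀ e, e ≠ g → e ≠ b → lam e = 1) ∧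
      ∀ e ∈ E, f (lam e) = a * lam (t.ap e) := fun g hg b hb gb l hl => by
    let lam : Mt n F → F := fun e => if e = g then l else if e = b then l⁻¹ else 1
    have h1 : lam g = l := if_pos rfl
    have h2 : lam b = l⁻¹ := (if_neg gb.symm).trans (if_pos rfl)
    have h3 : ∀ e, e ≠ g → e ≠ b → lam e = 1 := fun e k1 k2 => (if_neg k1).trans (if_neg k2)
    obtain ⟨a, k1, k2⟩ := key lam (fun e _ => by
        by_cases e1 : e = g
        · rw [e1, h1]; exact hl
        by_cases e2 : e = b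
        · rw [e2, h2]; exact ⟨inv_ne_zero hl.1, fun hu => by rw [inv_pow, hl.2 hu, inv_one]⟩
        · rw [h3 e e1 e2]; exact ⟨one_ne_zero, fun _ => one_pow _⟩)
      (by rw [Finset.prod_eq_mul_of_mem g b hg hb gb fun e _ k => h3 e k.1 k.2, h1, h2,
        mul_inv_cancel₀ hl.1])
    exact ⟨a, lam, k1, h1, h2, h3, k2⟩
  by_cases hπ : ∀ e ∈ E, t.ap e = e
  · refine Or.inr ⟨t, ht, hπ, fun z hz => ?_⟩
    obtain ⟨l, hl, hz'⟩ := (ka.mem_Z z).1 hz
    obtain ⟨g, hg, b, hb, j, hj, gb, gj, bj⟩ := Finset.two_lt_card.1 (show 2 < E.card by omega)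
    obtain ⟨a, lam, -, h1, -, h3, h4⟩ := test g hg b hb gb l hl
    have k1 := h4 j hj
    rw [hπ j hj, h3 j gj.symm bj.symm, f1, mul_one] at k1
    have k2 := h4 g hg
    rw [hπ g hg, h1, ← k1, one_mul] at k2
    have k3 : (((if t.neg = true then z⁻¹ else z) : Gl n F) : Mt n F) =
        (if t.neg = true then l⁻¹ else l) • (1 : Mt n F) := by
      split_ifs
      · exact Units.inv_eq_of_mul_eq_one_right (by
          rw [hz', smul_mul_smul_comm, mul_inv_cancel₀ hl.1, one_mul, one_smul])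
      · exact hz'
    refine Units.ext ?_
    rw [ht.2.2 z, k3, kt.smul, kt.one, hz']
    exact congrArg (· • (1 : Mt n F)) k2
  left
  push Not at hπ
  obtain ⟨α, hα, ne⟩ := hπ
  have hγ := πE α hα
  obtain ⟨b, hb, nb⟩ := Finset.exists_mem_notMem_of_card_lt_card
    (s := {α, t.ap α}) (t := E) (Finset.card_le_two.trans_lt (by omega))
  simp only [Finset.mem_insert, Finset.mem_singleton, not_or] at nb
  have main : ∀ l, c.ZV l → l ^ n = 1 ∧ ∀ j ∈ E, j ≠ α → j ≠ t.ap α → j ≠ b →
      l ^ 2 = 1 ∧ (t.ap j ≠ b → l ^ 1 = 1) := fun l hl => by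
    obtain ⟨a, lam, h0, h1, h2, h3, h4⟩ := test _ hγ b hb (Ne.symm nb.2) l hl
    have k1 := h4 α hα
    rw [h1, h3 α ne.symm (Ne.symm nb.1), f1] at k1
    refine ⟨?_, fun j hj j1 j2 j3 => ?_⟩
    · have : (a * l) ^ n = 1 := by rw [← k1, one_pow]
      rwa [mul_pow, h0, one_mul] at this
    have k2 := h4 j hj
    rw [h3 j j2 j3, f1] at k2
    have k3 : t.ap j ≠ b → l ^ 1 = 1 := fun k => by
      rw [h3 _ (fun h => j1 (πi h)) k, mul_one] at k2
      rw [← k2, one_mul] at k1
      rw [pow_one, ← k1]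
    refine ⟨?_, k3⟩
    by_cases k : t.ap j = b
    · rw [k, h2] at k2
      have k4 : a = l := by
        rw [← mul_one l, k2, mul_comm a, ← mul_assoc, mul_inv_cancel₀ hl.1, one_mul]
      rw [pow_two, k1, k4]
    · rw [pow_two, ← pow_one l, k3 k, mul_one]
  rw [← ka.card_ZV] at zc ⊢
  rcases Nat.lt_or_ge 3 n with n4 | n4
  · obtain ⟨j, hj, nj⟩ := Finset.exists_mem_notMem_of_card_lt_card
      (s := {α, t.ap α, b}) (t := E) (Finset.card_le_three.trans_lt (by omega))
    simp only [Finset.mem_insert, Finset.mem_singleton, not_or] at nj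
    refine ⟨?_, (card_le _ two_pos fun l hl =>
      ((main l hl).2 j hj nj.1 nj.2.1 nj.2.2).1).trans (by norm_num)⟩
    by_contra n5
    obtain ⟨k, hk, nk⟩ := Finset.exists_mem_notMem_of_card_lt_card
      (s := {α, t.ap α, b, j}) (t := E) (Finset.card_le_four.trans_lt (by omega))
    simp only [Finset.mem_insert, Finset.mem_singleton, not_or] at nk
    refine absurd (card_le c.ZV one_pos fun l hl => ?_) (by omega)
    by_cases e : t.ap j = b
    · exact ((main l hl).2 k hk nk.1 nk.2.1 nk.2.2.1).2 fun h => nk.2.2.2 (πi (h.trans e.symm))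
    · exact ((main l hl).2 j hj nj.1 nj.2.1 nj.2.2).2 e
  · exact ⟨by omega, (card_le _ (show 0 < n by omega) fun l hl => (main l hl).1).trans n4⟩

end Cfsg.Agent.H39.SwDm1A
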